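import Cfsg.Agent.Lib.R3f.Defs

set_option autoImplicit false

namespace CfsgLib.R3f

open MulAction

variable {G X : Type*} [Group G] [Fintype X] [DecidableEq X] [MulAction G X]

/-! Package API1: the graph. All proofs are direct (orbit-stabiliser, double counting). -/

/-- Orbit-stabiliser for a subgroup `L` transitive on a finset. -/
theorem card_of_tr [Finite G] (L : Subgroup G) (y : X) (s : Finset X)
    (h : ∀ z, z ∈ s ↔ ∃ g ∈ L, g • y = z) :
    s.card * Nat.card ↥(L ⊓ stabilizer G y) = Nat.card L := by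
  have h1 := MulAction.index_stabilizer L y
  have h2 : orbit L y = (s : Set X) := by
    ext z
    rw [Finset.mem_coe, h]
    exact ⟨fun ⟨g, hg⟩ => ⟨g, g.2, hg⟩, fun ⟨g, hg, e⟩ => ⟨⟨g, hg⟩, e⟩⟩
  rw [h2, Set.ncard_coe_finset] at h1
  have h3 : stabilizer L y = (L ⊓ stabilizer G y).subgroupOf L := by
    ext g
    simp [Subgroup.mem_subgroupOf, mem_stabilizer_iff, Subgroup.smul_def]
  have h4 : Nat.card (stabilizer L y) = Nat.card ↥(L ⊓ stabilizer G y) := by
    rw [h3]
    exact Nat.card_congr (Subgroup.subgroupOfEquivOfLe inf_le_left).toEquiv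
  rw [← h1, ← h4, Subgroup.index_mul_card]

namespace Gr

variable (C : Gr G X)

theorem symm2 {x y : X} (h : y ∈ C.N2 x) : x ∈ C.N2 y := by
  rw [C.mem2] at h ⊢
  exact ⟨h.1.symm, fun h' => h.2 (C.symm h')⟩

theorem smul1_iff (g : G) {x y : X} : g • y ∈ C.N1 (g • x) ↔ y ∈ C.N1 x := by
  refine ⟨fun h => ?_, C.smul1 g⟩
  simpa using C.smul1 g⁻¹ h

theorem smul2_iff (g : G) {x y : X} : g • y ∈ C.N2 (g • x) ↔ y ∈ C.N2 x := by
  rw [C.mem2, C.mem2, C.smul1_iff]
  simp

theorem smul2 (g : G) {x y : X} (h : y ∈ C.N2 x) : g • y ∈ C.N2 (g • x) :=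
  (C.smul2_iff g).2 h

theorem ne1 {x y : X} (h : y ∈ C.N1 x) : y ≠ x := by
  rintro rfl
  exact C.irr _ h

theorem tri (x y : X) : y = x ∨ y ∈ C.N1 x ∨ y ∈ C.N2 x := by
  rw [C.mem2]
  tauto

theorem card_n : Fintype.card X = 1 + C.k + C.l := by
  obtain ⟨x⟩ := C.ne
  have hd : Disjoint (C.N1 x) (C.N2 x) :=
    Finset.disjoint_left.2 fun y h1 h2 => (C.mem2.1 h2).2 h1
  have hx : x ∉ C.N1 x ∪ C.N2 x := by
    simp [C.irr, C.mem2]
  have : (Finset.univ : Finset X) = insert x (C.N1 x ∪ C.N2 x) := by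
    ext y
    simpa using C.tri x y
  rw [← Finset.card_univ, this, Finset.card_insert_of_notMem hx, Finset.card_union_of_disjoint hd,
    C.card1, C.card2]
  ring

theorem ex1 (x : X) : ∃ y, y ∈ C.N1 x := by
  have : 0 < (C.N1 x).card := by
    rw [C.card1]
    exact lt_trans C.mu_pos C.mu_lt
  exact Finset.card_pos.1 this

theorem ex2 (x : X) : ∃ y, y ∈ C.N2 x := by
  have : 0 < (C.N2 x).card := by
    rw [C.card2]
    exact C.l_pos
  exact Finset.card_pos.1 this

theorem pair1 {x y x' y' : X} (h : y ∈ C.N1 x) (h' : y' ∈ C.N1 x') :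
    ∃ g : G, g • x = x' ∧ g • y = y' := by
  obtain ⟨g, rfl⟩ := C.tr0 x x'
  obtain ⟨m, hm1, hm2⟩ := C.tr1 (C.smul1 g h) h'
  exact ⟨m * g, by rw [mul_smul, hm1], by rw [mul_smul, hm2]⟩

theorem pair2 {x y x' y' : X} (h : y ∈ C.N2 x) (h' : y' ∈ C.N2 x') :
    ∃ g : G, g • x = x' ∧ g • y = y' := by
  obtain ⟨g, rfl⟩ := C.tr0 x x'
  obtain ⟨m, hm1, hm2⟩ := C.tr2 (C.smul2 g h) h'
  exact ⟨m * g, by rw [mul_smul, hm1], by rw [mul_smul, hm2]⟩

/-- `N1 y` is the disjoint union of `N1 x ∩ N1 y` and `N2 x ∩ N1 y` (`x ∉ N1 y`). -/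
theorem cross {x y : X} (h : y ∈ C.N2 x) : (C.N2 x ∩ C.N1 y).card + C.mu = C.k := by
  have hd : Disjoint (C.N2 x ∩ C.N1 y) (C.N1 x ∩ C.N1 y) :=
    Finset.disjoint_left.2 fun z h1 h2 =>
      (C.mem2.1 (Finset.mem_inter.1 h1).1).2 (Finset.mem_inter.1 h2).1
  have hu : (C.N2 x ∩ C.N1 y) ∪ (C.N1 x ∩ C.N1 y) = C.N1 y := by
    ext z
    simp only [Finset.mem_union, Finset.mem_inter]
    refine ⟨fun h => h.elim And.right And.right, fun hz => ?_⟩
    rcases C.tri x z with rfl | h1 | h1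
    · exact absurd hz (C.mem2.1 (C.symm2 h)).2
    · exact Or.inr ⟨h1, hz⟩
    · exact Or.inl ⟨h1, hz⟩
  rw [← C.cardm h, ← Finset.card_union_of_disjoint hd, hu, C.card1]

theorem ex_cross {x y : X} (h : y ∈ C.N2 x) : ∃ z, z ∈ C.N2 x ∧ z ∈ C.N1 y := by
  have h1 := C.cross h
  have h2 := C.mu_lt
  obtain ⟨z, hz⟩ := Finset.card_pos.1 (show 0 < (C.N2 x ∩ C.N1 y).card by omega)
  exact ⟨z, Finset.mem_inter.1 hz⟩

/-- Count the pairs `(y, z)` with `y ∈ N1 x`, `z ∈ N1 y` according to `z = x`, `z ∈ N1 x`,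
`z ∈ N2 x`. -/
theorem edge : C.l * C.mu + C.k * (C.lam + 1) = C.k * C.k := by
  obtain ⟨x⟩ := C.ne
  have h1 : ∀ y ∈ C.N1 x, ((C.N2 x).filter fun z => z ∈ C.N1 y).card + (C.lam + 1) = C.k := by
    intro y hy
    have hd : Disjoint ((C.N2 x).filter fun z => z ∈ C.N1 y) (insert x (C.N1 x ∩ C.N1 y)) := by
      refine Finset.disjoint_left.2 fun z h1 h2 => ?_
      have h3 := C.mem2.1 (Finset.mem_filter.1 h1).1
      rcases Finset.mem_insert.1 h2 with h | h
      · exact h3.1 h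
      · exact h3.2 (Finset.mem_inter.1 h).1
    have hu : ((C.N2 x).filter fun z => z ∈ C.N1 y) ∪ insert x (C.N1 x ∩ C.N1 y) = C.N1 y := by
      ext z
      simp only [Finset.mem_union, Finset.mem_inter, Finset.mem_filter, Finset.mem_insert]
      constructor
      · rintro (h | rfl | h)
        · exact h.2
        · exact C.symm hy
        · exact h.2
      · intro hz
        rcases C.tri x z with h | h | h
        · exact Or.inr (Or.inl h)
        · exact Or.inr (Or.inr ⟨h, hz⟩)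
        · exact Or.inl ⟨h, hz⟩
    have hx : x ∉ C.N1 x ∩ C.N1 y := fun h => C.irr x (Finset.mem_inter.1 h).1
    rw [← C.cardl hy, ← Finset.card_insert_of_notMem hx, ← Finset.card_union_of_disjoint hd, hu,
      C.card1]
  have h2 : ∀ z ∈ C.N2 x, ((C.N1 x).filter fun y => z ∈ C.N1 y).card = C.mu := by
    intro z hz
    rw [← C.cardm hz]
    congr 1
    ext y
    simp only [Finset.mem_filter, Finset.mem_inter]
    exact and_congr_right fun _ => ⟨C.symm, C.symm⟩
  have h3 : ∑ y ∈ C.N1 x, ((C.N2 x).filter fun z => z ∈ C.N1 y).card =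
      ∑ z ∈ C.N2 x, ((C.N1 x).filter fun y => z ∈ C.N1 y).card :=
    Finset.sum_card_bipartiteAbove_eq_sum_card_bipartiteBelow (fun y z => z ∈ C.N1 y)
  rw [Finset.sum_congr rfl h2, Finset.sum_const, C.card2, smul_eq_mul] at h3
  have h4 : ∑ y ∈ C.N1 x, (((C.N2 x).filter fun z => z ∈ C.N1 y).card + (C.lam + 1)) =
      ∑ _y ∈ C.N1 x, C.k := Finset.sum_congr rfl h1
  rw [Finset.sum_add_distrib, h3, Finset.sum_const, Finset.sum_const, C.card1, smul_eq_mul,
    smul_eq_mul] at h4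
  exact h4

theorem card_G [Finite G] (x : X) :
    Nat.card G = (1 + C.k + C.l) * Nat.card (stabilizer G x) := by
  have := card_of_tr (⊤ : Subgroup G) x Finset.univ fun z => by
    simpa using C.tr0 x z
  rw [top_inf_eq, Finset.card_univ, C.card_n, Subgroup.card_top] at this
  exact this.symm

theorem card_S1 [Finite G] {x y : X} (h : y ∈ C.N1 x) :
    C.k * Nat.card (S2 G x y) = Nat.card (stabilizer G x) := by
  have := card_of_tr (stabilizer G x) y (C.N1 x) fun z =>
    ⟨fun hz => by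
      obtain ⟨g, h1, h2⟩ := C.tr1 h hz
      exact ⟨g, h1, h2⟩, by
      rintro ⟨g, h1, rfl⟩
      have := C.smul1 g h
      rwa [mem_stabilizer_iff.1 h1] at this⟩
  rwa [C.card1] at this

theorem card_S2 [Finite G] {x y : X} (h : y ∈ C.N2 x) :
    C.l * Nat.card (S2 G x y) = Nat.card (stabilizer G x) := by
  have := card_of_tr (stabilizer G x) y (C.N2 x) fun z =>
    ⟨fun hz => by
      obtain ⟨g, h1, h2⟩ := C.tr2 h hz
      exact ⟨g, h1, h2⟩, by
      rintro ⟨g, h1, rfl⟩
      have := C.smul2 g h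
      rwa [mem_stabilizer_iff.1 h1] at this⟩
  rwa [C.card2] at this

include C in
/-- A normal subgroup fixing a point is trivial. -/
theorem normal_bot {N : Subgroup G} (hN : N.Normal) {x : X} (hx : ∀ a ∈ N, a • x = x) :
    N = ⊥ := by
  rw [eq_bot_iff]
  intro a ha
  refine C.faith a fun y => ?_
  obtain ⟨g, rfl⟩ := C.tr0 x y
  have := hx _ (hN.conj_mem' a ha g)
  rw [mul_smul, mul_smul, inv_smul_eq_iff] at this
  exact this

include C in
/-- A non-trivial subgroup normal in the stabiliser of `x` has the stabiliser as normaliser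
(`max`; a normal subgroup of `G` fixing `x` fixes every point, `tr0`, `faith`). -/
theorem norm_eq [Finite G] {Y : Subgroup G} {x : X} (hY : Y ≠ ⊥) (hx : ∀ a ∈ Y, a • x = x)
    (hn : ∀ g : G, g • x = x → ∀ a ∈ Y, g * a * g⁻¹ ∈ Y) {g : G}
    (hg : ∀ a ∈ Y, g * a * g⁻¹ ∈ Y) : g • x = x := by
  have hle : stabilizer G x ≤ Subgroup.normalizer (Y : Set G) := fun m hm =>
    Subgroup.mem_normalizer_fintype (hn m hm)
  have hgN : g ∈ Subgroup.normalizer (Y : Set G) := Subgroup.mem_normalizer_fintype hg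
  by_contra hne
  have hlt : stabilizer G x < Subgroup.normalizer (Y : Set G) :=
    lt_of_le_of_ne hle fun h => hne (by rw [← h] at hgN; exact hgN)
  have htop := (C.max x).2 _ hlt
  exact hY (C.normal_bot (Subgroup.normalizer_eq_top_iff.1 htop) hx)

include C in
/-- A non-trivial normal subgroup is transitive (`N ⊔ stabilizer = ⊤`). -/
theorem normal_tr {N : Subgroup G} [N.Normal] (hN : N ≠ ⊥) (x y : X) :
    ∃ a ∈ N, a • x = y := by
  have hlt : stabilizer G x < N ⊔ stabilizer G x := by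
    refine lt_of_le_of_ne le_sup_right fun h => hN (C.normal_bot inferInstance (x := x) ?_)
    intro a ha
    have : a ∈ N ⊔ stabilizer G x := Subgroup.mem_sup_left ha
    rw [← h] at this
    exact this
  have htop := (C.max x).2 _ hlt
  obtain ⟨g, rfl⟩ := C.tr0 x y
  have hg : g ∈ ((N ⊔ stabilizer G x : Subgroup G) : Set G) := by
    rw [htop]
    trivial
  rw [Subgroup.normal_mul] at hg
  obtain ⟨a, ha, m, hm, rfl⟩ := hg
  exact ⟨a, ha, by rw [mul_smul, mem_stabilizer_iff.1 hm]⟩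

theorem fx_conj (g s : G) : fx X (g * s * g⁻¹) = fx X s := by
  unfold fx
  symm
  refine Finset.card_bij (fun x _ => g • x) ?_ ?_ ?_
  · intro x hx
    simp only [Finset.mem_filter, Finset.mem_univ, true_and] at hx ⊢
    rw [mul_smul, inv_smul_smul, mul_smul, hx]
  · intro a _ b _ h
    exact smul_left_cancel g h
  · intro y hy
    simp only [Finset.mem_filter, Finset.mem_univ, true_and] at hy ⊢
    refine ⟨g⁻¹ • y, ?_, smul_inv_smul g y⟩
    rw [mul_smul, mul_smul] at hy
    rw [eq_inv_smul_iff, hy]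

theorem al_conj (g s : G) : C.al (g * s * g⁻¹) = C.al s := by
  unfold al
  symm
  refine Finset.card_bij (fun x _ => g • x) ?_ ?_ ?_
  · intro x hx
    simp only [Finset.mem_filter, Finset.mem_univ, true_and] at hx ⊢
    rw [mul_smul, inv_smul_smul, mul_smul]
    exact C.smul1 g hx
  · intro a _ b _ h
    exact smul_left_cancel g h
  · intro y hy
    simp only [Finset.mem_filter, Finset.mem_univ, true_and] at hy ⊢
    refine ⟨g⁻¹ • y, ?_, smul_inv_smul g y⟩
    rw [mul_smul, mul_smul] at hy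
    rw [← C.smul1_iff g, smul_inv_smul]
    exact hy

theorem fx_one : fx X (1 : G) = 1 + C.k + C.l := by
  unfold fx
  rw [← C.card_n]
  simp

theorem al_one : C.al (1 : G) = 0 := by
  unfold al
  simp [C.irr]

end Gr

end CfsgLib.R3f
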