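import Cfsg.Agent.Lib.R3f.Api1

set_option autoImplicit false
set_option Elab.async false

namespace CfsgLib.R3f

open MulAction

variable {G X : Type*} [Group G] [Fintype G] [Fintype X] [DecidableEq X] [MulAction G X]

/-! Package API2: the Frobenius kernel, elementary facts. -/

/-- the order of a group acting freely on a finite set divides its size -/
theorem api2_free {H α : Type*} [Group H] (L : Subgroup H) (act : H → α → α) (h1 : ∀ z, act 1 z = z)
    (hm : ∀ g h z, act (g * h) z = act g (act h z)) (s : Finset α) (hinv : ∀ g ∈ L, ∀ z ∈ s, act g z ∈ s)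
    (hfree : ∀ g ∈ L, ∀ z ∈ s, act g z = z → g = 1) : Nat.card L ∣ s.card := by
  letI : MulAction L s :=
    { smul := fun g z => ⟨act g.1 z.1, hinv _ g.2 _ z.2⟩
      one_smul := fun z => Subtype.ext (h1 _)
      mul_smul := fun g h z => Subtype.ext (hm _ _ _) }
  have e := MulAction.selfEquivOrbitsQuotientProd (G := L) (X := s) fun z =>
    (Subgroup.eq_bot_iff_forall _).2 fun g hg => Subtype.ext (hfree g g.2 z z.2 (congrArg Subtype.val hg))
  rw [← Nat.card_eq_finsetCard, Nat.card_congr e, Nat.card_prod]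
  exact Dvd.intro_left _ rfl

theorem api2_card_le {H : Type*} [Group H] [Finite H] {A B : Subgroup H} (g : H)
    (h : ∀ a ∈ A, g * a * g⁻¹ ∈ B) : Nat.card A ≤ Nat.card B :=
  Nat.card_le_card_of_injective (fun a : A => (⟨g * a * g⁻¹, h a a.2⟩ : B)) fun a b e =>
    Subtype.ext (mul_left_cancel (mul_right_cancel (congrArg Subtype.val e)))

namespace Cf

variable (C : Cf G X)

/-- `card_S1`, `card_H`. -/
theorem card_St (x : X) : Nat.card (stabilizer G x) = C.k * C.h := by
  obtain ⟨y, hy⟩ := C.ex1 x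
  rw [← C.card_S1 hy, C.card_H hy]

/-- A subgroup `L` of a complement acts semiregularly (by `•`) on every `L`-invariant set of
neighbours of `x` avoiding `y` (`frob`), so its order divides the size of that set. -/
theorem dvd_card {x y : X} (hy : y ∈ C.N1 x) {L : Subgroup G} (hL : L ≤ S2 G x y) {s : Finset X}
    (hs : s ⊆ C.N1 x) (hys : y ∉ s) (hinv : ∀ g ∈ L, ∀ z ∈ s, g • z ∈ s) :
    Nat.card L ∣ s.card := by
  refine api2_free L (fun g z => g • z) (one_smul G) (fun g h z => mul_smul g h z) s hinv fun g hg z hz e => ?_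
  exact C.frob (hL hg).1 hy (hs hz) (fun e' => hys (e' ▸ hz)) (hL hg).2 e

/-- `dvd_card` with `(N1 x).erase y`. -/
theorem h_dvd : C.h ∣ C.k - 1 := by
  obtain ⟨x⟩ := C.ne
  obtain ⟨y, hy⟩ := C.ex1 x
  have := C.dvd_card hy le_rfl (s := (C.N1 x).erase y) (Finset.erase_subset _ _) (Finset.notMem_erase _ _)
    fun g hg z hz => by
      rw [Finset.mem_erase] at hz ⊢
      have h1 : g • x = x := hg.1
      have h2 : g • y = y := hg.2
      refine ⟨fun e => hz.1 (smul_left_cancel g (e.trans h2.symm)), ?_⟩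
      have := C.smul1 g hz.2
      rwa [h1] at this
  rwa [C.card_H hy, Finset.card_erase_of_mem hy, C.card1] at this

theorem cop : Nat.Coprime C.k C.h := by
  obtain ⟨c, hc⟩ := C.h_dvd
  have h1 := C.mu_lt
  have : C.k = 1 + C.h * c := by omega
  rw [this]
  exact (Nat.coprime_add_mul_left_left 1 C.h c).2 (Nat.coprime_one_left _)

/-- `k ≥ 2` (`mu_pos`, `mu_lt`) and `h ∣ k - 1`. -/
theorem h_lt : C.h < C.k := by
  have h1 := C.mu_lt
  have h2 := C.mu_pos
  have := Nat.le_of_dvd (by omega) C.h_dvd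
  omega

/-- `dvd_card` with `N1 x ∩ N1 y`. -/
theorem h_dvd_lam : C.h ∣ C.lam := by
  obtain ⟨x⟩ := C.ne
  obtain ⟨y, hy⟩ := C.ex1 x
  have := C.dvd_card hy le_rfl (s := C.N1 x ∩ C.N1 y) Finset.inter_subset_left
    (fun h => C.irr y (Finset.mem_inter.1 h).2) fun g hg z hz => by
      rw [Finset.mem_inter] at hz ⊢
      have h1 : g • x = x := hg.1
      have h2 : g • y = y := hg.2
      have h3 := C.smul1 g hz.1
      have h4 := C.smul1 g hz.2
      rw [h1] at h3
      rw [h2] at h4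
      exact ⟨h3, h4⟩
  rwa [C.card_H hy, C.cardl hy] at this

/-- `K_out`, `card_H`, `pow_card_eq_one'`. -/
theorem out_pow {x : X} {g : G} (hg : g • x = x) (hK : g ∉ C.K x) : g ^ C.h = 1 := by
  obtain ⟨y, hy, hgy⟩ := C.K_out hg hK
  have := pow_card_eq_one' (x := (⟨g, hg, hgy⟩ : S2 G x y))
  rw [C.card_H hy] at this
  exact congrArg Subtype.val this

/-- `cop`, `out_pow`. -/
theorem mem_K_iff {x : X} {g : G} (hg : g • x = x) : g ∈ C.K x ↔ g ^ C.k = 1 := by
  constructor
  · intro h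
    have := pow_card_eq_one' (x := (⟨g, h⟩ : C.K x))
    rw [C.card_K] at this
    exact congrArg Subtype.val this
  · intro h
    by_contra hK
    have h1 := Nat.eq_one_of_dvd_coprimes C.cop (orderOf_dvd_of_pow_eq_one h)
      (orderOf_dvd_of_pow_eq_one (C.out_pow hg hK))
    rw [orderOf_eq_one_iff] at h1
    exact hK (h1 ▸ (C.K x).one_mem)

theorem K_swap {x y : X} {a : G} (ha : a ∈ C.K x) (hy : a • y = y) : a ∈ C.K y := by
  exact (C.mem_K_iff hy).2 ((C.mem_K_iff (C.K_fix ha)).1 ha)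

theorem K_norm {x : X} {g a : G} (hg : g • x = x) (ha : a ∈ C.K x) : g * a * g⁻¹ ∈ C.K x := by
  have := C.K_conj g ha
  rwa [hg] at this

/-- If `g ∉ K x` fixes the neighbour `y`, it fixes `a • y` too, so `a • y = y` (`frob`). -/
theorem K_cent {x : X} {g a : G} (hg : g • x = x) (ha : a ∈ C.K x) (ha1 : a ≠ 1)
    (hc : Commute g a) : g ∈ C.K x := by
  by_contra hK
  obtain ⟨y, hy, hgy⟩ := C.K_out hg hK
  have h1 := C.smul1 a hy
  rw [C.K_fix ha] at h1
  have h2 : g • a • y = a • y := by rw [← mul_smul, hc.eq, mul_smul, hgy]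
  have h3 := C.frob hg hy h1 (fun e => ha1 (C.K_semi ha hy e.symm)) hgy h2
  exact hK (h3 ▸ (C.K x).one_mem)

/-- The fixed points of a non-trivial element of a kernel form a coclique. -/
theorem K_coc {x y z : X} {a : G} (ha : a ∈ C.K x) (ha1 : a ≠ 1) (hy : a • y = y)
    (hz : a • z = z) : z ∉ C.N1 y := by
  exact fun h => ha1 (C.K_semi (C.K_swap ha hy) h hz)

/-- The fixed points of an element outside the kernels form a perfect matching. -/
theorem out_nbr {x y : X} {g : G} (hg : g • x = x) (hK : g ∉ C.K x) (hy : g • y = y) :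
    ∃! z, z ∈ C.N1 y ∧ g • z = z := by
  have hK' : g ∉ C.K y := fun h => hK (C.K_swap h hg)
  obtain ⟨z, hz, hgz⟩ := C.K_out hy hK'
  refine ⟨z, ⟨hz, hgz⟩, fun w hw => ?_⟩
  by_contra hne
  exact hK (C.frob hy hw.1 hz hne hw.2 hgz ▸ (C.K x).one_mem)

/-- `K_tr`: choose `a ∈ K x` with `a • y = g • y`. -/
theorem dec {x y : X} (hy : y ∈ C.N1 x) {g : G} (hg : g • x = x) :
    ∃ a ∈ C.K x, ∃ b : G, b • x = x ∧ b • y = y ∧ g = a * b := by
  have h1 := C.smul1 g hy
  rw [hg] at h1
  obtain ⟨a, ha, e⟩ := C.K_tr hy h1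
  refine ⟨a, ha, a⁻¹ * g, ?_, ?_, by group⟩
  · rw [mul_smul, hg, C.K_fix ((C.K x).inv_mem ha)]
  · rw [mul_smul, ← e, inv_smul_smul]

/-- Otherwise `mu = lam + 1`, `l = k` (as `l > 0`), `edge` gives `mu + lam + 1 = k`, so `h`
divides `lam` and `k - 1 = 2 lam + 1`. -/
theorem srg_ne : (C.k + C.l) * C.mu ≠ (C.k + C.l) * C.lam + 2 * C.k := by
  intro h
  have h1 := C.l_pos
  have h2 := C.mu_lt
  have h3 := C.mu_pos
  have h4 : C.lam < C.mu := by
    by_contra h5
    have := Nat.mul_le_mul_left (C.k + C.l) (not_lt.1 h5)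
    omega
  have h5 : C.mu = C.lam + 1 := by
    by_contra h6
    have := Nat.mul_le_mul_left (C.k + C.l) (show C.lam + 2 ≤ C.mu by omega)
    rw [mul_add] at this
    omega
  rw [h5, mul_add] at h
  have h6 : C.l = C.k := by omega
  have h7 := C.edge
  rw [h6, h5, ← mul_add] at h7
  have h8 := Nat.eq_of_mul_eq_mul_left (by omega) h7
  have h9 := C.h_dvd
  rw [show C.k - 1 = 2 * C.lam + 1 by omega] at h9
  have h10 := (Nat.dvd_add_right (C.h_dvd_lam.mul_left 2)).1 h9
  have := Nat.le_of_dvd one_pos h10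
  have := C.two_le_h
  omega

/-- A complement acts semiregularly by conjugation on the non-trivial elements of the kernel
(`K_cent`, `K_semi`). -/
theorem dvd_sub {x y : X} (hy : y ∈ C.N1 x) {L Y : Subgroup G} (hL : L ≤ S2 G x y)
    (hY : Y ≤ C.K x) (hn : ∀ g ∈ L, ∀ a ∈ Y, g * a * g⁻¹ ∈ Y) :
    Nat.card L ∣ Nat.card Y - 1 := by
  classical
  have := api2_free L (fun g a => g * a * g⁻¹) (fun z => by simp) (fun g h z => by group)
    ((Finset.univ.filter fun a : G => a ∈ Y).erase 1) (fun g hg z hz => by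
      simp only [Finset.mem_erase, Finset.mem_filter, Finset.mem_univ, true_and] at hz ⊢
      exact ⟨fun e => hz.1 (by simpa using e), hn g hg z hz.2⟩) fun g hg z hz e => by
      simp only [Finset.mem_erase, Finset.mem_filter, Finset.mem_univ, true_and] at hz
      exact C.K_semi (C.K_cent (hL hg).1 (hY hz.2) hz.1 (mul_inv_eq_iff_eq_mul.1 e)) hy (hL hg).2
  rwa [Finset.card_erase_of_mem (by simp [Y.one_mem]), ← Fintype.card_subtype, ← Nat.card_eq_fintype_card] at this

open Classical in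
/-- The conjugates of `a ∈ K x`, `a ≠ 1`, under a complement are `h` distinct elements. -/
theorem card_cls {x y : X} (hy : y ∈ C.N1 x) {a : G} (ha : a ∈ C.K x) (ha1 : a ≠ 1) :
    ((Finset.univ.filter fun g : G => g ∈ S2 G x y).image fun g => g * a * g⁻¹).card = C.h := by
  rw [Finset.card_image_of_injOn, ← Fintype.card_subtype, ← Nat.card_eq_fintype_card, C.card_H hy]
  intro g hg g' hg' e
  simp only [Finset.coe_filter, Finset.mem_univ, true_and, Set.mem_setOf_eq] at hg hg' e
  have h1 := (S2 G x y).mul_mem ((S2 G x y).inv_mem hg') hg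
  have h2 : Commute (g'⁻¹ * g) a := by
    show g'⁻¹ * g * a = a * (g'⁻¹ * g)
    calc g'⁻¹ * g * a = g'⁻¹ * (g * a * g⁻¹) * g := by group
      _ = _ := by rw [e]; group
  exact (inv_mul_eq_one.1 (C.K_semi (C.K_cent h1.1 ha ha1 h2) hy h1.2)).symm

end Cf

end CfsgLib.R3f
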