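import Cfsg.Agent.Lib.R3f.Api2

set_option autoImplicit false
set_option Elab.async false

namespace CfsgLib.R3f

open MulAction

variable {G X : Type*} [Group G] [Fintype G] [Fintype X] [DecidableEq X] [MulAction G X]

/-! Package API3: the second suborbit, Sylow subgroups. -/

namespace Cf

variable (C : Cf G X)

/-- If `Y` fixes `y` it fixes all of `N2 x` (`tr2`, normality), in particular a neighbour `z` of
`y` (`ex_cross`); `K_coc`. -/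
theorem not_fix {Y : Subgroup G} {x y : X} (hY : Y ≠ ⊥) (hK : Y ≤ C.K x)
    (hn : ∀ g : G, g • x = x → ∀ a ∈ Y, g * a * g⁻¹ ∈ Y) (hy : y ∈ C.N2 x) :
    ∃ a ∈ Y, a • y ≠ y := by
  by_contra h
  push_neg at h
  obtain ⟨z, hz, hzy⟩ := C.ex_cross hy
  obtain ⟨g, hg, e⟩ := C.tr2 hy hz
  obtain ⟨a, ha, ha1⟩ := (Subgroup.bot_or_exists_ne_one Y).resolve_left hY
  have h1 := h _ (hn g⁻¹ (inv_smul_eq_iff.2 hg.symm) a ha)
  rw [inv_inv, mul_smul, mul_smul, e, inv_smul_eq_iff, e] at h1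
  exact C.K_coc (hK ha) ha1 (h a ha) h1 hzy

/-- The fixed neighbour `z` of `y` (`out_nbr`) is not `x`, not `y`, and not a neighbour of `x`
(it would have the two fixed neighbours `x`, `y`). -/
theorem not_one_fix {x y : X} {g : G} (hg : g • x = x) (hK : g ∉ C.K x) (hy : y ∈ C.N2 x)
    (hgy : g • y = y) : ∃ z ∈ C.N2 x, z ≠ y ∧ g • z = z := by
  obtain ⟨z, ⟨hz, hgz⟩, -⟩ := C.out_nbr hg hK hgy
  refine ⟨z, ?_, C.ne1 hz, hgz⟩
  rcases C.tri x z with e | e | e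
  · exact absurd (C.symm (e ▸ hz)) (C.mem2.1 hy).2
  · exact absurd ((C.out_nbr hg hK hgz).unique ⟨C.symm hz, hgy⟩ ⟨C.symm e, hg⟩) (C.mem2.1 hy).1
  · exact e

theorem mem_K1 {x y : X} {a : G} : a ∈ C.K x ⊓ C.K y ↔ a ∈ C.K x ∧ a • y = y := by
  exact ⟨fun h => ⟨h.1, C.K_fix h.2⟩, fun h => ⟨h.1, C.K_swap h.1 h.2⟩⟩

/-- Conjugate by the element of `pair2`. -/
theorem card_K1 {x y x' y' : X} (hy : y ∈ C.N2 x) (hy' : y' ∈ C.N2 x') :
    Nat.card ↥(C.K x ⊓ C.K y) = Nat.card ↥(C.K x' ⊓ C.K y') := by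
  have key : ∀ {x y x' y' : X}, y ∈ C.N2 x → y' ∈ C.N2 x' →
      Nat.card ↥(C.K x ⊓ C.K y) ≤ Nat.card ↥(C.K x' ⊓ C.K y') := by
    intro x y x' y' hy hy'
    obtain ⟨g, e1, e2⟩ := C.pair2 hy hy'
    exact api2_card_le g fun a ha => ⟨e1 ▸ C.K_conj g ha.1, e2 ▸ C.K_conj g ha.2⟩
  exact le_antisymm (key hy hy') (key hy' hy)

theorem card_U {x y x' y' : X} (hy : y ∈ C.N2 x) (hy' : y' ∈ C.N2 x') :
    Nat.card (S2 G x y) = Nat.card (S2 G x' y') := by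
  refine Nat.eq_of_mul_eq_mul_left C.l_pos ?_
  rw [C.card_S2 hy, C.card_S2 hy', C.card_St, C.card_St]

/-- `ex_cross`, `K_coc`. -/
theorem K1_disj {x y : X} (hy : y ∈ C.N2 x) :
    ∃ z ∈ C.N2 x, ∀ a ∈ C.K x, a • y = y → a • z = z → a = 1 := by
  obtain ⟨z, hz, hzy⟩ := C.ex_cross hy
  refine ⟨z, hz, fun a ha h1 h2 => ?_⟩
  by_contra h
  exact C.K_coc ha h h1 h2 hzy

/-- `(a, b) ↦ a * b` is injective on `(K x ⊓ K y) × (K x ⊓ K z)` for the `z` of `K1_disj`. -/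
theorem K1_sq {x y : X} (hy : y ∈ C.N2 x) :
    Nat.card ↥(C.K x ⊓ C.K y) * Nat.card ↥(C.K x ⊓ C.K y) ≤ C.k := by
  obtain ⟨z, hz, h⟩ := C.K1_disj hy
  nth_rewrite 2 [C.card_K1 hy hz]
  rw [← Nat.card_prod, ← C.card_K x]
  refine Nat.card_le_card_of_injective (fun p => (⟨p.1.1 * p.2.1, (C.K x).mul_mem p.1.2.1 p.2.2.1⟩ : C.K x)) ?_
  rintro ⟨a, b⟩ ⟨a', b'⟩ e
  have e1 : a.1 * b.1 = a'.1 * b'.1 := congrArg Subtype.val e
  have e2 : a'.1⁻¹ * a.1 = b'.1 * b.1⁻¹ := by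
    rw [inv_mul_eq_iff_eq_mul, ← mul_assoc, ← e1, mul_inv_cancel_right]
  have h1 := (a'⁻¹ * a).2
  have h2 := (b' * b⁻¹).2
  have h3 : a'.1⁻¹ * a.1 = 1 := h _ h1.1 (C.K_fix h1.2) (by rw [e2]; exact C.K_fix h2.2)
  have h4 : a = a' := Subtype.ext (inv_mul_eq_one.1 h3).symm
  subst h4
  exact Prod.ext rfl (Subtype.ext (mul_left_cancel e1))

/-- `S2 G x y / (K x ⊓ K y)` embeds in `stabilizer / K x` of order `h`: take
`u = (K x).relIndex (S2 G x y)`, which divides `(K x).relIndex (stabilizer G x) = h`. -/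
theorem U_dec {x y : X} (hy : y ∈ C.N2 x) :
    ∃ u, u ∣ C.h ∧ Nat.card (S2 G x y) = Nat.card ↥(C.K x ⊓ C.K y) * u := by
  have hn : ((C.K x).subgroupOf (stabilizer G x)).Normal := ⟨fun a ha g => C.K_norm g.2 ha⟩
  have hle : C.K x ≤ stabilizer G x := fun a ha => C.K_fix ha
  refine ⟨(C.K x).relIndex (S2 G x y), ?_, ?_⟩
  · have h1 := ((C.K x).subgroupOf (stabilizer G x)).relIndex_dvd_index_of_normal
      ((S2 G x y).subgroupOf (stabilizer G x))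
    rw [Subgroup.relIndex_subgroupOf inf_le_left] at h1
    have h2 := ((C.K x).subgroupOf (stabilizer G x)).card_mul_index
    rw [Nat.card_congr (Subgroup.subgroupOfEquivOfLe hle).toEquiv, C.card_K, C.card_St] at h2
    rwa [Nat.eq_of_mul_eq_mul_left (lt_of_le_of_lt (Nat.zero_le _) C.mu_lt) h2] at h1
  · have h1 : C.K x ⊓ C.K y = C.K x ⊓ S2 G x y := by
      ext a
      rw [C.mem_K1]
      exact ⟨fun h => ⟨h.1, C.K_fix h.1, h.2⟩, fun h => ⟨h.1, h.2.2⟩⟩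
    rw [h1, ← Nat.card_congr (Subgroup.subgroupOfEquivOfLe (inf_le_right : C.K x ⊓ S2 G x y ≤ _)).toEquiv,
      Subgroup.inf_subgroupOf_right]
    exact ((C.K x).subgroupOf (S2 G x y)).card_mul_index.symm

/-- Two points fixed by `K x ⊓ K y ≠ ⊥` are non-adjacent (`K_coc`) and have the same
intersection of kernels (`K_swap`, `card_K1`). -/
theorem K1_eq {x y x' y' : X} (hy : y ∈ C.N2 x) (h1 : C.K x ⊓ C.K y ≠ ⊥) (hne : y' ≠ x')
    (hx' : ∀ a ∈ C.K x ⊓ C.K y, a • x' = x') (hy' : ∀ a ∈ C.K x ⊓ C.K y, a • y' = y') :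
    y' ∈ C.N2 x' ∧ C.K x' ⊓ C.K y' = C.K x ⊓ C.K y := by
  obtain ⟨a, ha, ha1⟩ := (Subgroup.bot_or_exists_ne_one _).resolve_left h1
  have h2 : y' ∈ C.N2 x' := C.mem2.2 ⟨hne, C.K_coc ha.1 ha1 (hx' a ha) (hy' a ha)⟩
  refine ⟨h2, (Subgroup.eq_of_le_of_card_ge (fun b hb => ?_) (C.card_K1 h2 hy).le).symm⟩
  exact ⟨C.K_swap hb.1 (hx' b hb), C.K_swap hb.1 (hy' b hb)⟩

theorem api3_aux {p : ℕ} [Fact p.Prime] (hp : p ∣ C.k) (x : X) :
    ∃ P : Subgroup G, IsPGroup p P ∧ P ≠ ⊥ ∧ ¬ p ∣ P.relIndex (C.K x) ∧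
      ∀ a : G, a ∈ P ↔ a ∈ C.K x ∧ ∃ i : ℕ, a ^ p ^ i = 1 := by
  haveI := C.K_nil x
  obtain ⟨Q⟩ : Nonempty (Sylow p (C.K x)) := inferInstance
  refine ⟨(Q : Subgroup (C.K x)).map (C.K x).subtype, Q.2.map _, ?_, ?_, fun a => ⟨?_, ?_⟩⟩
  · rw [Ne, Subgroup.map_eq_bot_iff_of_injective _ (C.K x).subtype_injective]
    exact Q.ne_bot_of_dvd_card (by rw [C.card_K]; exact hp)
  · rw [Subgroup.relIndex, Subgroup.subgroupOf, Subgroup.comap_map_eq_self_of_injective (C.K x).subtype_injective]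
    exact Q.not_dvd_index
  · rintro ⟨b, hb, rfl⟩
    obtain ⟨i, hi⟩ := Q.2 ⟨b, hb⟩
    exact ⟨b.2, i, congrArg (fun z : Q => z.1.1) hi⟩
  · rintro ⟨ha, i, hi⟩
    have h1 : IsPGroup p (Subgroup.zpowers (⟨a, ha⟩ : C.K x)) := by
      obtain ⟨j, -, hj⟩ := (Nat.dvd_prime_pow Fact.out).1
        (orderOf_dvd_of_pow_eq_one (show (⟨a, ha⟩ : C.K x) ^ p ^ i = 1 from Subtype.ext hi))
      exact IsPGroup.of_card (n := j) (by rw [Nat.card_zpowers, hj])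
    obtain ⟨R, hR⟩ := h1.exists_le_sylow
    haveI := Q.unique_of_normal inferInstance
    rw [Subsingleton.elim R Q] at hR
    exact ⟨⟨a, ha⟩, hR (Subgroup.mem_zpowers _), rfl⟩

theorem api3_mod {p : ℕ} [Fact p.Prime] (hp : p ∣ C.k) : ¬ p ∣ 1 + C.k + C.l := by
  obtain ⟨x⟩ := C.ne
  obtain ⟨P, hP, h1, -, h3⟩ := C.api3_aux hp x
  have hle : P ≤ C.K x := fun a ha => ((h3 a).1 ha).1
  have h4 : fixedPoints P X = {x} := by
    ext y
    rw [Set.mem_singleton_iff, mem_fixedPoints]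
    refine ⟨fun h => ?_, fun e a => e ▸ C.K_fix (hle a.2)⟩
    rcases C.tri x y with e | e | e
    · exact e
    · exact absurd ((Subgroup.eq_bot_iff_forall _).2 fun a ha => C.K_semi (hle ha) e (h ⟨a, ha⟩)) h1
    · obtain ⟨a, ha, h5⟩ := C.not_fix h1 hle (fun g hg a ha => by
        obtain ⟨h6, i, hi⟩ := (h3 a).1 ha
        exact (h3 _).2 ⟨C.K_norm hg h6, i, by rw [conj_pow, hi, mul_one, mul_inv_cancel]⟩) e
      exact absurd (h ⟨a, ha⟩) h5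
  have h5 := hP.card_modEq_card_fixedPoints X
  rw [h4, Nat.card_eq_fintype_card, C.card_n, Nat.card_unique] at h5
  intro h6
  exact (Fact.out : p.Prime).one_lt.ne' (Nat.dvd_one.1 ((h5.dvd_iff dvd_rfl).1 h6))

/-- The `p`-elements of the nilpotent group `K x` form a subgroup `P` (the normal Sylow
`p`-subgroup, `Group.isNilpotent_of_finite_tfae` / `Sylow.normal_of_isNilpotent`), normal in the
stabiliser.  It fixes only `x` (`K_semi`, `not_fix`), so `1 + k + l ≡ 1 (mod p)`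
(`IsPGroup.card_modEq_card_fixedPoints`); with `p ∤ h` its index in `G` is prime to `p`
(`IsPGroup.toSylow`). -/
theorem exists_syl {p : ℕ} [Fact p.Prime] (hp : p ∣ C.k) (x : X) :
    ∃ P : Sylow p G, (P : Subgroup G) ≠ ⊥ ∧
      ∀ a : G, a ∈ (P : Subgroup G) ↔ a ∈ C.K x ∧ ∃ i : ℕ, a ^ p ^ i = 1 := by
  obtain ⟨P, hP, h1, h2, h3⟩ := C.api3_aux hp x
  refine ⟨hP.toSylow ?_, h1, h3⟩
  have hle : P ≤ C.K x := fun a ha => ((h3 a).1 ha).1
  have h4 := (C.K x).card_mul_index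
  rw [C.card_K, C.card_G x, C.card_St, mul_left_comm] at h4
  rw [← Subgroup.relIndex_mul_index hle,
    Nat.eq_of_mul_eq_mul_left (lt_of_le_of_lt (Nat.zero_le _) C.mu_lt) h4]
  have hpp : p.Prime := Fact.out
  refine hpp.not_dvd_mul h2 (hpp.not_dvd_mul (C.api3_mod hp) fun h => ?_)
  exact hpp.one_lt.ne' (Nat.eq_one_of_dvd_coprimes C.cop hp h)

/-- `K x` is a Hall subgroup of `G` (from `exists_syl`, or its proof). -/
theorem hall : Nat.Coprime C.k (1 + C.k + C.l) := by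
  refine Nat.Coprime.symm (Nat.coprime_of_dvd fun p hp h1 h2 => ?_)
  haveI := Fact.mk hp
  exact C.api3_mod h2 h1

end Cf

end CfsgLib.R3f
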