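import Cfsg.Agent.Lib.R3f.Defs

set_option autoImplicit false

namespace CfsgLib.R3f

open MulAction

section
variable {G X : Type*} [Group G] [MulAction G X]

/-- the orbital of `(A, B)` -/
def bas1Adj (G : Type*) {X : Type*} [Group G] [MulAction G X] (A B x y : X) : Prop :=
  ∃ g : G, g • A = x ∧ g • B = y

theorem bas1_smul {A B x y : X} (g : G) : bas1Adj G A B (g • x) (g • y) ↔ bas1Adj G A B x y := by
  constructor
  · rintro ⟨h, h1, h2⟩
    exact ⟨g⁻¹ * h, by rw [mul_smul, h1, inv_smul_smul], by rw [mul_smul, h2, inv_smul_smul]⟩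
  · rintro ⟨h, rfl, rfl⟩
    exact ⟨g * h, mul_smul _ _ _, mul_smul _ _ _⟩

theorem bas1_irr {A B : X} (hBA : B ≠ A) (x : X) : ¬ bas1Adj G A B x x := by
  rintro ⟨g, h1, h2⟩
  exact hBA (smul_left_cancel g (h2.trans h1.symm))

theorem bas1_tr1 {A B x y z : X} (hy : bas1Adj G A B x y) (hz : bas1Adj G A B x z) :
    ∃ g : G, g • x = x ∧ g • y = z := by
  obtain ⟨g, rfl, rfl⟩ := hy
  obtain ⟨h, h1, rfl⟩ := hz
  exact ⟨h * g⁻¹, by rw [mul_smul, inv_smul_smul, h1], by rw [mul_smul, inv_smul_smul]⟩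

theorem bas1_three {A B : X} (hBA : B ≠ A)
    (h3 : Nat.card (orbitRel.Quotient ↥(stabilizer G A) X) = 3) :
    ∃ C : X, C ≠ A ∧ ¬ bas1Adj G A B A C ∧
      ∀ y, y ≠ A → ¬ bas1Adj G A B A y → ∃ g : G, g • A = A ∧ g • C = y := by
  classical
  have hfin : Finite (orbitRel.Quotient ↥(stabilizer G A) X) := Nat.finite_of_card_ne_zero (by omega)
  have := Fintype.ofFinite (orbitRel.Quotient ↥(stabilizer G A) X)
  let q : X → orbitRel.Quotient ↥(stabilizer G A) X := fun x => Quotient.mk'' x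
  have hq : ∀ x y, q x = q y ↔ ∃ g : G, g • A = A ∧ g • y = x := by
    intro x y
    rw [Quotient.eq'', orbitRel_apply, mem_orbit_iff]
    exact ⟨fun ⟨g, h⟩ => ⟨g.1, g.2, h⟩, fun ⟨g, h1, h2⟩ => ⟨⟨g, h1⟩, h2⟩⟩
  have hA : ∀ y, q y = q A ↔ y = A := fun y =>
    ⟨fun h => by obtain ⟨g, h1, h2⟩ := (hq _ _).1 h; rw [← h2, h1], fun h => by rw [h]⟩
  have hB : ∀ y, q y = q B ↔ bas1Adj G A B A y := fun y => hq _ _
  have hAB : q A ≠ q B := fun h => hBA ((hA B).1 h.symm)
  have hc : ((Finset.univ.erase (q A)).erase (q B)).card = 1 := by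
    rw [Finset.card_erase_of_mem (by simp [hAB.symm]), Finset.card_erase_of_mem (by simp), Finset.card_univ,
      ← Nat.card_eq_fintype_card, h3]
  obtain ⟨c, hc⟩ := Finset.card_eq_one.1 hc
  obtain ⟨C, rfl⟩ : ∃ C, q C = c := Quotient.exists_rep c
  have hm : ∀ y, q y = q C ↔ y ≠ A ∧ ¬ bas1Adj G A B A y := by
    intro y
    rw [← Finset.mem_singleton, ← hc, Finset.mem_erase, Finset.mem_erase, ne_eq, ne_eq, hA, hB]
    simp only [Finset.mem_univ, and_true, ne_eq]
    exact and_comm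
  obtain ⟨h1, h2⟩ := (hm C).1 rfl
  exact ⟨C, h1, h2, fun y a b => (hq _ _).1 ((hm y).2 ⟨a, b⟩)⟩

theorem bas1_block {A : X} (hmax : IsCoatom (stabilizer G A)) (htr : ∀ x y : X, ∃ g : G, g • x = y)
    (R : X → X → Prop) (hr : ∀ x, R x x) (hs : ∀ x y, R x y → R y x) (ht : ∀ x y z, R x y → R y z → R x z)
    (hi : ∀ (g : G) x y, R x y → R (g • x) (g • y)) {B C : X} (hB : R A B) (hBA : B ≠ A) : R A C := by
  let H : Subgroup G :=
    { carrier := {g | R A (g • A)}
      one_mem' := by simpa using hr A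
      mul_mem' := fun {a b} ha hb => ht _ _ _ ha (by rw [mul_smul]; exact hi a _ _ hb)
      inv_mem' := fun {a} ha => hs _ _ (by simpa using hi a⁻¹ _ _ ha) }
  have hlt : stabilizer G A < H := by
    refine lt_of_le_of_ne (fun g hg => ?_) fun e => ?_
    · show R A (g • A)
      rw [show g • A = A from hg]; exact hr A
    · obtain ⟨g, rfl⟩ := htr A B
      have : g ∈ H := hB
      rw [← e] at this
      exact hBA this
  obtain ⟨g, rfl⟩ := htr A C
  have : g ∈ H := by rw [hmax.2 H hlt]; trivial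
  exact this

end

/-- Package BAS1.  The orbital graph of `(A, B)`.
Proof.  `N1 x := univ.filter (∃ g, g • A = x ∧ g • B = y)`, `N2 x := univ.filter (y ≠ x ∧ y ∉ N1 x)`,
`k l lam mu` := the cardinalities at a base pair (`A`, `B`, `C0`).  `h3`: the stabiliser of `A` has
three orbits `{A}`, the orbit of `B` (`= N1 A`) and one more, so `N2 A` is a nonempty orbit (`tr2`,
`l_pos`); transport by `tr0`.  `symm`: an involution `t` (Cauchy) moves a point `x` (faithful); if
`t • x ∈ N1 x` the orbital is symmetric (every adjacent pair is a translate of `(x, t • x)`); if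
`t • x ∈ N2 x` then `N2` is symmetric, hence so is its complement `N1`.  `mu_pos`: if `mu = 0` then
"equal or adjacent" is transitive, `{A} ∪ N1 A` is a block (or: the set of `g` with
`g • A ∈ {A} ∪ N1 A` is a subgroup strictly between the stabiliser and `⊤`, against
`IsCoatom`); `mu_lt`: `mu ≤ k`, and if `mu = k` then `y ∈ N2 x → N1 y = N1 x`, so the `g` with
`g • A ∈ {A} ∪ N2 A` form such a subgroup.  `max`: `MulAction.IsPreprimitive.isCoatom_stabilizer_of_isPreprimitive`
(or `isCoatom_stabilizer_iff_preprimitive`). -/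
theorem exists_gr {G X : Type*} [Group G] [Finite G] [Fintype X] [DecidableEq X] [MulAction G X]
    [FaithfulSMul G X] (heven : Even (Nat.card G)) (hprim : IsPreprimitive G X) (A : X)
    (h3 : Nat.card (orbitRel.Quotient ↥(stabilizer G A) X) = 3) (B : X) (hBA : B ≠ A) :
    ∃ C : Gr G X, B ∈ C.N1 A := by
  classical
  have htr : ∀ x y : X, ∃ g : G, g • x = y := fun x y => hprim.toIsPretransitive.exists_smul_eq x y
  haveI : Nontrivial X := ⟨⟨B, A, hBA⟩⟩
  have hmax : ∀ x : X, IsCoatom (stabilizer G x) := fun x =>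
    IsPreprimitive.isCoatom_stabilizer_of_isPreprimitive G x
  obtain ⟨C, hCA, hC, hC'⟩ := bas1_three hBA h3
  have tr2 : ∀ {x y z : X}, y ≠ x → ¬ bas1Adj G A B x y → z ≠ x → ¬ bas1Adj G A B x z →
      ∃ g : G, g • x = x ∧ g • y = z := by
    intro x y z a1 a2 a3 a4
    obtain ⟨g, rfl⟩ := htr A x
    obtain ⟨y, rfl⟩ : ∃ y', g • y' = y := ⟨g⁻¹ • y, smul_inv_smul g y⟩
    obtain ⟨z, rfl⟩ : ∃ y', g • y' = z := ⟨g⁻¹ • z, smul_inv_smul g z⟩
    rw [bas1_smul] at a2 a4
    obtain ⟨u, u1, rfl⟩ := hC' y (fun e => a1 (by rw [e])) a2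
    obtain ⟨w, w1, rfl⟩ := hC' z (fun e => a3 (by rw [e])) a4
    refine ⟨g * w * u⁻¹ * g⁻¹, ?_, ?_⟩
    · rw [mul_smul, inv_smul_smul, mul_smul, inv_smul_eq_iff.2 u1.symm, mul_smul, w1]
    · rw [mul_smul, inv_smul_smul, mul_smul, inv_smul_smul, mul_smul]
  have p1 : ∀ {x y x' y' : X}, bas1Adj G A B x y → bas1Adj G A B x' y' → ∃ g : G, g • x = x' ∧ g • y = y' := by
    rintro _ _ _ _ ⟨g, rfl, rfl⟩ ⟨h, rfl, rfl⟩
    exact ⟨h * g⁻¹, by rw [mul_smul, inv_smul_smul], by rw [mul_smul, inv_smul_smul]⟩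
  have p2 : ∀ {x y x' y' : X}, y ≠ x → ¬ bas1Adj G A B x y → y' ≠ x' → ¬ bas1Adj G A B x' y' →
      ∃ g : G, g • x = x' ∧ g • y = y' := by
    intro x y x' y' a1 a2 a3 a4
    obtain ⟨g, rfl⟩ := htr x x'
    obtain ⟨h, h1, h2⟩ := tr2 (x := g • x) (y := g • y) (fun e => a1 (smul_left_cancel g e))
      (by rwa [bas1_smul]) a3 a4
    exact ⟨h * g, by rw [mul_smul, h1], by rw [mul_smul, h2]⟩
  have symm : ∀ {x y : X}, bas1Adj G A B x y → bas1Adj G A B y x := by
    haveI : Fact (Nat.Prime 2) := ⟨Nat.prime_two⟩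
    obtain ⟨t, ht⟩ := exists_prime_orderOf_dvd_card' (G := G) 2 heven.two_dvd
    have ht2 : t * t = 1 := by rw [← pow_two, ← ht, pow_orderOf_eq_one]
    obtain ⟨p, hp⟩ : ∃ p : X, t • p ≠ p := by
      by_contra h
      push Not at h
      have : t = 1 := eq_of_smul_eq_smul (α := X) fun x => by rw [h x, one_smul]
      rw [this, orderOf_one] at ht
      omega
    have htt : t • t • p = p := by rw [← mul_smul, ht2, one_smul]
    intro x y hxy
    by_cases h : bas1Adj G A B p (t • p)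
    · obtain ⟨g, rfl, rfl⟩ := p1 h hxy
      rw [bas1_smul]
      have := (bas1_smul t).2 h
      rwa [htt] at this
    · by_contra h'
      have hne : x ≠ y := fun e => bas1_irr hBA y (e ▸ hxy)
      obtain ⟨g, rfl, rfl⟩ := p2 hp h hne h'
      rw [bas1_smul] at hxy
      have := (bas1_smul t).2 hxy
      rw [htt] at this
      exact h this
  let N1 : X → Finset X := fun x => Finset.univ.filter fun y => bas1Adj G A B x y
  let N2 : X → Finset X := fun x => Finset.univ.filter fun y => y ≠ x ∧ ¬ bas1Adj G A B x y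
  have m1 : ∀ {x y : X}, y ∈ N1 x ↔ bas1Adj G A B x y := by simp [N1]
  have m2 : ∀ {x y : X}, y ∈ N2 x ↔ y ≠ x ∧ ¬ bas1Adj G A B x y := by simp [N2]
  have cb : ∀ (g : G) (S T : Finset X), (∀ y, g • y ∈ T ↔ y ∈ S) → T.card = S.card := by
    intro g S T h
    exact (Finset.card_bijective (fun y => g • y) (MulAction.bijective g) fun y => (h y).symm).symm
  have ci : ∀ (g : G) (x y : X), (N1 (g • x) ∩ N1 (g • y)).card = (N1 x ∩ N1 y).card := by
    intro g x y
    exact cb g _ _ fun z => by rw [Finset.mem_inter, Finset.mem_inter, m1, m1, m1, m1, bas1_smul, bas1_smul]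
  have hAB : bas1Adj G A B A B := ⟨1, one_smul _ _, one_smul _ _⟩
  have c1 : ∀ x, (N1 x).card = (N1 A).card := by
    intro x
    obtain ⟨g, rfl⟩ := htr A x
    exact cb g _ _ fun z => by rw [m1, m1, bas1_smul]
  have cm : ∀ {x y : X}, y ∈ N2 x → (N1 x ∩ N1 y).card = (N1 A ∩ N1 C).card := by
    intro x y h
    obtain ⟨g, rfl, rfl⟩ := p2 hCA hC (m2.1 h).1 (m2.1 h).2
    exact ci g _ _
  refine ⟨{ N1 := N1, N2 := N2, k := (N1 A).card, l := (N2 A).card, lam := (N1 A ∩ N1 B).card,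
            mu := (N1 A ∩ N1 C).card, mem2 := by intro x y; rw [m2, m1],
            symm := fun h => m1.2 (symm (m1.1 h)), irr := fun x h => bas1_irr hBA x (m1.1 h),
            smul1 := fun g _ _ h => m1.2 ((bas1_smul g).2 (m1.1 h)),
            faith := fun g h => eq_of_smul_eq_smul (α := X) fun x => by rw [h x, one_smul],
            tr0 := htr, tr1 := fun a b => bas1_tr1 (m1.1 a) (m1.1 b),
            tr2 := fun a b => tr2 (m2.1 a).1 (m2.1 a).2 (m2.1 b).1 (m2.1 b).2,
            card1 := c1, card2 := ?_, cardl := ?_, cardm := cm,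
            l_pos := Finset.card_pos.2 ⟨C, m2.2 ⟨hCA, hC⟩⟩, mu_pos := ?_, mu_lt := ?_,
            max := hmax, even := heven, ne := ⟨A⟩ }, m1.2 hAB⟩
  · intro x
    obtain ⟨g, rfl⟩ := htr A x
    exact cb g _ _ fun z => by rw [m2, m2, bas1_smul, ne_eq, smul_left_cancel_iff]
  · intro x y h
    obtain ⟨g, rfl, rfl⟩ := p1 hAB (m1.1 h)
    exact ci g _ _
  · rw [Nat.pos_iff_ne_zero]
    intro h0
    have := bas1_block (hmax A) htr (fun x y => y = x ∨ bas1Adj G A B x y) (fun x => Or.inl rfl)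
      (fun x y h => h.imp Eq.symm symm) ?_ (fun g x y h => h.imp (fun e => by rw [e]) (bas1_smul g).2)
      (C := C) (Or.inr hAB) hBA
    · exact this.elim hCA hC
    · rintro x y z (rfl | a) (rfl | b)
      · exact Or.inl rfl
      · exact Or.inr b
      · exact Or.inr a
      · by_contra h
        push Not at h
        have := cm (m2.2 h)
        rw [h0, Finset.card_eq_zero] at this
        have h2 : y ∈ N1 x ∩ N1 z := Finset.mem_inter.2 ⟨m1.2 a, m1.2 (symm b)⟩
        rw [this] at h2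
        exact Finset.notMem_empty _ h2
  · refine lt_of_le_of_ne (Finset.card_le_card Finset.inter_subset_left) fun h0 => ?_
    have heq : ∀ x y, ¬ bas1Adj G A B x y → ∀ z, bas1Adj G A B x z → bas1Adj G A B y z := by
      intro x y a z b
      by_cases e : y = x
      · rwa [e]
      · have h1 := cm (m2.2 ⟨e, a⟩)
        rw [h0, ← c1 x] at h1
        have h2 := Finset.eq_of_subset_of_card_le Finset.inter_subset_left h1.ge
        have h3 : z ∈ N1 x ∩ N1 y := by rw [h2]; exact m1.2 b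
        exact m1.1 (Finset.mem_inter.1 h3).2
    exact bas1_block (hmax A) htr (fun x y => ¬ bas1Adj G A B x y) (bas1_irr hBA)
      (fun x y h h' => h (symm h')) (fun x y z a b c => b (heq x y a z c))
      (fun g x y h h' => h ((bas1_smul g).1 h')) (C := B) hC hCA hAB

end CfsgLib.R3f
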