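import Cfsg.Agent.Lib.R3f.Api1
import Cfsg.Agent.S0035
import Cfsg.Agent.S0042

set_option autoImplicit false

namespace CfsgLib.R3f

open MulAction

section

variable {G X : Type*} [Group G] [Finite G] [Fintype X] [DecidableEq X] [MulAction G X]

/-- The kernel of the stabiliser of one point. -/
theorem exists_ker (C : Gr G X) (x y : X) (hy : y ∈ C.N1 x)
    (hfr : ∀ {g : G} {y z : X}, g • x = x → y ∈ C.N1 x → z ∈ C.N1 x → y ≠ z → g • y = y →
      g • z = z → g = 1)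
    (h2 : 2 ≤ Nat.card (S2 G x y)) :
    ∃ K : Subgroup G, (∀ a : G, a ∈ K ↔ a • x = x ∧ (a = 1 ∨ ∀ z ∈ C.N1 x, a • z ≠ z)) ∧
      Group.IsNilpotent K ∧ Nat.card K = C.k ∧
      ∀ {z w : X}, z ∈ C.N1 x → w ∈ C.N1 x → ∃ a ∈ K, a • z = w := by
  set M := stabilizer G x with hM
  set H : Subgroup M := (stabilizer G y).subgroupOf M with hH
  have memH : ∀ m : M, m ∈ H ↔ (m : G) • y = y := fun m => Iff.rfl
  have hcH : Nat.card H = Nat.card (S2 G x y) := by
    have : H = (S2 G x y).subgroupOf M := by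
      ext m
      rw [memH, Subgroup.mem_subgroupOf]
      exact ⟨fun h => ⟨m.2, h⟩, fun h => h.2⟩
    rw [this]
    exact Nat.card_congr (Subgroup.subgroupOfEquivOfLe inf_le_left).toEquiv
  have nb : ∀ m : M, (m : G) • y ∈ C.N1 x := fun m => by
    have := C.smul1 m hy
    rwa [mem_stabilizer_iff.1 m.2] at this
  have hF : Cfsg.IsFrobeniusComplement H := by
    rw [CfsgLib.Frob.isFrobeniusComplement_iff]
    refine ⟨?_, ?_, ?_⟩
    · intro h
      rw [h, Subgroup.card_bot] at hcH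
      omega
    · intro h
      have h1 : 1 < (C.N1 x).card := by
        rw [C.card1]
        have := C.mu_pos
        have := C.mu_lt
        omega
      obtain ⟨z, hz, hzy⟩ := Finset.exists_mem_ne h1 y
      obtain ⟨g, hg1, hg2⟩ := C.tr1 hy hz
      have : (⟨g, hg1⟩ : M) ∈ H := by
        rw [h]
        trivial
      exact hzy (hg2.symm.trans ((memH _).1 this))
    · intro g h hh h1 hc
      by_contra hg
      apply h1
      have e1 : (h : G) • y = y := (memH _).1 hh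
      have e2 : ((g * h * g⁻¹ : M) : G) • y = y := (memH _).1 hc
      have e3 : (h : G) • ((g⁻¹ : M) : G) • y = ((g⁻¹ : M) : G) • y := by
        simp only [Subgroup.coe_mul, mul_smul, Subgroup.coe_inv] at e2 ⊢
        rw [eq_inv_smul_iff, e2]
      have e4 : y ≠ ((g⁻¹ : M) : G) • y := fun e =>
        hg ((Subgroup.inv_mem_iff H).1 ((memH _).2 e.symm))
      exact Subtype.ext (hfr h.2 hy (nb _) e4 e1 e3)
  obtain ⟨N, hN, hNn, hNc⟩ := Cfsg.Agent.S0035.result H hF
  obtain ⟨N', hN', -, hnil⟩ := Cfsg.Agent.S0042.result H hF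
  obtain rfl : N' = N := SetLike.coe_injective (hN'.trans hN.symm)
  have memN : ∀ m : M, m ∈ N' ↔ ((m : G) = 1 ∨ ∀ z ∈ C.N1 x, (m : G) • z ≠ z) := by
    intro m
    rw [← SetLike.mem_coe, hN, CfsgLib.Frob.mem_kernel_iff]
    refine or_congr (by simp) ⟨fun h z hz e => ?_, fun h g hg => ?_⟩
    · obtain ⟨g, hg1, hg2⟩ := C.tr1 hz hy
      refine h ⟨g, hg1⟩ ((memH _).2 ?_)
      simp only [Subgroup.coe_mul, mul_smul, Subgroup.coe_inv]
      rw [← hg2, inv_smul_smul, e]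
    · refine h _ (nb g⁻¹) ?_
      have e2 := (memH _).1 hg
      simp only [Subgroup.coe_mul, mul_smul, Subgroup.coe_inv] at e2 ⊢
      rw [eq_inv_smul_iff, e2]
  have e : N' ≃* N'.map M.subtype := N'.equivMapOfInjective _ M.subtype_injective
  have tr : ∀ {w : X}, w ∈ C.N1 x → ∃ a ∈ N'.map M.subtype, a • y = w := by
    intro w hw
    obtain ⟨g, hg1, hg2⟩ := C.tr1 hy hw
    obtain ⟨⟨n, b⟩, hnb⟩ := hNc.2 (⟨g, hg1⟩ : M)
    refine ⟨((n : M) : G), ⟨n, n.2, rfl⟩, ?_⟩
    have e1 : g = ((n : M) : G) * ((b : M) : G) := (congrArg Subtype.val hnb).symm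
    rw [← hg2, e1, mul_smul, (memH _).1 b.2]
  refine ⟨N'.map M.subtype, fun a => ⟨?_, ?_⟩, nilpotent_of_mulEquiv e, ?_, ?_⟩
  · rintro ⟨m, hm, rfl⟩
    exact ⟨m.2, (memN m).1 hm⟩
  · rintro ⟨h1, h3⟩
    exact ⟨⟨a, h1⟩, (memN ⟨a, h1⟩).2 h3, rfl⟩
  · rw [← Nat.card_congr e.toEquiv]
    have h3 := hNc.card_mul
    rw [hcH, ← C.card_S1 hy] at h3
    exact Nat.eq_of_mul_eq_mul_right (by omega) h3
  · intro z w hz hw
    obtain ⟨a, ha, rfl⟩ := tr hz
    obtain ⟨b, hb, rfl⟩ := tr hw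
    exact ⟨b * a⁻¹, mul_mem hb (inv_mem ha), by rw [mul_smul, inv_smul_smul]⟩

end

/-- Package BAS2.  The Frobenius kernels. -/
theorem exists_cf {G X : Type*} [Group G] [Finite G] [Fintype X] [DecidableEq X] [MulAction G X]
    (C : Gr G X) (A B : X) (hB : B ∈ C.N1 A)
    (hfix : ∃ g ∈ stabilizer G A, g ≠ 1 ∧ g • B = B)
    (hfrob : ∀ g ∈ stabilizer G A, ∀ h ∈ stabilizer G A, g • B = B → g • (h • B) = h • B →
      h • B ≠ B → g = 1) :
    Nonempty (Cf G X) := by
  have hfr : ∀ {g : G} {x y z : X}, g • x = x → y ∈ C.N1 x → z ∈ C.N1 x → y ≠ z → g • y = y →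
      g • z = z → g = 1 := by
    intro g x y z hx hy hz hne hgy hgz
    obtain ⟨c, rfl, rfl⟩ := C.pair1 hB hy
    have hz' : c⁻¹ • z ∈ C.N1 A := by
      rw [← C.smul1_iff c, smul_inv_smul]
      exact hz
    obtain ⟨m, hm1, hm2⟩ := C.tr1 hB hz'
    have h1 : c⁻¹ * g * c = 1 := by
      refine hfrob _ ?_ m hm1 ?_ ?_ ?_
      · rw [mem_stabilizer_iff, mul_smul, mul_smul, hx, inv_smul_smul]
      · rw [mul_smul, mul_smul, hgy, inv_smul_smul]
      · rw [hm2, mul_smul, mul_smul, smul_inv_smul, hgz]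
      · rw [hm2]
        intro e
        exact hne (by rw [← e, smul_inv_smul])
    calc g = c * (c⁻¹ * g * c) * c⁻¹ := by group
      _ = 1 := by rw [h1]; group
  have hst : ∀ x : X, Nat.card (stabilizer G x) = Nat.card (stabilizer G A) := by
    intro x
    have h1 := C.card_G x
    rw [C.card_G A] at h1
    exact (Nat.eq_of_mul_eq_mul_left (by omega) h1).symm
  have hk : 0 < C.k := lt_trans C.mu_pos C.mu_lt
  have hH : ∀ {x y : X}, y ∈ C.N1 x → Nat.card (S2 G x y) = Nat.card (S2 G A B) := by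
    intro x y hy
    have h1 := C.card_S1 hy
    rw [hst, ← C.card_S1 hB] at h1
    exact Nat.eq_of_mul_eq_mul_left hk h1
  have h2 : 2 ≤ Nat.card (S2 G A B) := by
    obtain ⟨g, hg, hg1, hgB⟩ := hfix
    have : Nontrivial (S2 G A B) :=
      ⟨⟨⟨g, hg, hgB⟩, 1, fun e => hg1 (congrArg Subtype.val e)⟩⟩
    exact Finite.one_lt_card
  have hex : ∀ x : X, ∃ K : Subgroup G,
      (∀ a : G, a ∈ K ↔ a • x = x ∧ (a = 1 ∨ ∀ z ∈ C.N1 x, a • z ≠ z)) ∧
      Group.IsNilpotent K ∧ Nat.card K = C.k ∧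
      ∀ {z w : X}, z ∈ C.N1 x → w ∈ C.N1 x → ∃ a ∈ K, a • z = w := by
    intro x
    obtain ⟨y, hy⟩ := C.ex1 x
    exact exists_ker C x y hy hfr (by rw [hH hy]; exact h2)
  choose K hK hnil hcard htr using hex
  refine ⟨{ C with
    K := K
    h := Nat.card (S2 G A B)
    frob := hfr
    K_fix := fun ha => ((hK _ _).1 ha).1
    K_semi := fun ha hy e => (((hK _ _).1 ha).2.resolve_right fun h => h _ hy e)
    K_tr := fun hy hz => htr _ hy hz
    K_out := ?_
    K_conj := ?_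
    K_nil := hnil
    card_K := hcard
    card_H := hH
    two_le_h := h2 }⟩
  · intro x g hg hn
    by_contra hc
    push Not at hc
    exact hn ((hK _ _).2 ⟨hg, Or.inr hc⟩)
  · intro g x a ha
    obtain ⟨h1, h3⟩ := (hK _ _).1 ha
    refine (hK _ _).2 ⟨by rw [mul_smul, inv_smul_smul, mul_smul, h1], ?_⟩
    rcases h3 with rfl | h3
    · left
      group
    · right
      intro z hz e
      refine h3 (g⁻¹ • z) ?_ ?_
      · rw [← C.smul1_iff g, smul_inv_smul]
        exact hz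
      · rw [mul_smul, mul_smul] at e
        rw [eq_inv_smul_iff, e]

end CfsgLib.R3f
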