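import Mathlib

/-!
Rank three groups whose point stabiliser is a Frobenius group on one suborbit (S2207):
the configuration.  `N1 x` is the suborbit `Δ(x)`, `N2 x` the other non-trivial suborbit `Γ(x)`,
`K x` the Frobenius kernel of the stabiliser of `x`.
-/

set_option autoImplicit false

namespace CfsgLib.R3f

open MulAction

/-- A rank three graph with its primitive group of even order. -/
structure Gr (G X : Type*) [Group G] [Fintype X] [DecidableEq X] [MulAction G X] where
  N1 : X → Finset X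
  N2 : X → Finset X
  k : ℕ
  l : ℕ
  lam : ℕ
  mu : ℕ
  mem2 : ∀ {x y : X}, y ∈ N2 x ↔ y ≠ x ∧ y ∉ N1 x
  symm : ∀ {x y : X}, y ∈ N1 x → x ∈ N1 y
  irr : ∀ x : X, x ∉ N1 x
  smul1 : ∀ (g : G) {x y : X}, y ∈ N1 x → g • y ∈ N1 (g • x)
  faith : ∀ g : G, (∀ x : X, g • x = x) → g = 1
  tr0 : ∀ x y : X, ∃ g : G, g • x = y
  tr1 : ∀ {x y z : X}, y ∈ N1 x → z ∈ N1 x → ∃ g : G, g • x = x ∧ g • y = z
  tr2 : ∀ {x y z : X}, y ∈ N2 x → z ∈ N2 x → ∃ g : G, g • x = x ∧ g • y = z
  card1 : ∀ x : X, (N1 x).card = k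
  card2 : ∀ x : X, (N2 x).card = l
  cardl : ∀ {x y : X}, y ∈ N1 x → (N1 x ∩ N1 y).card = lam
  cardm : ∀ {x y : X}, y ∈ N2 x → (N1 x ∩ N1 y).card = mu
  l_pos : 0 < l
  mu_pos : 0 < mu
  mu_lt : mu < k
  max : ∀ x : X, IsCoatom (stabilizer G x)
  even : Even (Nat.card G)
  ne : Nonempty X

/-- The two point stabiliser. -/
abbrev S2 (G : Type*) {X : Type*} [Group G] [MulAction G X] (x y : X) : Subgroup G :=
  stabilizer G x ⊓ stabilizer G y

/-- The configuration: the stabiliser of `x` is a Frobenius group on `N1 x` with kernel `K x`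
and complements of order `h`. -/
structure Cf (G X : Type*) [Group G] [Fintype X] [DecidableEq X] [MulAction G X]
    extends Gr G X where
  K : X → Subgroup G
  h : ℕ
  frob : ∀ {g : G} {x y z : X}, g • x = x → y ∈ N1 x → z ∈ N1 x → y ≠ z → g • y = y →
    g • z = z → g = 1
  K_fix : ∀ {x : X} {a : G}, a ∈ K x → a • x = x
  K_semi : ∀ {x y : X} {a : G}, a ∈ K x → y ∈ N1 x → a • y = y → a = 1
  K_tr : ∀ {x y z : X}, y ∈ N1 x → z ∈ N1 x → ∃ a ∈ K x, a • y = z
  K_out : ∀ {x : X} {g : G}, g • x = x → g ∉ K x → ∃ y ∈ N1 x, g • y = y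
  K_conj : ∀ (g : G) {x : X} {a : G}, a ∈ K x → g * a * g⁻¹ ∈ K (g • x)
  K_nil : ∀ x : X, Group.IsNilpotent (K x)
  card_K : ∀ x : X, Nat.card (K x) = k
  card_H : ∀ {x y : X}, y ∈ N1 x → Nat.card (S2 G x y) = h
  two_le_h : 2 ≤ h

variable {G X : Type*} [Group G] [Fintype X] [DecidableEq X] [MulAction G X]

/-- Number of fixed points of `g`. -/
def fx (X : Type*) [Fintype X] [DecidableEq X] [MulAction G X] (g : G) : ℕ :=
  (Finset.univ.filter fun x : X => g • x = x).card

/-- Number of points moved by `g` to a neighbour. -/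
def Gr.al (C : Gr G X) (g : G) : ℕ :=
  (Finset.univ.filter fun x : X => g • x ∈ C.N1 x).card

/-- The central involutions of the kernel `K x`, together with `1`. -/
def Cf.V (C : Cf G X) (x : X) : Subgroup G where
  carrier := {a | a ∈ C.K x ∧ a * a = 1 ∧ ∀ b ∈ C.K x, Commute a b}
  one_mem' := ⟨(C.K x).one_mem, mul_one 1, fun b _ => Commute.one_left b⟩
  mul_mem' := by
    rintro a b ⟨ha, ha2, hac⟩ ⟨hb, hb2, hbc⟩
    refine ⟨(C.K x).mul_mem ha hb, ?_, fun c hc => (hac c hc).mul_left (hbc c hc)⟩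
    have h := (hac b hb).eq
    calc a * b * (a * b) = a * (b * a) * b := by group
      _ = a * (a * b) * b := by rw [h]
      _ = (a * a) * (b * b) := by group
      _ = 1 := by rw [ha2, hb2, mul_one]
  inv_mem' := by
    rintro a ⟨ha, ha2, hac⟩
    refine ⟨(C.K x).inv_mem ha, ?_, fun c hc => (hac c hc).inv_left⟩
    rw [← mul_inv_rev, ha2, inv_one]

theorem Cf.mem_V (C : Cf G X) {x : X} {a : G} :
    a ∈ C.V x ↔ a ∈ C.K x ∧ a * a = 1 ∧ ∀ b ∈ C.K x, Commute a b := Iff.rfl

open Classical in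
/-- The involutions with a fixed point. -/
noncomputable def T (G X : Type*) [Group G] [Fintype G] [MulAction G X] : Finset G :=
  Finset.univ.filter fun s : G => s * s = 1 ∧ s ≠ 1 ∧ ∃ x : X, s • x = x

theorem mem_T [Fintype G] {s : G} :
    s ∈ T G X ↔ s * s = 1 ∧ s ≠ 1 ∧ ∃ x : X, s • x = x := by
  classical
  simp [T]

/-- Number of members of `T` mapping `x` to `y`. -/
noncomputable def tc (G : Type*) {X : Type*} [Group G] [Fintype G] [DecidableEq X]
    [MulAction G X] (x y : X) : ℕ :=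
  ((T G X).filter fun s : G => s • x = y).card

open Classical in
/-- Sum of a function over a subgroup. -/
noncomputable def sm [Fintype G] (Y : Subgroup G) (φ : G → ℕ) : ℕ :=
  ∑ g ∈ Finset.univ.filter (fun g : G => g ∈ Y), φ g

/-- The integral eigenvalue data `r`, `-s` with multiplicities `f`, `g` of the graph, together
with the dimensions of the fixed spaces of all subgroups on the two eigenspaces. -/
structure Gr.Eig [Fintype G] (C : Gr G X) (r s f g : ℕ) : Prop where
  prod : r * s + C.mu = C.k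
  diff : r + C.mu = s + C.lam
  mult : f + g = C.k + C.l
  trc : (r + s) * f + C.k = s * (C.k + C.l)
  rank : ∀ Y : Subgroup G, ∃ a b : ℕ, a ≤ f ∧ b ≤ g ∧
    (r + s) * (Nat.card Y * a) + (C.k + s) * Nat.card Y =
      sm Y (fun y => C.al y + s * fx X y) ∧
    Nat.card Y * (a + b + 1) = sm Y (fun y => fx X y)

end CfsgLib.R3f
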