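import Cfsg.Agent.Lib.R3f.E2b

set_option autoImplicit false

namespace CfsgLib.R3f

open MulAction

variable {G X : Type*} [Group G] [Fintype G] [Fintype X] [DecidableEq X] [MulAction G X]

namespace Cf

variable (C : Cf G X)

/-- A set of involutions moving `x` has at most `k h + l u` elements. -/
theorem move_le {x y : X} (hy : y ∈ C.N2 x) (W : Finset G) (hW : ∀ s ∈ W, s * s = 1 ∧ s • x ≠ x) :
    W.card ≤ C.k * C.h + C.l * Nat.card (S2 G x y) := by
  classical
  have hsw : ∀ q, (W.filter fun s => s • x = q).card ≤ Nat.card (S2 G x q) := fun q =>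
    swap_le x q _ fun s hs => by
      obtain ⟨a1, a2⟩ := Finset.mem_filter.1 hs
      exact ⟨a2, by rw [← a2, ← mul_smul, (hW s a1).1, one_smul]⟩
  have hd : Disjoint (C.N1 x) (C.N2 x) := Finset.disjoint_left.2 fun q a1 a2 => (C.mem2.1 a2).2 a1
  rw [Finset.card_eq_sum_card_fiberwise (f := fun s : G => s • x) (t := C.N1 x ∪ C.N2 x)
    (fun s hs => by
      rcases C.toGr.tri x (s • x) with h | h | h
      · exact absurd h (hW s hs).2
      · exact Finset.mem_coe.2 (Finset.mem_union_left _ h)
      · exact Finset.mem_coe.2 (Finset.mem_union_right _ h)), Finset.sum_union hd]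
  refine add_le_add ?_ ?_
  · rw [← C.card1 x, ← smul_eq_mul, ← Finset.sum_const]
    exact Finset.sum_le_sum fun q hq => (hsw q).trans (C.card_H hq).le
  · rw [← C.card2 x, ← smul_eq_mul, ← Finset.sum_const]
    exact Finset.sum_le_sum fun q hq => (hsw q).trans (C.card_U hq hy).le

theorem h_le_V (hk : Even C.k) (x : X) : C.h + 1 ≤ Nat.card (C.V x) := by
  obtain ⟨y, hy⟩ := C.toGr.ex1 x
  have h1 := C.dvd_sub hy le_rfl (C.V_le x) fun g hg a ha => by
    have := C.V_conj g ha
    rwa [show g • x = x from hg.1] at this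
  rw [C.card_H hy] at h1
  have h2 : 1 < Nat.card (C.V x) := (Subgroup.one_lt_card_iff_ne_bot _).2 (C.V_ne hk x)
  have := Nat.le_of_dvd (by omega) h1
  omega

/-- Package E1: the elements of `V x` cannot all have a unique fixed point. -/
theorem e1 (hk : Even C.k) (x : X)
    (h1 : ∀ a ∈ C.V x, a ≠ 1 → ∀ y : X, a • y = y → y = x) : False := by
  classical
  obtain ⟨y, hy⟩ := C.toGr.ex2 x
  have hxy : y ≠ x := (C.mem2.1 hy).1
  have hV := C.h_le_V hk
  have h2 := C.two_le_h
  have hcard : ∀ p, C.h ≤ (Finset.univ.filter fun a : G => a ∈ C.V p ∧ a ≠ 1).card := fun p => by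
    have e1 : (Finset.univ.filter fun a : G => a ∈ C.V p ∧ a ≠ 1) =
        (Finset.univ.filter fun a : G => a ∈ C.V p).erase 1 := by
      ext a
      simp [and_comm]
    have e2 : (Finset.univ.filter fun a : G => a ∈ C.V p).card = Nat.card (C.V p) := by
      rw [Nat.card_eq_fintype_card, Fintype.card_subtype]
    rw [e1, Finset.card_erase_of_mem (by simp [(C.V p).one_mem]), e2]
    have := hV p
    omega
  by_cases hK : C.K x ⊓ C.K y = ⊥
  · have hfix : ∀ p, ∀ a ∈ C.V p, a ≠ 1 → ∀ q, a • q = q → q = p := fun p a ha ha1 q hq => by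
      obtain ⟨g, rfl⟩ := C.tr0 x p
      have a1 := C.V_conj g⁻¹ ha
      rw [inv_smul_smul] at a1
      have a2 := h1 _ a1 (fun h => ha1 (by simpa [mul_eq_one_iff_eq_inv'] using h)) (g⁻¹ • q) (by
        rw [mul_smul, mul_smul, inv_inv, smul_inv_smul, hq])
      rw [← a2, smul_inv_smul]
    let W : Finset G := (Finset.univ.erase x).biUnion fun p =>
      Finset.univ.filter fun a : G => a ∈ C.V p ∧ a ≠ 1
    have w1 : (C.k + C.l) * C.h ≤ W.card := by
      rw [Finset.card_biUnion]
      · have : (Finset.univ.erase x).card = C.k + C.l := by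
          rw [Finset.card_erase_of_mem (Finset.mem_univ x), Finset.card_univ, C.toGr.card_n]
          omega
        rw [← this, ← smul_eq_mul, ← Finset.sum_const]
        exact Finset.sum_le_sum fun p _ => hcard p
      · intro p _ q _ hpq
        refine Finset.disjoint_left.2 fun a a1 a2 => hpq ?_
        simp only [Finset.mem_filter, Finset.mem_univ, true_and] at a1 a2
        exact hfix q a a2.1 a2.2 p (C.K_fix (C.V_le p a1.1))
    have w2 := C.move_le hy W fun s hs => by
      simp only [W, Finset.mem_biUnion, Finset.mem_erase, Finset.mem_filter, Finset.mem_univ,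
        true_and, and_true] at hs
      obtain ⟨p, hp, a1, a2⟩ := hs
      exact ⟨(C.mem_V.1 a1).2.1, fun h => hp (hfix p s a1 a2 x h).symm⟩
    obtain ⟨u, hu, hu'⟩ := C.U_dec hy
    rw [hK, Subgroup.card_bot, one_mul] at hu'
    have w3 : C.h ≤ Nat.card (S2 G x y) := by
      refine Nat.le_of_mul_le_mul_left (c := C.l) ?_ C.l_pos
      nlinarith
    refine C.u_ne_h hy hK (le_antisymm ?_ w3)
    rw [hu']
    exact Nat.le_of_dvd (by omega) hu
  · obtain ⟨v, hv, v', hv', hne⟩ := Finset.one_lt_card.1 (lt_of_lt_of_le h2 (hcard x))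
    simp only [Finset.mem_filter, Finset.mem_univ, true_and] at hv hv'
    have a1 := (C.e2b_two hk hy hK (C.F1_right x y) (C.F1_left x y) hxy.symm hv.1 hv'.1
      (fun h => hxy (h1 v hv.1 hv.2 y h)) (fun h => hxy (h1 v' hv'.1 hv'.2 y h))).2
    refine hxy (h1 _ ((C.V x).mul_mem hv.1 hv'.1) (fun h => hne ?_) y (C.F1_right x y _ a1))
    have := (C.mem_V.1 hv'.1).2.1
    rw [← h] at this
    exact (mul_right_cancel this).symm

end Cf

end CfsgLib.R3f
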