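import Cfsg.Agent.Lib.R3f.Api3

set_option autoImplicit false
set_option linter.unusedSectionVars false

namespace CfsgLib.R3f

open MulAction

variable {G X : Type*} [Group G] [Fintype G] [Fintype X] [DecidableEq X] [MulAction G X]

namespace Cf

variable (C : Cf G X)

/-! The fixed points of `K x ⊓ K y` and its centraliser. -/

/-- `p` is fixed by `K x ⊓ K y`. -/
def F1 (x y p : X) : Prop := ∀ a ∈ C.K x ⊓ C.K y, a • p = p

/-- `w` centralises `K x ⊓ K y`. -/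
def L1 (x y : X) (w : G) : Prop := ∀ a ∈ C.K x ⊓ C.K y, Commute w a

theorem F1_left (x y : X) : C.F1 x y x := fun _ ha => C.K_fix ha.1

theorem F1_right (x y : X) : C.F1 x y y := fun _ ha => C.K_fix ha.2

theorem F1_smul {x y p : X} {w : G} (hp : C.F1 x y p) (hw : C.L1 x y w) : C.F1 x y (w • p) :=
  fun a ha => by rw [← mul_smul, ← (hw a ha).eq, mul_smul, hp a ha]

theorem F1_smul' {x y p : X} {g : G} (hp : C.F1 x y p)
    (hg : ∀ a ∈ C.K x ⊓ C.K y, g⁻¹ * a * g ∈ C.K x ⊓ C.K y) : C.F1 x y (g • p) := fun a ha => by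
  have := hp _ (hg a ha)
  rw [mul_smul, mul_smul, inv_smul_eq_iff] at this
  exact this

theorem L1_mul {x y : X} {w w' : G} (hw : C.L1 x y w) (hw' : C.L1 x y w') : C.L1 x y (w * w') :=
  fun a ha => (hw a ha).mul_left (hw' a ha)

theorem L1_inv {x y : X} {w : G} (hw : C.L1 x y w) : C.L1 x y w⁻¹ :=
  fun a ha => (hw a ha).inv_left

theorem K1_le {x y p : X} (hp : C.F1 x y p) {a : G} (ha : a ∈ C.K x ⊓ C.K y) : a ∈ C.K p :=
  C.K_swap ha.1 (hp a ha)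

theorem lin_stab {x y p : X} (h1 : C.K x ⊓ C.K y ≠ ⊥) (hp : C.F1 x y p) {w : G} (hw : C.L1 x y w)
    (hwp : w • p = p) : w ∈ C.K p := by
  obtain ⟨⟨a, ha⟩, ha1⟩ := Subgroup.ne_bot_iff_exists_ne_one.1 h1
  exact C.K_cent hwp (C.K1_le hp ha) (fun h => ha1 (Subtype.ext h)) (hw a ha)

theorem lin_two {x y p q : X} (hy : y ∈ C.N2 x) (h1 : C.K x ⊓ C.K y ≠ ⊥) (hp : C.F1 x y p)
    (hq : C.F1 x y q) (hne : q ≠ p) {w : G} (hw : w ∈ C.K p) (hwq : w • q = q) :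
    w ∈ C.K x ⊓ C.K y := by
  rw [← (C.K1_eq hy h1 hne hp hq).2]
  exact C.mem_K1.2 ⟨hw, hwq⟩

theorem lin_tr {x y p₀ p q : X} (hy : y ∈ C.N2 x) (h1 : C.K x ⊓ C.K y ≠ ⊥) {v : G}
    (hv : C.L1 x y v) (hp₀ : C.F1 x y p₀) (hne : v • p₀ ≠ p₀) (hp : C.F1 x y p) (hq : C.F1 x y q) :
    ∃ w : G, C.L1 x y w ∧ w • p = q := by
  by_cases hpq : q = p
  · exact ⟨1, fun a _ => Commute.one_left a, by rw [hpq, one_smul]⟩
  obtain ⟨e1, e2⟩ := C.K1_eq hy h1 hne hp₀ (C.F1_smul hp₀ hv)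
  obtain ⟨e3, e4⟩ := C.K1_eq hy h1 hpq hp hq
  obtain ⟨g, hg1, hg2⟩ := C.toGr.pair2 e1 e3
  refine ⟨g * v * g⁻¹, fun a ha => ?_, by rw [← hg1, mul_smul, mul_smul, inv_smul_smul, hg2]⟩
  have hb : g⁻¹ * a * g⁻¹⁻¹ ∈ C.K x ⊓ C.K y := by
    rw [← e2]
    rw [← e4] at ha
    have a1 := C.K_conj g⁻¹ ha.1
    have a2 := C.K_conj g⁻¹ ha.2
    rw [← hg1, inv_smul_smul] at a1
    rw [← hg2, inv_smul_smul] at a2
    exact ⟨a1, a2⟩
  have := (hv _ hb).eq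
  rw [inv_inv] at this
  show g * v * g⁻¹ * a = a * (g * v * g⁻¹)
  calc g * v * g⁻¹ * a = g * (v * (g⁻¹ * a * g)) * g⁻¹ := by group
    _ = g * (g⁻¹ * a * g * v) * g⁻¹ := by rw [this]
    _ = a * (g * v * g⁻¹) := by group

/-- elements exchanging two points -/
theorem swap_le (x q : X) (W : Finset G) (hW : ∀ s ∈ W, s • x = q ∧ s • q = x) :
    W.card ≤ Nat.card (S2 G x q) := by
  classical
  rcases W.eq_empty_or_nonempty with rfl | ⟨s₀, hs₀⟩
  · simp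
  obtain ⟨e1, e2⟩ := hW s₀ hs₀
  rw [← Fintype.card_coe, ← Nat.card_eq_fintype_card]
  refine Nat.card_le_card_of_injective (fun s : W => (⟨s₀ * s.1, ?_, ?_⟩ : S2 G x q)) ?_
  · show (s₀ * s.1) • x = x
    rw [mul_smul, (hW s.1 s.2).1, e2]
  · show (s₀ * s.1) • q = q
    rw [mul_smul, (hW s.1 s.2).2, e1]
  · intro s s' h
    exact Subtype.ext (mul_left_cancel (congrArg Subtype.val h))

/-- `w ↦ w⁻¹ g w g⁻¹` permutes every `g`-invariant subgroup of the kernel. -/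
theorem comm_mem {x : X} {g a : G} (hg : g • x = x) (hK : g ∉ C.K x) {Q : Subgroup G}
    (hQ : Q ≤ C.K x) (hgQ : ∀ w ∈ Q, g * w * g⁻¹ ∈ Q) (ha : a ∈ C.K x)
    (h : a⁻¹ * (g * a * g⁻¹) ∈ Q) : a ∈ Q := by
  let f : Q → Q := fun w => ⟨w.1⁻¹ * (g * w.1 * g⁻¹), Q.mul_mem (Q.inv_mem w.2) (hgQ _ w.2)⟩
  have key : ∀ b ∈ C.K x, ∀ b' ∈ C.K x, b⁻¹ * (g * b * g⁻¹) = b'⁻¹ * (g * b' * g⁻¹) → b = b' := by
    intro b hb b' hb' e
    by_contra hne
    refine hK (C.K_cent hg ((C.K x).mul_mem hb ((C.K x).inv_mem hb')) (fun h => hne ?_) ?_)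
    · exact mul_inv_eq_one.1 h
    · show g * (b * b'⁻¹) = b * b'⁻¹ * g
      calc g * (b * b'⁻¹) = b * (b⁻¹ * (g * b * g⁻¹)) * g * b'⁻¹ := by group
        _ = b * (b'⁻¹ * (g * b' * g⁻¹)) * g * b'⁻¹ := by rw [e]
        _ = b * b'⁻¹ * g := by group
  have hf : Function.Injective f := fun w w' e =>
    Subtype.ext (key _ (hQ w.2) _ (hQ w'.2) (congrArg Subtype.val e))
  obtain ⟨w, hw⟩ := Finite.surjective_of_injective hf ⟨_, h⟩
  have := key _ (hQ w.2) _ ha (congrArg Subtype.val hw)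
  rw [← this]
  exact w.2

theorem orb_fix {x p : X} {g a : G} (hg : g • x = x) (hK : g ∉ C.K x) (ha : a ∈ C.K x)
    (hp : g • p = p) (hq : g • (a • p) = a • p) : a • p = p := by
  have hp' : g⁻¹ • p = p := by rw [inv_smul_eq_iff, hp]
  have : a ∈ C.K x ⊓ stabilizer G p := by
    refine C.comm_mem hg hK inf_le_left (fun w hw => ⟨C.K_norm hg hw.1, ?_⟩) ha
      ⟨(C.K x).mul_mem ((C.K x).inv_mem ha) (C.K_norm hg ha), ?_⟩
    · show (g * w * g⁻¹) • p = p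
      rw [mul_smul, mul_smul, hp', show w • p = p from hw.2, hp]
    · show (a⁻¹ * (g * a * g⁻¹)) • p = p
      rw [mul_smul, mul_smul, mul_smul, hp', hq, inv_smul_smul]
  exact this.2

/-- If the kernel is semiregular then `|S2 G x y| ≠ h`. -/
theorem u_ne_h {x y : X} (hy : y ∈ C.N2 x) (h1 : C.K x ⊓ C.K y = ⊥) :
    Nat.card (S2 G x y) ≠ C.h := by
  classical
  intro hu
  have hl : C.l = C.k := by
    have e1 := C.toGr.card_S2 hy
    rw [C.card_St, hu] at e1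
    exact Nat.eq_of_mul_eq_mul_right (by have := C.two_le_h; omega) e1
  have hne : S2 G x y ≠ ⊥ := fun h => by
    rw [h, Subgroup.card_bot] at hu
    have := C.two_le_h
    omega
  obtain ⟨⟨g, hg⟩, hg1⟩ := Subgroup.ne_bot_iff_exists_ne_one.1 hne
  have hgK : g ∉ C.K x := fun h => hg1 (Subtype.ext (by
    have : g ∈ C.K x ⊓ C.K y := C.mem_K1.2 ⟨h, hg.2⟩
    rw [h1] at this
    exact Subgroup.mem_bot.1 this))
  obtain ⟨z, hz, hzy, hgz⟩ := C.not_one_fix hg.1 hgK hy hg.2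
  let f : C.K x → C.N2 x := fun a => ⟨a.1 • y, by
    have := C.toGr.smul2 a.1 hy
    rwa [C.K_fix a.2] at this⟩
  have hf : Function.Injective f := fun a b e => by
    have e' : a.1 • y = b.1 • y := congrArg Subtype.val e
    have : b.1⁻¹ * a.1 ∈ C.K x ⊓ C.K y :=
      C.mem_K1.2 ⟨(C.K x).mul_mem ((C.K x).inv_mem b.2) a.2, by rw [mul_smul, e', inv_smul_smul]⟩
    rw [h1, Subgroup.mem_bot, inv_mul_eq_one] at this
    exact Subtype.ext this.symm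
  have hs : Function.Bijective f := by
    refine (Nat.bijective_iff_injective_and_card f).2 ⟨hf, ?_⟩
    rw [C.card_K, Nat.card_eq_fintype_card, Fintype.card_coe, C.card2, hl]
  obtain ⟨a, ha⟩ := hs.2 ⟨z, hz⟩
  have ha' : a.1 • y = z := congrArg Subtype.val ha
  exact hzy (by rw [← ha']; exact C.orb_fix hg.1 hgK a.2 hg.2 (by rw [ha', hgz]))

end Cf

end CfsgLib.R3f
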