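import Cfsg.Agent.Lib.R3f.Ea
import Cfsg.Agent.Lib.R3f.Lin

set_option autoImplicit false

namespace CfsgLib.R3f

open MulAction

variable {G X : Type*} [Group G] [Fintype G] [Fintype X] [DecidableEq X] [MulAction G X]

namespace Cf

variable (C : Cf G X)

theorem V_L1 {x y p : X} (hp : C.F1 x y p) {v : G} (hv : v ∈ C.V p) : C.L1 x y v :=
  fun a ha => (C.mem_V.1 hv).2.2 a (C.K1_le hp ha)

theorem e2b_key {x y b p p' : X} (hy : y ∈ C.N2 x) (h1 : C.K x ⊓ C.K y ≠ ⊥) (hb : C.F1 x y b)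
    (hp : C.F1 x y p) (hp' : C.F1 x y p') {v v' : G} (hv : v ∈ C.V p) (hv' : v' ∈ C.V p')
    (hvb : v • b ≠ b) (hp'b : b ≠ p') (e : v • b = v' • b) : p = p' ∧ v * v' ∈ C.K x ⊓ C.K y := by
  have l1 := C.V_L1 hp hv
  have l2 := C.V_L1 hp' hv'
  have s1 := (C.mem_V.1 hv).2.1
  have s2 := (C.mem_V.1 hv').2.1
  have f1 : (v * v') • b = b := by rw [mul_smul, ← e, ← mul_smul, s1, one_smul]
  have f2 : (v * v') • (v • b) = v • b := by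
    rw [mul_smul, e, ← mul_smul v' v', s2, one_smul, e]
  have hm : v * v' ∈ C.K x ⊓ C.K y :=
    C.lin_two hy h1 hb (C.F1_smul hb l1) hvb (C.lin_stab h1 hb (C.L1_mul l1 l2) f1) f2
  refine ⟨?_, hm⟩
  by_contra hne
  have f3 : v' • p = p := by
    have : v' = v * (v * v') := by rw [← mul_assoc, s1, one_mul]
    rw [this, mul_smul, hp _ hm, C.K_fix (C.V_le p hv)]
  have := C.lin_two hy h1 hp' hp hne (C.V_le p' hv') f3
  exact hvb (by rw [e, hb _ this])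

theorem e2b_surj (hk : Even C.k) {x y b : X} (hy : y ∈ C.N2 x) (h1 : C.K x ⊓ C.K y ≠ ⊥)
    (hb : C.F1 x y b) :
    ∃ ζ : X → G, (∀ p, C.F1 x y p → p ≠ b → ζ p ∈ C.V p ∧ ζ p • b ≠ b) ∧
      ∀ q, C.F1 x y q → q ≠ b → ∃ p, C.F1 x y p ∧ p ≠ b ∧ ζ p • b = q := by
  have ex : ∀ p, ∃ v : G, C.F1 x y p → p ≠ b → v ∈ C.V p ∧ v • b ≠ b := fun p => by
    by_cases hp : C.F1 x y p ∧ p ≠ b
    · obtain ⟨v, hv, hvb⟩ := C.not_fix (C.V_ne hk p) (C.V_le p) (fun g hg a ha => by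
        have := C.V_conj g ha
        rwa [hg] at this) (C.K1_eq hy h1 (Ne.symm hp.2) hp.1 hb).1
      exact ⟨v, fun _ _ => ⟨hv, hvb⟩⟩
    · exact ⟨1, fun h h' => absurd ⟨h, h'⟩ hp⟩
  choose ζ hζ using ex
  refine ⟨ζ, hζ, fun q hq hqb => ?_⟩
  let f : {p // C.F1 x y p ∧ p ≠ b} → {p // C.F1 x y p ∧ p ≠ b} := fun p =>
    ⟨ζ p.1 • b, C.F1_smul hb (C.V_L1 p.2.1 (hζ _ p.2.1 p.2.2).1), (hζ _ p.2.1 p.2.2).2⟩
  have hf : Function.Injective f := fun p p' e =>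
    Subtype.ext (C.e2b_key hy h1 hb p.2.1 p'.2.1 (hζ _ p.2.1 p.2.2).1 (hζ _ p'.2.1 p'.2.2).1
      (hζ _ p.2.1 p.2.2).2 (Ne.symm p'.2.2) (congrArg Subtype.val e)).1
  obtain ⟨p, hp⟩ := Finite.surjective_of_injective hf ⟨q, hq, hqb⟩
  exact ⟨p.1, p.2.1, p.2.2, congrArg Subtype.val hp⟩

theorem e2b_two (hk : Even C.k) {x y b p : X} (hy : y ∈ C.N2 x) (h1 : C.K x ⊓ C.K y ≠ ⊥)
    (hb : C.F1 x y b) (hp : C.F1 x y p) (hpb : p ≠ b) {v v' : G} (hv : v ∈ C.V p)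
    (hv' : v' ∈ C.V p) (hvb : v • b ≠ b) (hv'b : v' • b ≠ b) :
    v • b = v' • b ∧ v * v' ∈ C.K x ⊓ C.K y := by
  obtain ⟨ζ, h2, h3⟩ := C.e2b_surj hk hy h1 hb
  have aux : ∀ w ∈ C.V p, w • b ≠ b → w • b = ζ p • b := fun w hw hwb => by
    obtain ⟨p', a1, a2, a3⟩ := h3 _ (C.F1_smul hb (C.V_L1 hp hw)) hwb
    have := (C.e2b_key hy h1 hb hp a1 hw (h2 _ a1 a2).1 hwb (Ne.symm a2) a3.symm).1
    rw [this, a3]
  have e : v • b = v' • b := by rw [aux v hv hvb, aux v' hv' hv'b]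
  exact ⟨e, (C.e2b_key hy h1 hb hp hp hv hv' hvb (Ne.symm hpb) e).2⟩

/-- Package E2B: `V x ⊓ V y` has index two in `V x`.  The centraliser of `K x ⊓ K y` acts on its
fixed points as a Frobenius group, whose complement has at most one involution. -/
theorem e2b (hk : Even C.k) {x y : X} {z : G} (hy : y ∈ C.N2 x) (hz : z ∈ C.V x) (hz1 : z ≠ 1)
    (hzy : z • y = y) :
    (∀ v₁ ∈ C.V x, ∀ v₂ ∈ C.V x, v₁ • y ≠ y → v₂ • y ≠ y → (v₁ * v₂) • y = y) ∧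
      ∀ v ∈ C.V x, v • y ≠ y → ∃ c : G, Commute c z ∧ (c * v * c⁻¹) • x = y := by
  have hzK : z ∈ C.K x ⊓ C.K y := C.mem_K1.2 ⟨C.V_le x hz, hzy⟩
  have h1 : C.K x ⊓ C.K y ≠ ⊥ := fun h => hz1 (by rwa [h, Subgroup.mem_bot] at hzK)
  have hxy : y ≠ x := (C.mem2.1 hy).1
  refine ⟨fun v₁ h₁ v₂ h₂ a₁ a₂ => C.F1_right x y _
    (C.e2b_two hk hy h1 (C.F1_right x y) (C.F1_left x y) hxy.symm h₁ h₂ a₁ a₂).2, fun v hv hvy => ?_⟩
  obtain ⟨ζ, h2, h3⟩ := C.e2b_surj hk hy h1 (C.F1_left x y)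
  obtain ⟨p, a1, a2, a3⟩ := h3 y (C.F1_right x y) hxy
  obtain ⟨c, hc, hcx⟩ := C.lin_tr hy h1 (C.V_L1 (C.F1_left x y) hv) (C.F1_right x y) hvy
    (C.F1_left x y) a1
  have hv' : c * v * c⁻¹ ∈ C.V p := by
    have := C.V_conj c hv
    rwa [hcx] at this
  have hm : (c * v * c⁻¹) • x ≠ x := fun h => by
    have h4 := C.lin_two hy h1 a1 (C.F1_left x y) (Ne.symm a2) (C.V_le p hv') h
    have h5 := (hc _ h4).eq
    have h6 : v = c * v * c⁻¹ := by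
      have : c * v = c * (c * v * c⁻¹) := by rw [h5]; group
      exact mul_left_cancel this
    exact hvy (by rw [h6]; exact C.F1_right x y _ h4)
  refine ⟨c, hc z hzK, ?_⟩
  rw [← a3]
  exact (C.e2b_two hk hy h1 (C.F1_left x y) a1 a2 hv' (h2 _ a1 a2).1 hm (h2 _ a1 a2).2).1

end Cf

end CfsgLib.R3f
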