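import Cfsg.Agent.Lib.R3f.E2b

set_option autoImplicit false

namespace CfsgLib.R3f

open MulAction

variable {G X : Type*} [Group G] [Fintype G] [Fintype X] [DecidableEq X] [MulAction G X]

namespace Cf

variable (C : Cf G X)

theorem e2c_norm {x : X} {g a : G} (hg : g • x = x) (ha : a ∈ C.V x) : g * a * g⁻¹ ∈ C.V x := by
  have := C.V_conj g ha
  rwa [hg] at this

theorem e2c_ex {x y y' : X} {z : G} (hy : y ∈ C.N2 x) (hz : z ∈ C.V x) (hz1 : z ≠ 1)
    (hzy : z • y = y) (hy' : y' ∈ C.N2 x) : ∃ z' ∈ C.V x, z' ≠ 1 ∧ z' • y' = y' := by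
  obtain ⟨g, g1, rfl⟩ := C.tr2 hy hy'
  exact ⟨_, C.e2c_norm g1 hz, fun e => hz1 (conj_eq_one_iff.1 e), by
    rw [mul_smul, mul_smul, inv_smul_smul, hzy]⟩

/-- Package E2C, part 1.  For every `y' ∈ N2 x` some `1 ≠ z' ∈ V x` fixes `y'` (`tr2`, `V_conj`).
Take `y'` from `K1_disj` and `z'`.  If `1 ≠ v ∈ V x` fixes `y` then `v`, `z` move `y'`, so `v z` fixes
`y'` (`e2b` at `y'`) and `y`, `v = z`.  If `v` moves `y` then `v z'` fixes `y`.  So
`V x = {1, z, z', z z'}`; `dvd_sub` gives `h ∣ 3`. -/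
theorem e2_four (hk : Even C.k) {x y : X} {z : G} (hy : y ∈ C.N2 x) (hz : z ∈ C.V x) (hz1 : z ≠ 1)
    (hzy : z • y = y) :
    Nat.card (C.V x) = 4 ∧ C.h = 3 ∧ ∀ v ∈ C.V x, v ≠ 1 → v • y = y → v = z := by
  obtain ⟨y', hy', hd⟩ := C.K1_disj hy
  obtain ⟨z', hz', hz1', hzy'⟩ := C.e2c_ex hy hz hz1 hzy hy'
  have sq : ∀ {a b : G}, b ∈ C.V x → a * b = 1 → a = b := fun hb e =>
    mul_right_cancel (e.trans (C.mem_V.1 hb).2.1.symm)
  have n1 : z' • y ≠ y := fun e => hz1' (hd _ (C.V_le x hz') e hzy')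
  have u : ∀ v ∈ C.V x, v ≠ 1 → v • y = y → v = z := fun v hv v1 hvy =>
    sq hz (hd _ (C.V_le x (mul_mem hv hz)) (by rw [mul_smul, hzy, hvy])
      ((C.e2b hk hy' hz' hz1' hzy').1 v hv z hz (fun e => v1 (hd _ (C.V_le x hv) hvy e))
        fun e => hz1 (hd _ (C.V_le x hz) hzy e)))
  have n2 : z ≠ z' := fun e => n1 (e ▸ hzy)
  have e : (C.V x : Set G) = {1, z, z', z * z'} := by
    refine Set.Subset.antisymm (fun v hv => ?_) ?_
    · by_cases h : v • y = y
      · by_cases h1 : v = 1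
        exacts [.inl h1, .inr (.inl (u v hv h1 h))]
      · by_cases h1 : v * z' = 1
        · exact .inr (.inr (.inl (sq hz' h1)))
        · have := u _ (mul_mem hv hz') h1 ((C.e2b hk hy hz hz1 hzy).1 v hv z' hz' h n1)
          exact .inr (.inr (.inr (show v = z * z' by
            rw [← this, mul_assoc, (C.mem_V.1 hz').2.1, mul_one])))
    · rintro _ (rfl | rfl | rfl | rfl)
      exacts [one_mem _, hz, hz', mul_mem hz hz']
  have c4 : Nat.card (C.V x) = 4 := by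
    have : Nat.card (C.V x) = (C.V x : Set G).ncard := rfl
    rw [this, e, Set.ncard_insert_of_notMem, Set.ncard_insert_of_notMem, Set.ncard_pair]
    · exact fun h => hz1 (right_eq_mul.1 h)
    · rintro (h | h)
      exacts [n2 h, hz1' (left_eq_mul.1 h)]
    · rintro (h | h | h)
      exacts [hz1 h.symm, hz1' h.symm, n2 (sq hz' h.symm)]
  obtain ⟨p, hp⟩ := C.ex1 x
  have d := C.dvd_sub hp le_rfl (C.V_le x) fun g hg a ha => C.e2c_norm hg.1 ha
  rw [C.card_H hp, c4] at d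
  have := C.two_le_h
  exact ⟨c4, ((Nat.dvd_prime Nat.prime_three).1 d).resolve_left (by omega), u⟩

/-- Package E2C, part 2.  Let `W` be the finset of conjugates of `z`, `n = 1 + k + l`, `f = fx z`.
(a) The three non-trivial elements of `V x` are conjugate under the stabiliser (`card_cls`, `h = 3`), so
for every point `p` the members of `W` fixing `p` are the three non-trivial elements of `V p` (`sc`,
`V_conj`, `tr0`); hence `|W| f = 3 n` (`fx_conj`).  (b) Every point of `N2 x` is fixed by exactly one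
non-trivial element of `V x`, no point of `N1 x`: `3 f = 3 + l`.  (c) For `y' ∈ N2 x` with `z'` fixing
it and `v ∈ V x` moving it, `c v c⁻¹` and `c v c⁻¹ z' = c (v z') c⁻¹` (`e2b`) are two members of `W`
mapping `x` to `y'`: `|W| ≥ 3 + 2 l`.  So `9 n ≥ (3 + l)(3 + 2 l)`, `9 k ≥ 2 l²`.  (d) `S2 G x y`
centralises `z` (uniqueness in `e2_four`), so lies in `K x` (`K_cent`): `l * k1 = 3 k` (`card_S2`),
`k1² ≤ k` (`K1_sq`), so `l² ≥ 9 k`. Contradiction. -/
theorem e2c (hk : Even C.k) {x y : X} {z : G} (hy : y ∈ C.N2 x) (hz : z ∈ C.V x) (hz1 : z ≠ 1)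
    (hzy : z • y = y) : False := by
  classical
  obtain ⟨c4, h3, u⟩ := C.e2_four hk hy hz hz1 hzy
  obtain ⟨Vs, hV⟩ : ∃ Vs : X → Finset G, ∀ p a, a ∈ Vs p ↔ a ∈ C.V p ∧ a ≠ 1 :=
    ⟨fun p => Finset.univ.filter fun a => a ∈ C.V p ∧ a ≠ 1, fun p a => by simp⟩
  obtain ⟨W, hW⟩ : ∃ W : Finset G, ∀ w, w ∈ W ↔ ∃ g, g * z * g⁻¹ = w :=
    ⟨Finset.univ.image fun g => g * z * g⁻¹, fun w => by simp⟩
  have c3 : ∀ p, (Vs p).card = 3 := fun p => by
    obtain ⟨g, rfl⟩ := C.tr0 x p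
    have h1 := (C.e2_four hk (C.smul2 g hy) (C.V_conj g hz) (fun e => hz1 (conj_eq_one_iff.1 e))
      (by rw [mul_smul, mul_smul, inv_smul_smul, hzy])).1
    have h2 : Vs (g • x) = (Finset.univ.filter fun a => a ∈ C.V (g • x)).erase 1 := by
      ext a; simp [hV, and_comm]
    rw [h2, Finset.card_erase_of_mem (by simp), ← Fintype.card_subtype, ← Nat.card_eq_fintype_card]
    exact congrArg (· - 1) h1
  have cj : ∀ v ∈ C.V x, v ≠ 1 → ∃ g, g * z * g⁻¹ = v := fun v hv v1 => by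
    obtain ⟨p, hp⟩ := C.ex1 x
    have h1 := C.card_cls hp (C.V_le x hz) hz1
    have h2 := Finset.eq_of_subset_of_card_le (t := Vs x)
      (s := (Finset.univ.filter fun g : G => g ∈ S2 G x p).image fun g => g * z * g⁻¹) (fun a ha => by
      obtain ⟨g, hg, rfl⟩ := Finset.mem_image.1 ha
      exact (hV _ _).2 ⟨C.e2c_norm (Finset.mem_filter.1 hg).2.1 hz,
        fun e => hz1 (conj_eq_one_iff.1 e)⟩) (by rw [c3, ← h3]; exact h1.ge)
    obtain ⟨g, -, e⟩ := Finset.mem_image.1 (h2.ge ((hV _ _).2 ⟨hv, v1⟩))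
    exact ⟨g, e⟩
  have cw : ∀ c, ∀ v ∈ C.V x, v ≠ 1 → c * v * c⁻¹ ∈ W := fun c v hv v1 => by
    obtain ⟨g, rfl⟩ := cj v hv v1
    exact (hW _).2 ⟨c * g, by group⟩
  have a1 : W.card * fx X z ≤ Fintype.card X * 3 := by
    refine Finset.card_mul_le_card_mul (fun (w : G) (p : X) => w • p = p) (fun w hw => ?_) fun p _ => ?_
    · obtain ⟨g, rfl⟩ := (hW w).1 hw
      exact (Gr.fx_conj g z).ge
    · refine (Finset.card_le_card fun w hw => ?_).trans (c3 p).le
      obtain ⟨h1, h2⟩ := Finset.mem_filter.1 hw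
      obtain ⟨g, rfl⟩ := (hW w).1 h1
      exact (hV _ _).2 ⟨C.sc hk (C.V_conj g hz) h2, fun e => hz1 (conj_eq_one_iff.1 e)⟩
  have f1 : ∀ v ∈ Vs x, ((Finset.univ.filter fun p : X => v • p = p).erase x).card + 1 = fx X z :=
    fun v hv => by
      obtain ⟨h1, h2⟩ := (hV _ _).1 hv
      rw [Finset.card_erase_add_one (by simpa using C.K_fix (C.V_le x h1))]
      obtain ⟨g, rfl⟩ := cj v h1 h2
      exact Gr.fx_conj g z
  have a2 : C.l + 3 ≤ 3 * fx X z := by
    have h1 : C.N2 x ⊆ (Vs x).biUnion fun v => (Finset.univ.filter fun p : X => v • p = p).erase x :=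
      fun p hp => by
        obtain ⟨v, h1, h2, h3⟩ := C.e2c_ex hy hz hz1 hzy hp
        exact Finset.mem_biUnion.2 ⟨v, (hV _ _).2 ⟨h1, h2⟩,
          Finset.mem_erase.2 ⟨(C.mem2.1 hp).1, by simpa using h3⟩⟩
    have h2 := (Finset.card_le_card h1).trans Finset.card_biUnion_le
    have h4 := Finset.sum_congr rfl f1
    rw [Finset.sum_add_distrib, Finset.sum_const, Finset.sum_const, c3, smul_eq_mul, smul_eq_mul] at h4
    rw [C.card2] at h2
    omega
  have a3 : 3 + C.l * 2 ≤ W.card := by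
    rw [Finset.card_eq_sum_card_fiberwise (f := fun w : G => w • x) (t := Finset.univ)
      fun _ _ => Finset.mem_univ _]
    refine le_trans ?_ (Finset.sum_le_sum_of_subset (Finset.subset_univ (insert x (C.N2 x))))
    rw [Finset.sum_insert fun h => (C.mem2.1 h).1 rfl]
    refine add_le_add ((c3 x).ge.trans (Finset.card_le_card fun v hv => ?_)) ?_
    · obtain ⟨h1, h2⟩ := (hV _ _).1 hv
      exact Finset.mem_filter.2 ⟨(hW _).2 (cj v h1 h2), C.K_fix (C.V_le x h1)⟩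
    · rw [← C.card2 x, ← smul_eq_mul]
      refine Finset.card_nsmul_le_sum _ _ _ fun p hp => ?_
      obtain ⟨z', h1, h2, h4⟩ := C.e2c_ex hy hz hz1 hzy hp
      obtain ⟨v, hv, hvp⟩ := C.not_fix (C.V_ne hk x) (C.V_le x) (fun g hg a ha => C.e2c_norm hg ha) hp
      obtain ⟨c, hc, e⟩ := (C.e2b hk hp h1 h2 h4).2 v hv hvp
      have e2 : c * (v * z') * c⁻¹ = c * v * c⁻¹ * z' := by
        rw [mul_assoc _ c⁻¹, hc.inv_left.eq]; group
      refine Finset.one_lt_card.2 ⟨_, Finset.mem_filter.2 ⟨cw c v hv fun e => hvp (by rw [e, one_smul]), e⟩,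
        _, Finset.mem_filter.2 ⟨cw c _ (mul_mem hv h1) fun e => hvp ?_, ?_⟩, fun e => h2 ?_⟩
      · rw [eq_inv_of_mul_eq_one_left e, inv_smul_eq_iff, h4]
      · rw [e2, mul_smul, C.K_fix (C.V_le x h1), e]
      · rwa [e2, left_eq_mul] at e
  have a4 : Nat.card (S2 G x y) ≤ Nat.card (C.K x ⊓ C.K y : Subgroup G) :=
    Subgroup.card_le_of_le fun g hg => C.mem_K1.2 ⟨C.K_cent hg.1 (C.V_le x hz) hz1
      (mul_inv_eq_iff_eq_mul.1 (u _ (C.e2c_norm hg.1 hz) (fun e => hz1 (conj_eq_one_iff.1 e)) (by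
        rw [mul_smul, mul_smul, show g⁻¹ • y = y from inv_smul_eq_iff.2 (Eq.symm hg.2), hzy]
        exact hg.2))), hg.2⟩
  have a5 := C.card_S2 hy
  rw [C.card_St, h3] at a5
  have a6 := (Nat.mul_le_mul a4 a4).trans (C.K1_sq hy)
  have a7 : C.k * (9 * C.k) ≤ C.k * (C.l * C.l) := by
    calc C.k * (9 * C.k) = (C.k * 3) * (C.k * 3) := by ring
      _ = C.l * C.l * (Nat.card (S2 G x y) * Nat.card (S2 G x y)) := by rw [← a5]; ring
      _ ≤ C.l * C.l * C.k := Nat.mul_le_mul_left _ a6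
      _ = _ := by ring
  have k0 : 0 < C.k := C.mu_pos.trans C.mu_lt
  have a8 := Nat.le_of_mul_le_mul_left a7 k0
  rw [C.card_n] at a1
  have a9 := Nat.mul_le_mul a3 a2
  nlinarith

end Cf

end CfsgLib.R3f
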