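import Cfsg.Agent.Lib.R3f.Api3

set_option autoImplicit false
set_option Elab.async false

namespace CfsgLib.R3f

open MulAction

variable {G X : Type*} [Group G] [Fintype G] [Fintype X] [DecidableEq X] [MulAction G X]

theorem ea_center {H : Type*} [Group H] [Group.IsNilpotent H] (N : Subgroup H) [hN : N.Normal] (h : N ≠ ⊥) :
    N ⊓ Subgroup.center H ≠ ⊥ := by
  intro hc
  have key : ∀ n, N ⊓ Subgroup.upperCentralSeries H n = ⊥ := by
    intro n
    induction n with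
    | zero => simp
    | succ n ih =>
      rw [Subgroup.eq_bot_iff_forall] at hc ih ⊢
      intro a ha
      refine hc a ⟨ha.1, Subgroup.mem_center_iff.2 fun b => ?_⟩
      have h1 : a * b * a⁻¹ * b⁻¹ ∈ N := by
        rw [mul_assoc, mul_assoc, ← mul_assoc b]
        exact N.mul_mem ha.1 (hN.conj_mem _ (N.inv_mem ha.1) b)
      have h2 := ih _ ⟨h1, Subgroup.mem_upperCentralSeries_succ_iff.1 ha.2 b⟩
      rw [mul_inv_eq_one, mul_inv_eq_iff_eq_mul] at h2
      exact h2.symm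
  obtain ⟨n, hn⟩ := Group.IsNilpotent.nilpotent H
  have := key n
  rw [hn, inf_top_eq] at this
  exact h this

namespace Cf

variable (C : Cf G X)

/-! Package EA: the groups `V x` (kernel of even order). -/

theorem V_le (x : X) : C.V x ≤ C.K x := by
  exact fun a ha => ha.1

/-- `K_conj` for `g` and `g⁻¹`. -/
theorem V_conj (g : G) {x : X} {a : G} (ha : a ∈ C.V x) : g * a * g⁻¹ ∈ C.V (g • x) := by
  refine ⟨C.K_conj g ha.1, ?_, fun b hb => ?_⟩
  · rw [show g * a * g⁻¹ * (g * a * g⁻¹) = g * (a * a) * g⁻¹ by group, ha.2.1, mul_one, mul_inv_cancel]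
  · have h1 := C.K_conj g⁻¹ hb
    rw [inv_smul_smul, inv_inv] at h1
    have h2 := (ha.2.2 _ h1).eq
    show g * a * g⁻¹ * b = b * (g * a * g⁻¹)
    calc g * a * g⁻¹ * b = g * (a * (g⁻¹ * b * g)) * g⁻¹ := by group
      _ = _ := by rw [h2]; group

/-- A nilpotent group of even order has a central involution (e.g. the centre of the Sylow
`2`-subgroup of `exists_syl`, which commutes with the elements of odd order; or: a non-trivial
normal subgroup of a nilpotent group meets the centre). -/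
theorem V_ne (hk : Even C.k) (x : X) : C.V x ≠ ⊥ := by
  haveI := C.K_nil x
  haveI : Fact (Nat.Prime 2) := ⟨Nat.prime_two⟩
  obtain ⟨Q⟩ : Nonempty (Sylow 2 (C.K x)) := inferInstance
  have h1 := ea_center (Q : Subgroup (C.K x)) (Q.ne_bot_of_dvd_card (by rw [C.card_K]; exact hk.two_dvd))
  have h2 : IsPGroup 2 ↥((Q : Subgroup (C.K x)) ⊓ Subgroup.center (C.K x)) := Q.2.to_inf_left
  have h3 := (h2.card_eq_or_dvd).resolve_left fun e => h1 (Subgroup.card_eq_one.1 e)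
  obtain ⟨z, hz⟩ := exists_prime_orderOf_dvd_card' 2 h3
  have h4 : z.1.1 ∈ C.V x := by
    refine ⟨z.1.2, ?_, fun b hb => ?_⟩
    · have := pow_orderOf_eq_one z
      rw [hz, pow_two] at this
      exact congrArg (fun w : ↥((Q : Subgroup (C.K x)) ⊓ Subgroup.center (C.K x)) => w.1.1) this
    · exact (congrArg Subtype.val (Subgroup.mem_center_iff.1 z.2.2 ⟨b, hb⟩)).symm
  intro h
  rw [h, Subgroup.mem_bot] at h4
  have h5 : z = 1 := Subtype.ext (Subtype.ext h4)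
  rw [h5, orderOf_one] at hz
  exact absurd hz (by norm_num)

/-- Take `v ∈ V y` moving `x` (`not_fix` at `(y, x)`), `x' = v • x`.  `K x ⊓ K y` fixes `x` and `x'`,
so `x' ∈ N2 x` and `K x ⊓ K x' = K x ⊓ K y` (`K1_eq`).  Take `g` with `g • x = x`, `g • x' = y`
(`tr2`); it normalises `K x ⊓ K y`, and `w = g v g⁻¹` works. -/
theorem sc_w (hk : Even C.k) {x y : X} (hy : y ∈ C.N2 x) (h1 : C.K x ⊓ C.K y ≠ ⊥) :
    ∃ w : G, w • x = y ∧ ∀ a ∈ C.K x ⊓ C.K y, Commute w a := by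
  obtain ⟨v, hv, hvx⟩ := C.not_fix (C.V_ne hk y) (C.V_le y) (fun g hg a ha => hg ▸ C.V_conj g ha) (C.symm2 hy)
  obtain ⟨h2, h3⟩ := C.K1_eq hy h1 hvx (fun a ha => C.K_fix ha.1) fun a ha => by
    rw [← mul_smul, ← (hv.2.2 a ha.2).eq, mul_smul, C.K_fix ha.1]
  obtain ⟨g, hg, e⟩ := C.tr2 h2 hy
  have hg' : g⁻¹ • x = x := inv_smul_eq_iff.2 hg.symm
  refine ⟨g * v * g⁻¹, by rw [mul_smul, mul_smul, hg', e], fun a ha => ?_⟩
  have h4 : g⁻¹ * a * g⁻¹⁻¹ ∈ C.K x ⊓ C.K (v • x) :=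
    ⟨C.K_norm hg' ha.1, by rw [← inv_smul_eq_iff.2 e.symm]; exact C.K_conj g⁻¹ ha.2⟩
  rw [h3, inv_inv] at h4
  have h5 := (hv.2.2 _ h4.2).eq
  show g * v * g⁻¹ * a = a * (g * v * g⁻¹)
  calc g * v * g⁻¹ * a = g * (v * (g⁻¹ * a * g)) * g⁻¹ := by group
    _ = _ := by rw [h5]; group

/-- Strong closure: `a = w a w⁻¹ ∈ V (w • x)` (`tri`, `K_semi`, `sc_w`, `V_conj`). -/
theorem sc (hk : Even C.k) {x y : X} {a : G} (ha : a ∈ C.V x) (hy : a • y = y) : a ∈ C.V y := by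
  by_cases h1 : a = 1
  · rw [h1]; exact (C.V y).one_mem
  rcases C.tri x y with e | e | e
  · rw [e]; exact ha
  · exact absurd (C.K_semi ha.1 e hy) h1
  · have h2 : a ∈ C.K x ⊓ C.K y := C.mem_K1.2 ⟨ha.1, hy⟩
    obtain ⟨w, hw, hc⟩ := C.sc_w hk e fun h => h1 (by rwa [h] at h2)
    have := C.V_conj w ha
    rwa [hw, (hc a h2).eq, mul_inv_cancel_right] at this

/-- `x'`, `y'` are non-adjacent (`K_coc`) and the two intersections are conjugate (`pair2`,
`V_conj`), so they have the same order. -/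
theorem V1_max {x y x' y' : X} (hy : y ∈ C.N2 x) (h1 : C.V x ⊓ C.V y ≠ ⊥) (hne : y' ≠ x')
    (hle : C.V x ⊓ C.V y ≤ C.V x' ⊓ C.V y') : C.V x' ⊓ C.V y' = C.V x ⊓ C.V y := by
  obtain ⟨a, ha, ha1⟩ := (Subgroup.bot_or_exists_ne_one _).resolve_left h1
  have h2 : y' ∈ C.N2 x' :=
    C.mem2.2 ⟨hne, C.K_coc ha.1.1 ha1 (C.K_fix (hle ha).1.1) (C.K_fix (hle ha).2.1)⟩
  obtain ⟨g, e1, e2⟩ := C.pair2 h2 hy
  exact (Subgroup.eq_of_le_of_card_ge hle
    (api2_card_le g fun b hb => ⟨e1 ▸ C.V_conj g hb.1, e2 ▸ C.V_conj g hb.2⟩)).symm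

end Cf

end CfsgLib.R3f
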