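import Cfsg.Agent.Lib.R3f.Api1
import Cfsg.Agent.S0494

set_option autoImplicit false

namespace CfsgLib.R3f

open MulAction

variable {G X : Type*} [Group G] [Fintype G] [Fintype X] [DecidableEq X] [MulAction G X]

theorem Gr.fin_card (C : Gr G X) {N : Subgroup G} [N.Normal] (hN : N ≠ ⊥) (x : X) :
    Fintype.card X * Nat.card ↥(N ⊓ stabilizer G x) = Nat.card N :=
  card_of_tr N x Finset.univ fun z => ⟨fun _ => C.normal_tr hN x z, fun _ => Finset.mem_univ _⟩

theorem Gr.fin_ab (C : Gr G X) {N : Subgroup G} (hn : N.Normal) (hN : N ≠ ⊥) (hs : Group.IsSolvable N) :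
    ∃ A : Subgroup G, A.Normal ∧ A ≠ ⊥ ∧ IsMulCommutative A ∧ Nat.card A = Fintype.card X ∧
      ∀ a ∈ A, ∀ x : X, a • x = x → a = 1 := by
  obtain ⟨A, ⟨h1, h2, h3⟩, hmin⟩ := (wellFounded_lt (α := Subgroup G)).has_min
    {A | A.Normal ∧ A ≠ ⊥ ∧ A ≤ N} ⟨N, hn, hN, le_rfl⟩
  have : Group.IsSolvable A := Group.isSolvable_of_isSolvable_injective (Subgroup.inclusion_injective h3)
  have : Nontrivial A := (Subgroup.nontrivial_iff_ne_bot A).2 h2
  have h4 : ⁅A, A⁆ < A := by
    have := (Subgroup.map_subtype_lt_map_subtype (G' := A)).2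
      (Group.IsSolvable.commutator_lt_top_of_nontrivial A)
    rwa [commutator_def, Subgroup.map_commutator, ← MonoidHom.range_eq_map, Subgroup.range_subtype] at this
  have h5 : ⁅A, A⁆ = ⊥ := by_contra fun k => hmin _ ⟨inferInstance, k, h4.le.trans h3⟩ h4
  have h6 : ∀ a ∈ A, ∀ b ∈ A, a * b = b * a := fun a ha b hb =>
    commutatorElement_eq_one_iff_mul_comm.1 (h5.le (Subgroup.commutator_mem_commutator ha hb))
  have h7 : ∀ a ∈ A, ∀ x : X, a • x = x → a = 1 := fun a ha x hx => C.faith a fun y => by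
    obtain ⟨b, hb, rfl⟩ := C.normal_tr h2 x y
    rw [← mul_smul, h6 a ha b hb, mul_smul, hx]
  obtain ⟨x⟩ := C.ne
  refine ⟨A, h1, h2, ⟨⟨fun a b => Subtype.ext (h6 _ a.2 _ b.2)⟩⟩, ?_, h7⟩
  rw [← C.fin_card h2 x, (eq_bot_iff.2 fun a ha => h7 a ha.1 x ha.2 : A ⊓ stabilizer G x = ⊥),
    Subgroup.card_bot, mul_one]

theorem fin_solv {H : Type*} [Group H] [Finite H] (h : Nat.card H = 20) : Group.IsSolvable H := by
  have : Fact (Nat.Prime 5) := ⟨by norm_num⟩
  obtain ⟨P⟩ : Nonempty (Sylow 5 H) := inferInstance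
  have h1 : Nat.card P = 5 := by
    rw [P.card_eq_multiplicity, h, show 20 = 5 ^ 1 * 4 by norm_num, Nat.factorization_mul (by norm_num) (by norm_num),
      Nat.Prime.factorization_pow (by norm_num)]
    simp [Nat.factorization_eq_zero_of_not_dvd (show ¬ 5 ∣ 4 by norm_num)]
  have h2 : P.index = 4 := by
    have := (P : Subgroup H).card_mul_index
    rw [h1, h] at this
    omega
  have h3 := P.card_dvd_index
  have h4 := card_sylow_modEq_one 5 H
  rw [h2] at h3
  have h5 : Nat.card (Sylow 5 H) = 1 := by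
    have := Nat.le_of_dvd (by norm_num) h3
    unfold Nat.ModEq at h4
    omega
  have : Subsingleton (Sylow 5 H) := (Nat.card_eq_one_iff_unique.1 h5).1
  have := P.normal_of_subsingleton
  have : Group.IsNilpotent P := P.isPGroup'.isNilpotent
  have : Group.IsNilpotent (H ⧸ (P : Subgroup H)) :=
    (IsPGroup.of_card (p := 2) (n := 2) (by rw [← Subgroup.index, h2]; norm_num)).isNilpotent
  exact (Group.isSolvable_iff_subgroup_quotient (P : Subgroup H)).2 ⟨inferInstance, inferInstance⟩

/-- Package FIN.  A normal subgroup `N ≠ ⊥` is transitive (`normal_tr`), so `10 ∣ |N|`.  A Sylow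
`5`-subgroup `P` of `G` lies in `N` and is not normal (it is not transitive), so there are six, all in
`N`: `6 ∣ |N|` (they are the Sylow `5`-subgroups of `N`), `|N| ∈ {30, 60}`.  If `|N| = 30`: a group of
order `30` has a normal Sylow `5`-subgroup (or count: `24` elements of order `5` leave `6` elements, so
the Sylow `3`-subgroup of `G`, contained in `N`, has at most `2` conjugates, so is normal, of order `3`,
not transitive).  So `G` is simple; `S0494`. -/
theorem Gr.fin60 (C : Gr G X) (hn : Fintype.card X = 10) (hG : Nat.card G = 60) :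
    Nonempty (G ≃* alternatingGroup (Fin 5)) := by
  have : Nontrivial G := Finite.one_lt_card_iff_nontrivial.1 (by omega)
  have : Fact (Nat.Prime 5) := ⟨by norm_num⟩
  obtain ⟨x⟩ := C.ne
  have : IsSimpleGroup G := ⟨fun N hN => or_iff_not_imp_left.2 fun h0 => by
    have h1 := C.fin_card h0 x
    have h2 := N.card_subgroup_dvd_card
    rw [hG] at h2
    rw [hn] at h1
    by_contra h3
    have h4 : Nat.card N ≠ 60 := fun e => h3 (Subgroup.eq_top_of_card_eq N (e.trans hG.symm))
    have h5 : Group.IsSolvable N := by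
      have h6 : Nat.card ↥(N ⊓ stabilizer G x) ∣ 6 := Nat.dvd_of_mul_dvd_mul_left (k := 10) (by norm_num) (h1 ▸ h2)
      have h7 := Nat.le_of_dvd (by norm_num) h6
      generalize Nat.card ↥(N ⊓ stabilizer G x) = d at h1 h6 h7
      interval_cases d
      · omega
      · have := IsZGroup.of_squarefree (G := N) (by rw [← h1]; decide +kernel)
        infer_instance
      · exact fin_solv h1.symm
      · have := IsZGroup.of_squarefree (G := N) (by rw [← h1]; decide +kernel)
        infer_instance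
      all_goals omega
    obtain ⟨A, hA, -, hc, h6, -⟩ := C.fin_ab hN h0 h5
    obtain ⟨P⟩ : Nonempty (Sylow 5 A) := inferInstance
    have := Sylow.characteristic_of_normal P inferInstance
    have h7 : (P : Subgroup A).map A.subtype ≠ ⊥ := fun e =>
      P.ne_bot_of_dvd_card (by rw [h6, hn]; norm_num) ((Subgroup.map_eq_bot_iff_of_injective _ A.subtype_injective).1 e)
    have h8 := C.fin_card h7 x
    obtain ⟨n, hn'⟩ := IsPGroup.iff_card.1 P.isPGroup'
    rw [Subgroup.card_map_of_injective A.subtype_injective, hn', hn] at h8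
    have h9 : 2 ∣ 5 ^ n := h8 ▸ Dvd.dvd.mul_right (by norm_num) _
    exact absurd (Nat.prime_two.dvd_of_dvd_pow h9) (by norm_num)⟩
  exact Cfsg.Agent.S0494.result hG

/-- The last non-trivial term of the derived series is an abelian normal subgroup `N ≠ ⊥`; it is
transitive (`normal_tr`), hence regular (`faith`). -/
theorem Gr.fin16 (C : Gr G X) (hn : Fintype.card X = 16) (hs : IsSolvable G) :
    ∃ N : Subgroup G, N.Normal ∧ Nat.card N = 16 ∧ ∀ x y : X, ∃! n : ↥N, (n : G) • x = y := by
  have : Group.IsSolvable G := hs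
  obtain ⟨x⟩ := C.ne
  obtain ⟨y, hy⟩ := C.ex1 x
  obtain ⟨g, hg⟩ := C.tr0 x y
  have h0 : (⊤ : Subgroup G) ≠ ⊥ := fun e => C.ne1 hy (by
    rw [← hg, (Subgroup.mem_bot.1 (e.le (Subgroup.mem_top g))), one_smul])
  obtain ⟨A, hA, h1, -, h2, h3⟩ := C.fin_ab inferInstance h0 inferInstance
  refine ⟨A, hA, h2.trans hn, fun a b => ?_⟩
  obtain ⟨n, hn, e⟩ := C.normal_tr h1 a b
  refine ⟨⟨n, hn⟩, e, fun m hm => Subtype.ext ?_⟩
  have := h3 _ (mul_mem (inv_mem hn) m.2) a (by rw [mul_smul, hm, inv_smul_eq_iff, e])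
  exact (inv_mul_eq_one.1 this).symm

end CfsgLib.R3f
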