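import Cfsg.Agent.Lib.R3f.O1x

set_option autoImplicit false

namespace CfsgLib.R3f

open MulAction

variable {G X : Type*} [Group G] [Fintype G] [Fintype X] [DecidableEq X] [MulAction G X]

namespace Cf

variable (C : Cf G X)

open Classical in
theorem card_orb {x q : X} :
    (Finset.univ.filter fun p => ∃ a ∈ C.K x, a • q = p).card * Nat.card ↥(C.K x ⊓ C.K q) = C.k := by
  have h := (stabilizer (C.K x) q).index_mul_card
  rw [index_stabilizer, C.card_K] at h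
  rw [← h]
  congr 1
  · rw [← Set.ncard_coe_finset]
    congr 1
    ext p
    simp only [Finset.coe_filter, Finset.mem_univ, true_and, Set.mem_setOf_eq, mem_orbit_iff]
    exact ⟨fun ⟨a, ha, e⟩ => ⟨⟨a, ha⟩, e⟩, fun ⟨a, e⟩ => ⟨a.1, a.2, e⟩⟩
  · exact Nat.card_congr
      { toFun := fun a => ⟨⟨a.1, a.2.1⟩, (C.mem_K1.1 a.2).2⟩
        invFun := fun a => ⟨a.1.1, C.mem_K1.2 ⟨a.1.2, a.2⟩⟩
        left_inv := fun _ => rfl
        right_inv := fun _ => rfl }

open Classical in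
theorem o1_low (hk : Odd C.k) {x y : X} (hy : y ∈ C.N2 x) (h1 : C.K x ⊓ C.K y ≠ ⊥) {t : G}
    (ht : t ∈ T G X) (htx : t • x = x) {v : ℕ} (hv : v * Nat.card ↥(C.K x ⊓ C.K y) = C.k) :
    ((Finset.univ.filter fun p => C.F1 x y p ∧ t • p = p).erase x).card * v + 1 ≤
      (Finset.univ.filter fun p => C.F1 x y p).card := by
  have hx := C.F1_left x y
  have hO : ∀ q ∈ (Finset.univ.filter fun p => C.F1 x y p ∧ t • p = p).erase x,
      (Finset.univ.filter fun p => ∃ a ∈ C.K x, a • q = p).card = v := fun q hq => by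
    simp only [Finset.mem_erase, Finset.mem_filter, Finset.mem_univ, true_and] at hq
    have := C.card_orb (x := x) (q := q)
    rw [(C.K1_eq hy h1 hq.1 hx hq.2.1).2, ← hv] at this
    exact Nat.eq_of_mul_eq_mul_right Nat.card_pos this
  rw [← smul_eq_mul, ← Finset.sum_const, ← Finset.sum_congr rfl hO, ← Finset.card_biUnion,
    ← Finset.card_erase_add_one (a := x) (s := Finset.univ.filter fun p => C.F1 x y p)
      (by simpa using hx)]
  · refine Nat.add_le_add_right (Finset.card_le_card fun p hp => ?_) 1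
    simp only [Finset.mem_biUnion, Finset.mem_erase, Finset.mem_filter, Finset.mem_univ,
      true_and] at hp ⊢
    obtain ⟨q, ⟨a1, a2, -⟩, a, ha, rfl⟩ := hp
    refine ⟨fun h => a1 ?_, C.F1_smul a2 (C.K_L1 hk hx ha)⟩
    rw [← C.K_fix ha] at h
    exact MulAction.injective a h
  · intro q hq q' hq' hne
    simp only [Finset.coe_erase, Finset.coe_filter, Finset.mem_univ, true_and, Set.mem_diff,
      Set.mem_setOf_eq] at hq hq'
    refine Finset.disjoint_left.2 fun p hp hp' => hne ?_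
    simp only [Finset.mem_filter, Finset.mem_univ, true_and] at hp hp'
    obtain ⟨a, ha, rfl⟩ := hp
    obtain ⟨a', ha', e⟩ := hp'
    have e' : (a'⁻¹ * a) • q = q' := by rw [mul_smul, ← e, inv_smul_smul]
    rw [← e']
    exact (C.orb_fix htx (C.inv_out hk ht) ((C.K x).mul_mem ((C.K x).inv_mem ha') ha) hq.1.2
      (by rw [e', hq'.1.2])).symm

open Classical in
theorem o1_up (hk : Odd C.k) {x y : X} (hy : y ∈ C.N2 x) (h1 : C.K x ⊓ C.K y ≠ ⊥) {t : G}
    (ht : t ∈ T G X) (htx : t • x = x) (hty : t • y = y) {v : ℕ}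
    (hv : v * Nat.card ↥(C.K x ⊓ C.K y) = C.k) :
    2 * ((Finset.univ.filter fun p => C.F1 x y p ∧ t • p = p).erase x).card + 1 ≤ v := by
  have hx := C.F1_left x y
  let Γ : Finset G := Finset.univ.filter fun g => g • x = x ∧ Commute t g ∧ C.F1 x y (g • y)
  have mΓ : ∀ g, g ∈ Γ ↔ g • x = x ∧ Commute t g ∧ C.F1 x y (g • y) := fun g => by simp [Γ]
  have h2 : 2 * ((Finset.univ.filter fun p => C.F1 x y p ∧ t • p = p).erase x).card ≤ Γ.card := by
    refine le_trans (Nat.mul_le_mul_left 2 (Finset.card_le_card (t := Γ.image fun g => g • y) ?_))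
      (Finset.mul_card_image_le_card Γ 2 ?_)
    · intro q hq
      simp only [Finset.mem_erase, Finset.mem_filter, Finset.mem_univ, true_and] at hq
      obtain ⟨g, g1, g2⟩ := C.tr2 hy (C.K1_eq hy h1 hq.1 hx hq.2.1).1
      have g3 : g⁻¹ • x = x := by rw [inv_smul_eq_iff, g1]
      obtain ⟨b, hb, b1, b2⟩ := C.inv_conj' hk (T_conj g ht) ht (x := x)
        (by rw [mul_smul, mul_smul, g3, htx, g1]) htx
      have b3 : b • q = q := b1 q (by rw [← g2, mul_smul, mul_smul, inv_smul_smul, hty]) hq.2.2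
      have b4 : (b * g) • y = q := by rw [mul_smul, g2, b3]
      refine Finset.mem_image.2 ⟨b * g, (mΓ _).2 ⟨by rw [mul_smul, g1, C.K_fix hb], ?_, ?_⟩, b4⟩
      · show t * (b * g) = b * g * t
        conv_lhs => rw [b2]
        group
      · rw [b4]; exact hq.2.1
    · intro q hq
      obtain ⟨g, hg, rfl⟩ := Finset.mem_image.1 hq
      obtain ⟨g1, g2, g3⟩ := (mΓ g).1 hg
      refine Finset.one_lt_card.2 ⟨g, Finset.mem_filter.2 ⟨hg, rfl⟩, g * t,
        Finset.mem_filter.2 ⟨(mΓ _).2 ⟨by rw [mul_smul, htx, g1], g2.mul_right (Commute.refl t), ?_⟩,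
          by rw [mul_smul, hty]⟩, fun h => (mem_T.1 ht).2.1 ?_⟩
      · rw [mul_smul, hty]; exact g3
      · exact (left_eq_mul.1 h)
  obtain ⟨a, ha, hay⟩ := C.ex_move hy
  have hn : ∀ g ∈ Γ, (∀ w ∈ C.K x ⊓ C.K y, g * w * g⁻¹ ∈ C.K x ⊓ C.K y) ∧
      ∀ w ∈ C.K x ⊓ C.K y, g⁻¹ * w * g ∈ C.K x ⊓ C.K y := fun g hg => by
    obtain ⟨g1, -, g3⟩ := (mΓ g).1 hg
    have g4 : g • y ≠ x := fun h => (C.mem2.1 hy).1 (MulAction.injective g (h.trans g1.symm))
    have e := (C.K1_eq hy h1 g4 hx g3).2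
    refine ⟨fun w hw => ?_, fun w hw => ?_⟩
    · rw [← e]
      exact ⟨C.K_norm g1 hw.1, C.K_conj g hw.2⟩
    · have hw' := hw
      rw [← e] at hw'
      have a1 := C.K_norm (g := g⁻¹) (by rw [inv_smul_eq_iff, g1]) hw.1
      have a2 := C.K_conj g⁻¹ hw'.2
      rw [inv_smul_smul] at a2
      rw [inv_inv] at a1 a2
      exact ⟨a1, a2⟩
  have h3 : Γ.card ≤ ((Finset.univ.filter fun p => ∃ a ∈ C.K x, a • y = p).erase y).card := by
    refine Finset.card_le_card_of_injOn (fun g => (g * a * g⁻¹) • y) (fun g hg => ?_)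
      fun g hg g' hg' e => ?_
    · have hg' : g ∈ Γ := hg
      have a1 := C.K_norm ((mΓ g).1 hg').1 ha
      refine Finset.mem_coe.2 (Finset.mem_erase.2 ⟨fun h => hay ?_, Finset.mem_filter.2
        ⟨Finset.mem_univ _, _, a1, rfl⟩⟩)
      have a2 := (hn g hg').2 _ (C.mem_K1.2 ⟨a1, h⟩)
      rw [show g⁻¹ * (g * a * g⁻¹) * g = a by group] at a2
      exact C.F1_right x y _ a2
    · have hg1 : g ∈ Γ := hg
      have hg2 : g' ∈ Γ := hg'
      obtain ⟨g1, g2, -⟩ := (mΓ g).1 hg1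
      obtain ⟨g1', g2', -⟩ := (mΓ g').1 hg2
      have e' : (g * a * g⁻¹) • y = (g' * a * g'⁻¹) • y := e
      by_contra hne
      have c1 : (g'⁻¹ * g) • x = x := by rw [mul_smul, g1, inv_smul_eq_iff, g1']
      have c2 : g'⁻¹ * g ∉ C.K x := fun h =>
        hne (inv_mul_eq_one.1 (C.cent_one hk ht htx h (g2'.inv_right.mul_right g2))).symm
      have c3 : (g' * a * g'⁻¹)⁻¹ * (g * a * g⁻¹) ∈ C.K x ⊓ C.K y :=
        C.mem_K1.2 ⟨(C.K x).mul_mem ((C.K x).inv_mem (C.K_norm g1' ha)) (C.K_norm g1 ha),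
          by rw [mul_smul, e', inv_smul_smul]⟩
      have c4 := (hn g' hg2).2 _ c3
      refine hay (C.F1_right x y _ (C.comm_mem c1 c2 inf_le_left (fun w hw => ?_) ha ?_))
      · have := (hn g' hg2).2 _ ((hn g hg1).1 w hw)
        rwa [show g'⁻¹ * (g * w * g⁻¹) * g' = g'⁻¹ * g * w * (g'⁻¹ * g)⁻¹ by group] at this
      · rwa [show g'⁻¹ * ((g' * a * g'⁻¹)⁻¹ * (g * a * g⁻¹)) * g' =
          a⁻¹ * (g'⁻¹ * g * a * (g'⁻¹ * g)⁻¹) by group] at c4
  have h4 := C.card_orb (x := x) (q := y)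
  rw [← hv] at h4
  have h5 := Nat.eq_of_mul_eq_mul_right Nat.card_pos h4
  have h6 := Finset.card_erase_add_one (a := y)
    (s := Finset.univ.filter fun p => ∃ a ∈ C.K x, a • y = p)
    (Finset.mem_filter.2 ⟨Finset.mem_univ _, 1, (C.K x).one_mem, one_smul _ _⟩)
  omega

theorem k_le : C.k + 1 ≤ C.l + C.mu := by
  obtain ⟨x⟩ := C.ne
  obtain ⟨y, hy⟩ := C.toGr.ex2 x
  have h1 := C.toGr.cross hy
  have h2 : (C.N2 x ∩ C.N1 y).card ≤ ((C.N2 x).erase y).card := Finset.card_le_card fun z hz =>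
    Finset.mem_erase.2 ⟨C.toGr.ne1 (Finset.mem_inter.1 hz).2, (Finset.mem_inter.1 hz).1⟩
  have h3 := Finset.card_erase_add_one hy
  rw [C.card2] at h3
  omega

theorem two_mu_le : 2 * C.mu ≤ C.k + C.lam := by
  obtain ⟨x⟩ := C.ne
  obtain ⟨y, hy⟩ := C.toGr.ex2 x
  obtain ⟨z, hz, hzy⟩ := C.toGr.ex_cross hy
  have h1 := Finset.card_union_add_card_inter (C.N1 x ∩ C.N1 y) (C.N1 x ∩ C.N1 z)
  have h2 : ((C.N1 x ∩ C.N1 y) ∪ (C.N1 x ∩ C.N1 z)).card ≤ (C.N1 x).card :=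
    Finset.card_le_card (Finset.union_subset Finset.inter_subset_left Finset.inter_subset_left)
  have h3 : ((C.N1 x ∩ C.N1 y) ∩ (C.N1 x ∩ C.N1 z)).card ≤ (C.N1 y ∩ C.N1 z).card :=
    Finset.card_le_card (Finset.inter_subset_inter Finset.inter_subset_right
      Finset.inter_subset_right)
  rw [C.cardm hy, C.cardm hz] at h1
  rw [C.card1] at h2
  rw [C.cardl hzy] at h3
  omega

/-- Package O1B.  The index of `K x ⊓ K y` in `K x` is three. -/
theorem o1b (hk : Odd C.k) {x y : X} (hy : y ∈ C.N2 x) (h1 : C.K x ⊓ C.K y ≠ ⊥) :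
    C.k = 9 ∧ C.h = 4 ∧ C.l = 6 := by
  classical
  have he := C.o1_even hk hy h1
  obtain ⟨t, ht, htx, hty⟩ := ex_inv2 he
  obtain ⟨v, hv⟩ : ∃ v, v * Nat.card ↥(C.K x ⊓ C.K y) = C.k := ⟨_, C.card_orb⟩
  have a1 := C.o1_f1 hk hy h1 ht htx
  have a2 := C.o1_low hk hy h1 ht htx hv
  have a3 := C.o1_up hk hy h1 ht htx hty hv
  have a4 := Finset.card_erase_add_one (a := x)
    (s := Finset.univ.filter fun p => C.F1 x y p ∧ t • p = p)
    (Finset.mem_filter.2 ⟨Finset.mem_univ _, C.F1_left x y, htx⟩)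
  have a5 : 0 < ((Finset.univ.filter fun p => C.F1 x y p ∧ t • p = p).erase x).card :=
    Finset.card_pos.2 ⟨y, Finset.mem_erase.2 ⟨(C.mem2.1 hy).1,
      Finset.mem_filter.2 ⟨Finset.mem_univ _, C.F1_right x y, hty⟩⟩⟩
  rw [← a4] at a1
  generalize ((Finset.univ.filter fun p => C.F1 x y p ∧ t • p = p).erase x).card = φ at a1 a2 a3 a5
  have b1 : v ≤ φ + 2 := by
    refine Nat.le_of_mul_le_mul_left (c := φ) ?_ a5
    nlinarith
  have b2 : v = 3 := by omega
  subst b2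
  have b3 := C.K1_sq hy
  have b4 : 1 < Nat.card ↥(C.K x ⊓ C.K y) := (Subgroup.one_lt_card_iff_ne_bot _).2 h1
  obtain ⟨u, hu, hu'⟩ := C.U_dec hy
  have b5 := C.toGr.card_S2 hy
  rw [C.card_St, hu'] at b5
  rw [hu'] at he
  generalize Nat.card ↥(C.K x ⊓ C.K y) = k1 at hv b3 b4 b5 he
  have b6 : k1 = 3 := by
    have : k1 ≤ 3 := by nlinarith
    obtain ⟨j, hj⟩ := hk
    omega
  subst b6
  have hk9 : C.k = 9 := by omega
  have c1 := C.h_dvd
  have c2 := C.h_dvd_lam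
  have c3 := C.toGr.edge
  have c4 := C.k_le
  have c5 := C.two_mu_le
  have c6 := C.mu_pos
  have c7 := C.mu_lt
  have c8 := C.two_le_h
  rw [hk9] at c1 c3 c4 c5 c7 b5
  refine ⟨hk9, ?_⟩
  obtain ⟨j, hj⟩ := c2
  have hue : u % 2 = 0 := by
    rw [Nat.even_iff] at he
    omega
  have d1 : C.h ≤ 8 := Nat.le_of_dvd (by norm_num) c1
  have d2 : u ≤ C.h := Nat.le_of_dvd (by omega) hu
  generalize C.h = h at *
  generalize C.l = l at *
  generalize C.mu = mu at *
  generalize C.lam = lam at *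
  interval_cases h <;> interval_cases u <;> first | omega | skip
  all_goals
    have : l = 3 ∨ l = 6 ∨ l = 12 := by omega
    rcases this with rfl | rfl | rfl <;> omega

end Cf

end CfsgLib.R3f
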