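import Mathlib
import Cfsg.Agent.Lib.R3f.Api1

set_option autoImplicit false
set_option linter.unusedSectionVars false

namespace CfsgLib.R3f

open MulAction

variable {G X : Type*} [Group G] [Fintype G] [Fintype X] [DecidableEq X] [MulAction G X]

theorem srg_trace {M : Matrix X X ℝ} (h : M * M = M) : M.trace = M.rank := by
  have h1 : IsIdempotentElem (Matrix.toLin' M) := by
    rw [IsIdempotentElem, Module.End.mul_eq_comp, ← Matrix.toLin'_mul, h]
  rw [← Matrix.trace_toLin'_eq, (LinearMap.IsIdempotentElem.isProj_range _ h1).trace]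
  rfl

theorem srg_alg {R : Type*} [Ring R] [Algebra ℝ R] {A J : R} {k mu n r s c : ℝ}
    (hAA : A * A = (r * s) • (1 : R) + (r - s) • A + mu • J) (hAJ : A * J = k • J) (hJA : J * A = k • J)
    (hJJ : J * J = n • J) (hc : c * n = k + s) (hmu : mu = c * (k - r)) :
    (A + s • (1 : R) - c • J) * (A + s • (1 : R) - c • J) = (r + s) • (A + s • (1 : R) - c • J) ∧
      (A + s • (1 : R) - c • J) * J = 0 ∧ J * (A + s • (1 : R) - c • J) = 0 := by
  obtain rfl : k = c * n - s := by linarith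
  subst hmu
  simp only [mul_add, add_mul, mul_sub, sub_mul, smul_mul_assoc, mul_smul_comm, mul_one, one_mul, hAA, hAJ,
    hJA, hJJ]
  refine ⟨?_, ?_, ?_⟩ <;> module

/-- The permutation matrix. -/
def srgP (X : Type*) [DecidableEq X] [MulAction G X] (y : G) : Matrix X X ℝ :=
  Matrix.of fun z x => if z = y • x then 1 else 0

theorem mul_srgP (M : Matrix X X ℝ) (y : G) (z x : X) : (M * srgP X y) z x = M z (y • x) := by
  simp [srgP, Matrix.mul_apply]

theorem srgP_mul (M : Matrix X X ℝ) (y : G) (z x : X) : (srgP X y * M) z x = M (y⁻¹ • z) x := by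
  simp [srgP, Matrix.mul_apply, ← inv_smul_eq_iff]

theorem srgP_mul_srgP (y y' : G) : srgP X y * srgP X y' = srgP X (y * y') := by
  ext z x
  rw [mul_srgP]
  simp [srgP, mul_smul]

theorem trace_srgP (y : G) : (srgP X y).trace = fx X y := by
  simp [srgP, Matrix.trace, fx, eq_comm]

/-- The adjacency matrix. -/
def Gr.adj (C : Gr G X) : Matrix X X ℝ := Matrix.of fun x z => if z ∈ C.N1 x then 1 else 0

theorem Gr.adj_srgP (C : Gr G X) (y : G) : C.adj * srgP X y = srgP X y * C.adj := by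
  ext z x
  rw [mul_srgP, srgP_mul]
  simp only [Gr.adj, Matrix.of_apply, ← C.smul1_iff y (x := y⁻¹ • z), smul_inv_smul]

theorem Gr.trace_adj_srgP (C : Gr G X) (y : G) : (C.adj * srgP X y).trace = C.al y := by
  simp only [Matrix.trace, Matrix.diag, mul_srgP]
  simp [Gr.adj, Gr.al]

theorem Gr.adj_sq (C : Gr G X) : C.adj * C.adj = (C.k - C.mu : ℝ) • (1 : Matrix X X ℝ) +
    (C.lam - C.mu : ℝ) • C.adj + (C.mu : ℝ) • Matrix.of fun _ _ => (1 : ℝ) := by
  ext x z
  have h : (C.adj * C.adj) x z = (C.N1 x ∩ C.N1 z).card := by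
    have : ∀ w, z ∈ C.N1 w ↔ w ∈ C.N1 z := fun w => ⟨C.symm, C.symm⟩
    simp only [Gr.adj, Matrix.mul_apply, Matrix.of_apply, this, ite_zero_mul_ite_zero, mul_one,
      ← Finset.mem_inter]
    rw [Finset.sum_boole, Finset.filter_univ_mem]
  rw [h]
  rcases C.tri x z with rfl | h1 | h1
  · simp [Gr.adj, C.irr, C.card1]
  · simp [Gr.adj, h1, C.cardl h1, (C.ne1 h1).symm]
  · simp [Gr.adj, C.cardm h1, (C.mem2.1 h1).1.symm, (C.mem2.1 h1).2]

theorem Gr.srg_real (C : Gr G X) {r s : ℝ} (hd : r + s ≠ 0) (h1 : r * s + C.mu = C.k)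
    (h2 : r + C.mu = s + C.lam) :
    ∃ f g : ℕ, f + g = C.k + C.l ∧ (r + s) * f + C.k = s * (C.k + C.l) ∧ ∀ Y : Subgroup G, ∃ a b : ℕ,
      a ≤ f ∧ b ≤ g ∧ (r + s) * (Nat.card Y * a) + (C.k + s) * Nat.card Y = sm Y C.al + s * sm Y (fx X) ∧
        Nat.card Y * (a + b + 1) = sm Y (fx X) := by
  classical
  obtain ⟨J, hJ⟩ : ∃ J : Matrix X X ℝ, J = Matrix.of fun _ _ => (1 : ℝ) := ⟨_, rfl⟩
  obtain ⟨n, hn⟩ : ∃ n : ℝ, n = Fintype.card X := ⟨_, rfl⟩
  have hn' : n = 1 + C.k + C.l := by rw [hn, C.card_n]; push_cast; rfl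
  have n0 : n ≠ 0 := by rw [hn']; positivity
  have he : (C.l * C.mu + C.k * (C.lam + 1) : ℝ) = C.k * C.k := by exact_mod_cast C.edge
  have hJJ : J * J = n • J := by
    ext x z
    simp [hJ, hn, Matrix.mul_apply]
  have hPJ : ∀ y : G, srgP X y * J = J := fun y => by
    ext z x
    simp [srgP_mul, hJ]
  have hJP : ∀ y : G, J * srgP X y = J := fun y => by
    ext z x
    simp [mul_srgP, hJ]
  have tJ : J.trace = n := by simp [hJ, hn, Matrix.trace]
  obtain ⟨e1, e2, e3⟩ := srg_alg (A := C.adj) (J := J) (k := C.k) (mu := C.mu) (n := n) (r := r) (s := s)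
    (c := (C.k + s) / n)
    (by rw [C.adj_sq, hJ, show r * s = C.k - C.mu by linarith, show r - s = C.lam - C.mu by linarith])
    (by
      ext x z
      simp [Gr.adj, hJ, Matrix.mul_apply, C.card1])
    (by
      ext x z
      have : ∀ w, z ∈ C.N1 w ↔ w ∈ C.N1 z := fun w => ⟨C.symm, C.symm⟩
      simp [Gr.adj, hJ, Matrix.mul_apply, this, C.card1])
    hJJ (div_mul_cancel₀ _ n0) (by
      field_simp
      rw [hn']
      linear_combination he + h1 + C.k * h2)
  obtain ⟨E, hE⟩ : ∃ E : Matrix X X ℝ, E = (r + s)⁻¹ • (C.adj + s • 1 - ((C.k + s) / n) • J) := ⟨_, rfl⟩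
  have EE : E * E = E := by
    rw [hE, smul_mul_assoc, mul_smul_comm, e1, smul_smul (r + s)⁻¹ (r + s), inv_mul_cancel₀ hd, one_smul]
  have EJ : E * J = 0 := by rw [hE, smul_mul_assoc, e2, smul_zero]
  have JE : J * E = 0 := by rw [hE, mul_smul_comm, e3, smul_zero]
  have EP : ∀ y : G, E * srgP X y = srgP X y * E := fun y => by
    simp only [hE, mul_add, add_mul, mul_sub, sub_mul, smul_mul_assoc, mul_smul_comm, mul_one, one_mul,
      C.adj_srgP, hPJ, hJP]
  have tE : ∀ y : G, (r + s) * (E * srgP X y).trace + (C.k + s) = C.al y + s * fx X y := fun y => by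
    simp only [hE, add_mul, sub_mul, smul_mul_assoc, one_mul, hJP, Matrix.trace_smul, Matrix.trace_add,
      Matrix.trace_sub, C.trace_adj_srgP, trace_srgP, tJ, smul_eq_mul]
    field_simp
    ring
  obtain ⟨E', hE'⟩ : ∃ E' : Matrix X X ℝ, E' = 1 - n⁻¹ • J - E := ⟨_, rfl⟩
  have EE' : E' * E' = E' := by
    simp only [hE', mul_sub, sub_mul, smul_mul_assoc, mul_smul_comm, mul_one, one_mul, hJJ, EE, EJ, JE,
      smul_smul, inv_mul_cancel₀ n0]
    module
  have EP' : ∀ y : G, E' * srgP X y = srgP X y * E' := fun y => by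
    simp only [hE', mul_sub, sub_mul, smul_mul_assoc, mul_smul_comm, mul_one, one_mul, EP, hPJ, hJP]
  have tE' : ∀ y : G, (E * srgP X y).trace + (E' * srgP X y).trace + 1 = fx X y := fun y => by
    simp only [hE', sub_mul, smul_mul_assoc, one_mul, hJP, Matrix.trace_smul, Matrix.trace_sub, trace_srgP, tJ,
      smul_eq_mul, inv_mul_cancel₀ n0]
    ring
  have P1 : srgP X (1 : G) = 1 := by
    ext z x
    simp [srgP, Matrix.one_apply]
  have t1 := tE 1
  have t2 := tE' 1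
  simp only [P1, mul_one, srg_trace EE, srg_trace EE', C.fx_one, C.al_one] at t1 t2
  refine ⟨E.rank, E'.rank, ?_, by push_cast at t1; linarith, fun Y => ?_⟩
  · have : E.rank + E'.rank + 1 = 1 + C.k + C.l := by exact_mod_cast t2
    omega
  have hsm : ∀ φ : G → ℕ, (sm Y φ : ℝ) = ∑ y : Y, (φ y : ℝ) := fun φ => by
    rw [sm, Finset.sum_subtype (p := (· ∈ Y)) _ (by simp)]
    push_cast
    rfl
  have hY : (Nat.card Y : ℝ) ≠ 0 := Nat.cast_ne_zero.2 Nat.card_pos.ne'
  obtain ⟨e, hee⟩ : ∃ e : Matrix X X ℝ, e = (Nat.card Y : ℝ)⁻¹ • ∑ y : Y, srgP X (y : G) := ⟨_, rfl⟩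
  have ee : e * e = e := by
    have h3 : ∀ y : Y, srgP X (y : G) * ∑ y : Y, srgP X (y : G) = ∑ y : Y, srgP X (y : G) := fun y => by
      rw [Finset.mul_sum]
      exact Fintype.sum_equiv (Equiv.mulLeft y) _ _ fun y' => srgP_mul_srgP _ _
    rw [hee, smul_mul_assoc, mul_smul_comm, Finset.sum_mul]
    simp only [h3]
    rw [Finset.sum_const, Finset.card_univ, ← Nat.card_eq_fintype_card, ← Nat.cast_smul_eq_nsmul ℝ,
      smul_smul (Nat.card Y : ℝ)⁻¹ (Nat.card Y : ℝ), inv_mul_cancel₀ hY, one_smul]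
  have key : ∀ M : Matrix X X ℝ, M * M = M → (∀ y : G, M * srgP X y = srgP X y * M) →
      (Nat.card Y * (M * e).rank : ℝ) = ∑ y : Y, (M * srgP X (y : G)).trace := fun M hM hP => by
    have h3 : e * M = M * e := by
      simp only [hee, smul_mul_assoc, mul_smul_comm, Finset.sum_mul, Finset.mul_sum, hP]
    rw [← srg_trace (by rw [mul_assoc, ← mul_assoc e, h3, mul_assoc, ee, ← mul_assoc, hM]), hee,
      mul_smul_comm, Matrix.trace_smul, smul_eq_mul, mul_inv_cancel_left₀ hY, Finset.mul_sum, Matrix.trace_sum]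
  have hc : ∀ t : ℝ, ∑ _y : Y, t = t * Nat.card Y := fun t => by
    rw [Finset.sum_const, Finset.card_univ, ← Nat.card_eq_fintype_card, nsmul_eq_mul, mul_comm]
  refine ⟨(E * e).rank, (E' * e).rank, Matrix.rank_mul_le_left _ _, Matrix.rank_mul_le_left _ _, ?_, ?_⟩
  · rw [key E EE EP, hsm, hsm, ← hc, Finset.mul_sum, Finset.mul_sum, ← Finset.sum_add_distrib,
      ← Finset.sum_add_distrib]
    exact Finset.sum_congr rfl fun y _ => tE y
  · refine Nat.cast_injective (R := ℝ) ?_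
    push_cast
    rw [mul_add, mul_add, key E EE EP, key E' EE' EP', hsm, mul_one, ← one_mul (Nat.card Y : ℝ), ← hc,
      ← Finset.sum_add_distrib, ← Finset.sum_add_distrib]
    exact Finset.sum_congr rfl fun y _ => tE' y

/-- Package SRG.  Eigenvalue data of the strongly regular graph.
Proof over `ℝ` with matrices on `X` (or endomorphisms of `X → ℝ`): `A x y = if y ∈ N1 x then 1 else 0`,
`J` all ones, `n = 1 + k + l`.  `A * A = k • 1 + lam • A + mu • (J - 1 - A)` (`card1`, `cardl`, `cardm`,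
`symm`), `A * J = J * A = k • J`, `J * J = n • J`.  `D = (lam - mu)^2 + 4 (k - mu) > (lam - mu)^2`,
`d = √D`, `r = (lam - mu + d)/2 > 0`, `s = (mu - lam + d)/2 > 0`, `r s = k - mu`, `r - s = lam - mu`,
`(A - r)(A + s) = mu • J`, `(k - r)(k + s) = mu n` (`edge`).  `E = d⁻¹ • (A + s - ((k + s)/n) • J)` and
`E' = 1 - n⁻¹ • J - E` are idempotent.  For `y : G` let `P y` be the permutation matrix; it commutes
with `A` (`smul1_iff`), `J`; `trace (P y * A) = al y`, `trace (P y) = fx y`, `trace (P y * J) = n`.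
`e Y = |Y|⁻¹ • ∑ y ∈ Y, P y` is idempotent and commutes with `E`, `E'`; the trace of an idempotent is the
rank of its range (`LinearMap.IsProj.trace`, `LinearMap.IsIdempotentElem.isProj_range` or similar), and
`range (E * e Y) ≤ range E`.  `f = rank E`, `g = rank E'`, `f + g = n - 1`, `d f = s (n - 1) - k`, i.e.
`d (2 f - (n - 1)) = (n - 1)(mu - lam) - 2 k ≠ 0` (`hne`), so `d` is rational, hence a natural number
(`irrational_sqrt_natCast_iff` / `IsSquare`), `d ≡ lam - mu (mod 2)`, so `r, s ∈ ℕ`; cast everything. -/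
theorem Gr.exists_eig (C : Gr G X) (hne : (C.k + C.l) * C.mu ≠ (C.k + C.l) * C.lam + 2 * C.k) :
    ∃ r s f g : ℕ, C.Eig r s f g := by
  have hmu : (C.mu : ℤ) < C.k := by exact_mod_cast C.mu_lt
  obtain ⟨D, hD⟩ : ∃ D : ℤ, D = ((C.lam : ℤ) - C.mu) ^ 2 + 4 * (C.k - C.mu) := ⟨_, rfl⟩
  have D0 : 0 < D := by rw [hD]; nlinarith [sq_nonneg ((C.lam : ℤ) - C.mu)]
  have d0 : 0 < √(D : ℝ) := Real.sqrt_pos.2 (by exact_mod_cast D0)
  have dd : √(D : ℝ) * √(D : ℝ) = ((C.lam : ℝ) - C.mu) ^ 2 + 4 * (C.k - C.mu) := by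
    rw [Real.mul_self_sqrt (by exact_mod_cast D0.le), hD]
    push_cast
    rfl
  obtain ⟨f, -, -, h1, -⟩ := C.srg_real (r := (C.lam - C.mu + √(D : ℝ)) / 2) (s := (C.mu - C.lam + √(D : ℝ)) / 2)
    (by linarith) (by linarith) (by ring)
  have h2 : √(D : ℝ) * (2 * f - (C.k + C.l)) = (C.k + C.l) * C.mu - ((C.k + C.l) * C.lam + 2 * C.k) := by
    linarith
  have h3 : (2 * f - (C.k + C.l) : ℝ) ≠ 0 := fun h => hne (by
    rw [h, mul_zero, eq_comm, sub_eq_zero] at h2
    exact_mod_cast h2)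
  obtain ⟨m, hm⟩ : IsSquare D := by
    by_contra h
    refine (irrational_sqrt_intCast_iff_of_nonneg D0.le).2 h
      ⟨((C.k + C.l) * C.mu - ((C.k + C.l) * C.lam + 2 * C.k)) / (2 * f - (C.k + C.l)), ?_⟩
    push_cast
    rw [div_eq_iff h3, h2]
  rw [← abs_mul_abs_self] at hm
  have m0 := abs_nonneg m
  generalize |m| = d at hm m0
  have h4 : (d - (C.lam - C.mu)) * (d + (C.lam - C.mu)) = 4 * (C.k - C.mu) := by linarith
  obtain ⟨r, hr⟩ : Even (d + (C.lam - C.mu)) := by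
    have h5 : Even ((d - (C.lam - C.mu)) * (d + (C.lam - C.mu))) := ⟨2 * (C.k - C.mu), by linarith⟩
    rcases Int.even_mul.1 h5 with ⟨c, h⟩ | h
    exacts [⟨c + (C.lam - C.mu), by linarith⟩, h]
  obtain ⟨s, hs⟩ : ∃ s : ℤ, s = d - r := ⟨_, rfl⟩
  have h5 : r * s + C.mu = C.k := by
    rw [show d - (C.lam - C.mu) = s + s by linarith, hr] at h4
    linarith
  have h6 : 0 < r * s := by linarith
  obtain ⟨r0, s0⟩ : 0 < r ∧ 0 < s := (mul_pos_iff.1 h6).resolve_right fun h => by linarith [h.1, h.2]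
  lift r to ℕ using r0.le
  lift s to ℕ using s0.le
  have h7 : r * s + C.mu = C.k := by exact_mod_cast h5
  have h8 : r + C.mu = s + C.lam := by omega
  obtain ⟨f, g, a1, a2, a3⟩ := C.srg_real (r := r) (s := s) (by
    have : (0 : ℝ) < r := by exact_mod_cast r0
    positivity) (by exact_mod_cast h7) (by exact_mod_cast h8)
  refine ⟨r, s, f, g, h7, h8, a1, by exact_mod_cast a2, fun Y => ?_⟩
  obtain ⟨a, b, b1, b2, b3, b4⟩ := a3 Y
  refine ⟨a, b, b1, b2, ?_, b4⟩
  have h9 : sm Y (fun y => C.al y + s * fx X y) = sm Y C.al + s * sm Y (fx X) := by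
    simp only [sm, Finset.sum_add_distrib, Finset.mul_sum]
  rw [h9]
  exact_mod_cast b3

end CfsgLib.R3f
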