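import Cfsg.Agent.Lib.R3f.Ot
import Cfsg.Agent.Lib.R3f.Srg

set_option autoImplicit false

namespace CfsgLib.R3f

open MulAction

variable {G X : Type*} [Group G] [Fintype G] [Fintype X] [DecidableEq X] [MulAction G X]

theorem o2_num {u r s f : ℕ} (hu : Odd u) (p1 : r * s + u = 2 * u + 1) (p2 : r + u = s + 0)
    (p3 : (r + s) * f + (2 * u + 1) = s * (2 * u + 1 + (2 * u + 1) * (1 + 1))) : u = 1 := by
  obtain rfl : s = r + u := by omega
  obtain rfl : r = 1 := by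
    rcases r with _ | _ | r
    · omega
    · rfl
    · nlinarith
  have d1 : u + 2 ∣ 12 := by
    have : (u + 2) * f + (u + 2) * 5 = (u + 2) * (6 * u) + 12 := by nlinarith
    exact (Nat.dvd_add_right (dvd_mul_right _ _)).1 (this ▸ (dvd_mul_right _ _).add (dvd_mul_right _ _))
  have d2 := Nat.le_of_dvd (by norm_num) d1
  obtain ⟨v, hv⟩ := hu
  have : u ≤ 10 := by omega
  interval_cases u <;> omega

namespace Cf

variable (C : Cf G X)

/-- Package O2.  `u = |S2 G x y| ∣ h` (`U_dec`), `h = m u`, `l = k m`, `m` even (`h_even`), `m ≥ 2`.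
An involution `t` fixing `x` and `y₀ ∈ N1 x` fixes no other point (`frob`; no point of `N2 x` as `u` is
odd, `card_U`): `fx t = 2`.  `T_fx`, `T_card`: `1 + k + l = 2 (1 + β + m γ)`, `β ≤ h`, `γ ≤ u` (`tc_le`).
With `k = 1 + h t₀` (`h_dvd`, `h_lt`): `t₀ = 1`, `m = 2`.  `edge`: `m mu + lam = h`, so `lam = 0`
(`h_dvd_lam`, `mu_pos`), `mu = u`.  `exists_eig`: `r s = u + 1`, `s = r + u`, so `r = 1`, and
`(u + 2) f = (2 u + 1)(3 u + 2)`, so `u + 2 ∣ 12`, `u = 1`. -/
theorem o2 (hk : Odd C.k) {x y : X} (hy : y ∈ C.N2 x) (h1 : C.K x ⊓ C.K y = ⊥)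
    (hu : Odd (Nat.card (S2 G x y))) : C.k = 3 ∧ C.h = 2 ∧ C.l = 6 := by
  obtain ⟨u, ⟨m, hm⟩, hu'⟩ := C.U_dec hy
  rw [h1, Subgroup.card_bot, one_mul] at hu'
  have hu1 : Odd u := hu' ▸ hu
  have u0 : 0 < u := hu1.pos
  have k0 : 0 < C.k := hk.pos
  have h2 := C.two_le_h
  have hl : C.l = C.k * m := by
    have e := C.card_S2 hy
    rw [hu', C.card_St, hm] at e
    exact Nat.eq_of_mul_eq_mul_right u0 (e.trans (by ring))
  obtain ⟨m', rfl⟩ : Even m := by
    have := C.h_even hk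
    rw [hm, Nat.even_mul] at this
    exact this.resolve_left (Nat.not_even_iff_odd.2 hu1)
  have m0 : 0 < m' := Nat.pos_of_ne_zero fun e => by simp [e] at hm; omega
  obtain ⟨y₀, hy₀⟩ := C.ex1 x
  obtain ⟨t, ht, tx, ty⟩ := C.ex_inv hk hy₀
  obtain ⟨t2, t1, -⟩ := mem_T.1 ht
  have hfx : fx X t = 2 := by
    rw [fx, ← Finset.card_pair (C.ne1 hy₀).symm]
    congr 1
    ext z
    simp only [Finset.mem_filter, Finset.mem_univ, true_and, Finset.mem_insert, Finset.mem_singleton]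
    refine ⟨fun hz => ?_, by rintro (rfl | rfl) <;> assumption⟩
    rcases C.tri x z with e | e | e
    · exact .inl e
    · exact .inr (by_contra fun k => t1 (C.frob tx e hy₀ k hz ty))
    · have h3 : orderOf t ∣ Nat.card (S2 G x z) := Subgroup.orderOf_dvd_natCard _ ⟨tx, hz⟩
      rw [orderOf_eq_prime (p := 2) (by rw [pow_two, t2]) t1, C.card_U e hy] at h3
      exact absurd (even_iff_two_dvd.2 h3) (Nat.not_even_iff_odd.2 hu)
  have e1 := C.T_fx hk ht
  have b1 := tc_le (G := G) x y₀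
  have b2 := tc_le (G := G) x y
  rw [C.card_H hy₀] at b1
  rw [hu'] at b2
  rw [hfx, C.T_card hk hy₀ hy, hl] at e1
  generalize tc G x y₀ = β at e1 b1
  generalize tc G x y = γ at e1 b2
  have e2 : (1 + β + (m' + m') * γ) * 2 = 1 + C.k + C.k * (m' + m') :=
    Nat.eq_of_mul_eq_mul_right k0 (by rw [← e1]; ring)
  obtain ⟨t₀, ht₀⟩ := C.h_dvd
  have hlt := C.h_lt
  have hk' : C.k = 1 + C.h * t₀ := by omega
  have t0 : 0 < t₀ := Nat.pos_of_ne_zero fun e => by simp [e] at hk'; omega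
  have b3 : (m' + m') * γ ≤ C.h := by rw [hm, mul_comm u]; exact Nat.mul_le_mul_left _ b2
  have b4 : C.h * (t₀ * (1 + (m' + m'))) < C.h * 4 := by rw [hk'] at e2; nlinarith
  have b5 := Nat.lt_of_mul_lt_mul_left b4
  obtain rfl : t₀ = 1 := by nlinarith
  obtain rfl : m' = 1 := by omega
  have e3 := C.edge
  rw [hl] at e3
  have e4 : 2 * C.mu + C.lam + 1 = C.k := Nat.eq_of_mul_eq_mul_left k0 (by rw [← e3]; ring)
  have mu0 := C.mu_pos
  have hlam : C.lam = 0 := Nat.eq_zero_of_dvd_of_lt C.h_dvd_lam (by omega)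
  obtain ⟨r, s, f, g, E⟩ := C.exists_eig C.srg_ne
  have p1 := E.prod
  have p2 := E.diff
  have p3 := E.trc
  have hmu : C.mu = u := by omega
  have hk2 : C.k = 2 * u + 1 := by omega
  rw [hl, hk2] at p3
  rw [hmu, hlam] at p2
  rw [hmu, hk2] at p1
  have := o2_num hu1 p1 p2 p3
  omega

end Cf

end CfsgLib.R3f
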