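import Cfsg.Agent.Lib.R3f.Srg
import Cfsg.Agent.Lib.CharDeg.Degree

set_option autoImplicit false
set_option linter.unusedSectionVars false

namespace CfsgLib.R3f

open MulAction

variable {G X : Type*} [Group G] [Fintype G] [Fintype X] [DecidableEq X] [MulAction G X]

theorem tr_integral {M : Matrix X X ℝ} {N : ℕ} (hN : 0 < N) (h : M ^ N = 1) :
    IsIntegral ℤ M.trace := by
  have h1 : (M.map (algebraMap ℝ ℂ)) ^ N = 1 := by
    have := congrArg (algebraMap ℝ ℂ).mapMatrix h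
    rwa [map_pow, map_one] at this
  have h2 := CfsgLib.CharDeg.isIntegral_trace_of_pow_eq_one
    (Matrix.toLin' (M.map (algebraMap ℝ ℂ))) hN (by
      rw [← Matrix.toLin'_pow, h1, Matrix.toLin'_one]; rfl)
  rw [Matrix.trace_toLin'_eq, ← AddMonoidHom.map_trace] at h2
  exact (isIntegral_algebraMap_iff (algebraMap ℝ ℂ).injective).1 h2

/-- The trace of a group element on an eigenspace is an integer. -/
theorem Gr.tr_dvd (C : Gr G X) {r s : ℕ} (hd : 0 < r + s) (h1 : r * s + C.mu = C.k)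
    (h2 : r + C.mu = s + C.lam) (g : G) :
    ((r : ℤ) + s) ∣ (C.al g : ℤ) + s * fx X g - C.k - s := by
  classical
  have hd' : (r : ℝ) + s ≠ 0 := by
    have : (0 : ℝ) < ((r + s : ℕ) : ℝ) := by exact_mod_cast hd
    push_cast at this
    exact this.ne'
  have h1' : (r : ℝ) * s + C.mu = C.k := by exact_mod_cast h1
  have h2' : (r : ℝ) + C.mu = s + C.lam := by exact_mod_cast h2
  obtain ⟨J, hJ⟩ : ∃ J : Matrix X X ℝ, J = Matrix.of fun _ _ => (1 : ℝ) := ⟨_, rfl⟩
  obtain ⟨n, hn⟩ : ∃ n : ℝ, n = Fintype.card X := ⟨_, rfl⟩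
  have hn' : n = 1 + C.k + C.l := by rw [hn, C.card_n]; push_cast; rfl
  have n0 : n ≠ 0 := by rw [hn']; positivity
  have he : (C.l * C.mu + C.k * (C.lam + 1) : ℝ) = C.k * C.k := by exact_mod_cast C.edge
  have hJJ : J * J = n • J := by
    ext x z
    simp [hJ, hn, Matrix.mul_apply]
  have hPJ : ∀ y : G, srgP X y * J = J := fun y => by
    ext z x
    simp [srgP_mul, hJ]
  have hJP : ∀ y : G, J * srgP X y = J := fun y => by
    ext z x
    simp [mul_srgP, hJ]
  have tJ : J.trace = n := by simp [hJ, hn, Matrix.trace]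
  obtain ⟨e1, e2, e3⟩ := srg_alg (A := C.adj) (J := J) (k := C.k) (mu := C.mu) (n := n) (r := r) (s := s)
    (c := (C.k + s) / n)
    (by rw [C.adj_sq, hJ, show (r : ℝ) * s = C.k - C.mu by linarith,
      show (r : ℝ) - s = C.lam - C.mu by linarith])
    (by
      ext x z
      simp [Gr.adj, hJ, Matrix.mul_apply, C.card1])
    (by
      ext x z
      have : ∀ w, z ∈ C.N1 w ↔ w ∈ C.N1 z := fun w => ⟨C.symm, C.symm⟩
      simp [Gr.adj, hJ, Matrix.mul_apply, this, C.card1])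
    hJJ (div_mul_cancel₀ _ n0) (by
      field_simp
      rw [hn']
      linear_combination he + h1' + C.k * h2')
  obtain ⟨E, hE⟩ : ∃ E : Matrix X X ℝ,
      E = ((r : ℝ) + s)⁻¹ • (C.adj + (s : ℝ) • 1 - ((C.k + s) / n) • J) := ⟨_, rfl⟩
  have EE : E * E = E := by
    rw [hE, smul_mul_assoc, mul_smul_comm, e1, smul_smul ((r : ℝ) + s)⁻¹ ((r : ℝ) + s),
      inv_mul_cancel₀ hd', one_smul]
  have EP : ∀ y : G, E * srgP X y = srgP X y * E := fun y => by
    simp only [hE, mul_add, add_mul, mul_sub, sub_mul, smul_mul_assoc, mul_smul_comm, mul_one, one_mul,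
      C.adj_srgP, hPJ, hJP]
  have tE : ((r : ℝ) + s) * (E * srgP X g).trace + (C.k + s) = C.al g + s * fx X g := by
    simp only [hE, add_mul, sub_mul, smul_mul_assoc, one_mul, hJP, Matrix.trace_smul, Matrix.trace_add,
      Matrix.trace_sub, C.trace_adj_srgP, trace_srgP, tJ, smul_eq_mul]
    field_simp
    ring
  have P1 : srgP X (1 : G) = 1 := by
    ext z x
    simp [srgP, Matrix.one_apply]
  have hpow : ∀ i : ℕ, (E * srgP X g + (1 - E)) ^ i = E * srgP X (g ^ i) + (1 - E) := fun i => by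
    induction i with
    | zero => rw [pow_zero, pow_zero, P1, mul_one, add_sub_cancel]
    | succ i ih =>
      have a1 : E * srgP X (g ^ i) * (E * srgP X g) = E * srgP X (g ^ (i + 1)) := by
        rw [pow_succ, ← srgP_mul_srgP, mul_assoc, ← mul_assoc (srgP X (g ^ i)), ← EP, ← mul_assoc,
          ← mul_assoc, EE, mul_assoc]
      have a2 : E * srgP X (g ^ i) * (1 - E) = 0 := by
        rw [EP, mul_assoc, mul_sub, mul_one, EE, sub_self, mul_zero]
      have a3 : (1 - E) * (E * srgP X g) = 0 := by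
        rw [← mul_assoc, sub_mul, one_mul, EE, sub_self, zero_mul]
      have a4 : (1 - E) * (1 - E) = 1 - E := by
        rw [mul_sub, mul_one, sub_mul, one_mul, EE, sub_self, sub_zero]
      rw [pow_succ, ih, add_mul, mul_add, mul_add, a1, a2, a3, a4, add_zero, zero_add]
  have i1 := tr_integral (orderOf_pos g) (M := E * srgP X g + (1 - E)) (by
    rw [hpow, pow_orderOf_eq_one, P1, mul_one, add_sub_cancel])
  have a4 : (1 - E) * (1 - E) = 1 - E := by
    rw [mul_sub, mul_one, sub_mul, one_mul, EE, sub_self, sub_zero]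
  rw [Matrix.trace_add, srg_trace a4] at i1
  have i2 : IsIntegral ℤ (E * srgP X g).trace := by
    have := i1.sub (isIntegral_algebraMap (R := ℤ) (A := ℝ) (x := ((1 - E).rank : ℤ)))
    simpa using this
  obtain ⟨m, hm⟩ : ∃ m : ℤ, m = (C.al g : ℤ) + s * fx X g - C.k - s := ⟨_, rfl⟩
  rw [← hm]
  have i3 : (E * srgP X g).trace = algebraMap ℚ ℝ ((m : ℚ) / ((r : ℚ) + s)) := by
    have : (m : ℝ) = C.al g + s * fx X g - C.k - s := by rw [hm]; push_cast; ring
    simp only [eq_ratCast, Rat.cast_div, Rat.cast_intCast, Rat.cast_add, Rat.cast_natCast]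
    rw [eq_div_iff hd', this]
    linarith
  rw [i3, isIntegral_algebraMap_iff (algebraMap ℚ ℝ).injective] at i2
  obtain ⟨z, hz⟩ := IsIntegrallyClosed.isIntegral_iff.1 i2
  refine ⟨z, ?_⟩
  have hq : (r : ℚ) + s ≠ 0 := by
    have : (0 : ℚ) < ((r + s : ℕ) : ℚ) := by exact_mod_cast hd
    push_cast at this
    exact this.ne'
  rw [eq_div_iff hq] at hz
  have : (m : ℚ) = ((r : ℚ) + s) * z := by rw [← hz]; simp [mul_comm]
  exact_mod_cast this

theorem nt_lam {c s e r σ : ℕ} (hc : c = e * s) (he : 2 ≤ e) (hs : Even s) (hs0 : 0 < s)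
    (h1 : r + s = σ + c) (h2 : r * σ + s = 2 * c + 1) : False := by
  have h3 : 2 * s ≤ c := hc ▸ Nat.mul_le_mul_right s he
  obtain ⟨j, hj⟩ := hs
  obtain ⟨w, rfl⟩ : ∃ w, r = σ + w := ⟨c - s, by omega⟩
  rcases (by omega : σ = 0 ∨ σ = 1 ∨ σ = 2 ∨ 3 ≤ σ) with rfl | rfl | rfl | h
  · omega
  · omega
  · omega
  · have : (3 + w) * 3 ≤ (σ + w) * σ := Nat.mul_le_mul (by omega) h
    omega

theorem nt_mu {e mu r : ℕ} (hmu : 2 ≤ mu) (he : 2 ≤ e) (h : r * (r + mu) + mu = e * mu + 1)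
    (hd : (e + 2) ∣ e * mu) : 1 ≤ r ∧ r + 1 ≤ mu ∧ r + 1 ≤ e := by
  have hr : 1 ≤ r := by
    rcases Nat.eq_zero_or_pos r with rfl | h'
    · nlinarith
    · exact h'
  have h3 : r + 1 ≤ e := by
    by_contra h'
    have : e * mu ≤ r * mu := Nat.mul_le_mul_right _ (by omega)
    nlinarith
  refine ⟨hr, ?_, h3⟩
  obtain ⟨j, rfl⟩ : ∃ j, e = r + 1 + j := ⟨e - (r + 1), by omega⟩
  have h4 : j * mu + 1 = r * r := by nlinarith
  have h5 : (r + 1 + j + 2) ∣ 2 * mu := by
    have : (r + 1 + j + 2) * mu = (r + 1 + j) * mu + 2 * mu := by ring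
    exact (Nat.dvd_add_right hd).1 (this ▸ dvd_mul_right _ _)
  have h6 := Nat.le_of_dvd (by omega) h5
  by_contra h'
  have h7 : j + 1 ≤ r := by omega
  have h8 : j * mu ≤ j * r := Nat.mul_le_mul_left _ (by omega)
  have h9 : (j + 1) * r ≤ r * r := Nat.mul_le_mul_right _ h7
  have : r = 1 := by nlinarith
  omega

theorem nt_fin {e mu r : ℕ} (hmu : 2 ≤ mu) (he : 2 ≤ e) (h : r * (r + mu) + mu = e * mu + 1)
    (hd : (e + 2) ∣ e * mu) (hx : (2 * r + mu) ∣ 1 + r * (1 + e)) :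
    (r = 1 ∧ mu = 2 ∧ e = 2) ∨ (r = 11 ∧ mu = 20 ∧ e = 18) := by
  obtain ⟨hr, hm, h3⟩ := nt_mu hmu he h hd
  obtain ⟨j, rfl⟩ : ∃ j, e = r + 1 + j := ⟨e - (r + 1), by omega⟩
  have h4 : j * mu + 1 = r * r := by nlinarith
  have h5 : (r + 1 + j + 2) ∣ 2 * mu := by
    have : (r + 1 + j + 2) * mu = (r + 1 + j) * mu + 2 * mu := by ring
    exact (Nat.dvd_add_right hd).1 (this ▸ dvd_mul_right _ _)
  rcases (by omega : r = 1 ∨ 2 ≤ r) with rfl | hr2
  · have hj : j = 0 := by nlinarith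
    subst hj
    have := Nat.le_of_dvd (by norm_num) hx
    left
    omega
  right
  obtain ⟨x, hx⟩ := hx
  have j1 : j + 1 ≤ r := by
    by_contra h'
    have : r * (r + 1) ≤ j * mu := Nat.mul_le_mul (by omega) hm
    nlinarith
  have x0 : 0 < x := by
    rcases Nat.eq_zero_or_pos x with rfl | h'
    · omega
    · exact h'
  have x1 : x ≤ r := by
    by_contra h'
    have a1 : (3 * r + 1) * (r + 1) ≤ (2 * r + mu) * x := Nat.mul_le_mul (by omega) (by omega)
    have a2 : r * (1 + (r + 1 + j)) ≤ r * (2 * r + 1) := Nat.mul_le_mul_left _ (by omega)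
    nlinarith
  have hcop : Nat.Coprime r mu := by
    refine Nat.coprime_of_dvd fun p hp h1 h2 => hp.one_lt.ne' (Nat.dvd_one.1 ?_)
    have a1 : p ∣ j * mu + 1 := h4 ▸ h1.mul_right r
    exact (Nat.dvd_add_right (h2.mul_left j)).1 a1
  have hdv : r ∣ x + j := by
    refine hcop.dvd_of_dvd_mul_right ?_
    have a1 : (x + j) * mu + r * (2 * x) = r * (1 + (r + 1 + j) + r) := by nlinarith
    exact (Nat.dvd_add_left (dvd_mul_right r _)).1 (a1 ▸ dvd_mul_right r _)
  obtain ⟨q, hq⟩ := hdv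
  have hq1 : q = 1 := by
    rcases (by omega : q = 0 ∨ q = 1 ∨ 2 ≤ q) with rfl | rfl | h'
    · omega
    · rfl
    · have : r * 2 ≤ r * q := Nat.mul_le_mul_left _ h'
      omega
  subst hq1
  have hm2 : mu = 3 * j + 2 := by
    refine Nat.eq_of_mul_eq_mul_left hr ?_
    have : x = r - j := by omega
    have a1 : (x + j) * mu = r * mu := by rw [hq, mul_one]
    have a2 : (x + j) * r = r * r := by rw [hq, mul_one]
    nlinarith
  subst hm2
  obtain ⟨w, hw⟩ := h5
  have w2 : w ≤ 2 := by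
    by_contra h'
    have : (r + 1 + j + 2) * 3 ≤ (r + 1 + j + 2) * w := Nat.mul_le_mul_left _ (by omega)
    omega
  interval_cases w
  · omega
  · have : r = 5 * j + 1 := by omega
    subst this
    have : j = 0 := by nlinarith
    omega
  · obtain ⟨i, rfl⟩ : ∃ i, j = i + 1 := ⟨j - 1, by omega⟩
    have : r = 2 * i + 1 := by omega
    subst this
    have a1 : (i + 1) * i = (i + 1) * 5 := by nlinarith
    have := Nat.eq_of_mul_eq_mul_left (Nat.succ_pos i) a1
    omega

end CfsgLib.R3f
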