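import Cfsg.Agent.Lib.R3f.O3a
import Cfsg.Agent.Lib.R3f.Tr

set_option autoImplicit false

namespace CfsgLib.R3f

open MulAction

variable {G X : Type*} [Group G] [Fintype G] [Fintype X] [DecidableEq X] [MulAction G X]

namespace Cf

variable (C : Cf G X)

theorem o3_kdvd (hk : Odd C.k) {x y : X} (hy : y ∈ C.N2 x) (h1 : C.K x ⊓ C.K y = ⊥) {z : G}
    (hz : z ∈ C.K x) : C.k ∣ C.al z := by
  rw [← C.card_K x]
  refine api2_free (C.K x) (fun g p => g • p) (one_smul G) (fun g h p => mul_smul g h p) _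
    (fun g hg p hp => ?_) fun g hg p hp e => ?_
  · simp only [Finset.mem_filter, Finset.mem_univ, true_and] at hp ⊢
    rw [← mul_smul, (C.K_comm hk hz hg).eq, mul_smul]
    exact C.smul1 g hp
  · simp only [Finset.mem_filter, Finset.mem_univ, true_and] at hp
    by_contra g1
    rw [C.o3_semi hy h1 hg g1 e, C.K_fix hz] at hp
    exact C.irr x hp

theorem nt_eq {m mu r h u k : ℕ} (hh : h = m * u) (ue : Even u) (hkm : k = m * mu + 1)
    (hle : m * mu ≤ 2 * h) (e3 : r * (r + mu) + mu = m * mu + 1) (r2 : r + 1 ≤ mu) (r3 : r + 1 ≤ m)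
    (c8 : m * mu + 2 * h ≤ k + r * (m + 1)) : False := by
  have c9 : m * (r + 1) ≤ m * mu := Nat.mul_le_mul_left _ r2
  have d1 : m = r + 1 := by nlinarith
  have d2 : mu = r + 1 := by
    refine Nat.eq_of_mul_eq_mul_left (show 0 < m by omega) (le_antisymm ?_ c9)
    nlinarith
  rw [d1, d2] at e3
  have d3 : r = 1 := by nlinarith
  subst d3
  obtain ⟨j, hj⟩ := ue
  subst d1
  omega

theorem nt_sum {a b c A B Z k M r : ℕ} (k0 : 0 < k) (c3 : a * (3 * k) ≤ A) (c4 : b * k ≤ B)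
    (c5 : B + A = Z) (c6 : b + a = c) (q5 : Z ≤ k * (k + r * M)) : c + 2 * a ≤ k + r * M := by
  refine Nat.le_of_mul_le_mul_left ?_ k0
  rw [← c6]
  nlinarith

theorem nt_rank {r mu k a m Z : ℕ} (q4 : a ≤ m + 1)
    (q1 : (r + (r + mu)) * (k * a) + (k + (r + mu)) * k = Z + (r + mu) * (k * (m + 2))) :
    Z ≤ k * (k + r * (m + 1)) := by
  have a1 : (r + (r + mu)) * (k * a) ≤ (r + (r + mu)) * (k * (m + 1)) :=
    Nat.mul_le_mul_left _ (Nat.mul_le_mul_left _ q4)
  nlinarith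

theorem o3_fxK {x y : X} (hy : y ∈ C.N2 x) (h1 : C.K x ⊓ C.K y = ⊥) {z : G} (hz : z ∈ C.K x)
    (hz1 : z ≠ 1) : fx X z = 1 := by
  refine Finset.card_eq_one.2 ⟨x, ?_⟩
  ext p
  simp only [Finset.mem_filter, Finset.mem_univ, true_and, Finset.mem_singleton]
  exact ⟨C.o3_semi hy h1 hz hz1, fun h => by rw [h, C.K_fix hz]⟩

theorem o3_ghost {x y : X} (hy : y ∈ C.N2 x) (hl : C.lam = 0) (h3 : 3 ∣ C.h)
    (h3' : ¬ 3 ∣ Nat.card (S2 G x y)) : ∃ g : G, C.al g = 0 ∧ fx X g = 2 := by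
  have : Fact (Nat.Prime 3) := ⟨Nat.prime_three⟩
  obtain ⟨b, hb⟩ := C.toGr.ex1 x
  obtain ⟨⟨g, hg⟩, ho⟩ := exists_prime_orderOf_dvd_card' (G := S2 G x b) 3 (by rwa [C.card_H hb])
  rw [Subgroup.orderOf_mk] at ho
  have g1 : g ≠ 1 := fun h => by rw [h, orderOf_one] at ho; omega
  have g3 : g * g * g = 1 := by rw [← pow_three', ← ho, pow_orderOf_eq_one]
  refine ⟨g, ?_, ?_⟩
  · refine Finset.card_eq_zero.2 (Finset.filter_eq_empty_iff.2 fun p _ hp => ?_)
    have a1 := C.smul1 g hp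
    have a2 := C.smul1 g a1
    rw [← mul_smul, ← mul_smul, ← mul_assoc, g3, one_smul, mul_smul] at a2
    have a3 := C.cardl hp
    rw [hl, Finset.card_eq_zero] at a3
    have : g • g • p ∈ C.N1 p ∩ C.N1 (g • p) := Finset.mem_inter.2 ⟨C.symm a2, a1⟩
    rw [a3] at this
    simp at this
  · refine Finset.card_eq_two.2 ⟨x, b, (C.toGr.ne1 hb).symm, ?_⟩
    ext p
    simp only [Finset.mem_filter, Finset.mem_univ, true_and, Finset.mem_insert, Finset.mem_singleton]
    refine ⟨fun hp => ?_, fun hp => by rcases hp with rfl | rfl; exacts [hg.1, hg.2]⟩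
    rcases C.toGr.tri x p with h | h | h
    · exact Or.inl h
    · right
      by_contra hne
      exact g1 (C.frob hg.1 h hb hne hp hg.2)
    · refine absurd ?_ h3'
      rw [← C.card_U h hy, ← ho]
      exact (S2 G x p).orderOf_dvd_natCard ⟨hg.1, hp⟩

/-- Package O3.  The traces of the elements of the kernel, of an involution and of an element of
order three on an eigenspace are integers. -/
theorem o3 (hk : Odd C.k) {x y : X} (hy : y ∈ C.N2 x) (h1 : C.K x ⊓ C.K y = ⊥)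
    (hu : Even (Nat.card (S2 G x y))) : C.k = 5 ∧ C.h = 4 ∧ C.l = 10 := by
  classical
  obtain ⟨m, u, β, γ, hh, ue, u0, hl, m2, hn, hT, hU, hcase⟩ := C.o3_cnt hk hy h1 hu
  obtain ⟨r, s, f, g, E⟩ := C.toGr.exists_eig C.srg_ne
  have e1 := E.prod
  have e2 := E.diff
  have main : C.lam = 0 → C.k = m * C.mu + 1 → m * C.mu ≤ 2 * C.h → u ∣ C.mu →
      C.k = 5 ∧ C.h = 4 ∧ C.l = 10 := fun hlam hkm hle hum => by
    have mue : Even C.mu := ue.trans_dvd hum
    have mu2 : 2 ≤ C.mu := by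
      have := C.mu_pos
      obtain ⟨j, hj⟩ := mue
      omega
    obtain rfl : s = r + C.mu := by omega
    have hd : (m + 2) ∣ m * C.mu := by
      have a1 : (m + 2) * (β + m * γ) = (m + 1) * (m * C.mu) := by
        rw [hkm] at hn
        nlinarith
      refine Nat.Coprime.dvd_of_dvd_mul_left (m := m + 1) ?_ (a1 ▸ dvd_mul_right _ _)
      simp [show m + 2 = m + 1 + 1 from rfl]
    have e3 : r * (r + C.mu) + C.mu = m * C.mu + 1 := by omega
    obtain ⟨r1, r2, r3⟩ := nt_mu mu2 m2 e3 hd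
    have tr := fun g : G => C.toGr.tr_dvd (r := r) (s := r + C.mu) (by omega) e1 e2 g
    -- the elements of the kernel
    have hal : ∀ z ∈ C.K x, z ≠ 1 → C.al z = C.k ∨ 3 * C.k ≤ C.al z := fun z hz hz1 => by
      obtain ⟨i, hi⟩ := C.o3_kdvd hk hy h1 hz
      have a1 := tr z
      rw [C.o3_fxK hy h1 hz hz1, hi] at a1
      have a2 : (2 : ℤ) ∣ (C.k : ℤ) * (i - 1) := by
        obtain ⟨j, hj⟩ := mue
        have a3 : (2 : ℤ) ∣ (r : ℤ) + ((r + C.mu : ℕ) : ℤ) := ⟨r + j, by rw [hj]; push_cast; ring⟩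
        have a4 := a3.trans a1
        exact a4.trans (dvd_of_eq (by push_cast; ring))
      have a5 : (2 : ℤ) ∣ (i : ℤ) - 1 := by
        obtain ⟨j, hj⟩ := hk
        rw [hj] at a2
        push_cast at a2
        rw [add_mul, one_mul, mul_assoc] at a2
        exact (dvd_add_right (dvd_mul_right _ _)).1 a2
      rcases (by omega : i = 1 ∨ 3 ≤ i) with rfl | h
      · left; omega
      · right
        rw [hi, mul_comm]
        exact Nat.mul_le_mul_left _ h
    obtain ⟨a, b, -, -, q1, q2⟩ := E.rank (C.K x)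
    rw [C.sm_fx hy h1, C.card_K] at q2
    have q3 : sm (C.K x) (fun y => C.al y + (r + C.mu) * fx X y) =
        sm (C.K x) C.al + (r + C.mu) * sm (C.K x) (fun a => fx X a) := by
      simp only [sm, Finset.sum_add_distrib, Finset.mul_sum]
    rw [q3, C.sm_fx hy h1, C.card_K] at q1
    have k0 : 0 < C.k := hk.pos
    have q4 : a ≤ m + 1 := by
      have : C.k * (a + b + 1) = C.k * (m + 2) := by rw [q2, hl, mul_add]; omega
      have := Nat.eq_of_mul_eq_mul_left k0 this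
      omega
    have q5 : sm (C.K x) C.al ≤ C.k * (C.k + r * (m + 1)) := by
      have a2 : 1 + C.k + C.l + (C.k - 1) = C.k * (m + 2) := by rw [hl, mul_add]; omega
      rw [a2] at q1
      exact nt_rank q4 q1
    set S := (Finset.univ.filter fun g : G => g ∈ C.K x).erase 1 with hS
    have mS : ∀ z, z ∈ S ↔ z ≠ 1 ∧ z ∈ C.K x := fun z => by simp [hS]
    have cS : S.card = m * C.mu := by
      rw [hS, Finset.card_erase_of_mem (by simp [(C.K x).one_mem]), C.o3_cardK, hkm,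
        Nat.add_sub_cancel]
    have sS : sm (C.K x) C.al = ∑ z ∈ S, C.al z := by
      rw [hS, Finset.sum_erase _ C.toGr.al_one]
      rfl
    have hall : ∀ z ∈ S, C.al z = C.k := by
      by_contra hne
      push Not at hne
      obtain ⟨z, hz, hz'⟩ := hne
      obtain ⟨z1, z2⟩ := (mS z).1 hz
      have z3 := (hal z z2 z1).resolve_left hz'
      obtain ⟨y₀, hy₀⟩ := C.toGr.ex1 x
      have c1 := C.card_cls hy₀ z2 z1
      set W := (Finset.univ.filter fun g : G => g ∈ S2 G x y₀).image fun g => g * z * g⁻¹ with hW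
      have c2 : W ⊆ S := fun w hw => by
        obtain ⟨g, hg, rfl⟩ := Finset.mem_image.1 hw
        exact (mS _).2 ⟨by simpa using z1, C.K_norm (Finset.mem_filter.1 hg).2.1 z2⟩
      have c3 : W.card * (3 * C.k) ≤ ∑ w ∈ W, C.al w := by
        rw [← smul_eq_mul]
        refine Finset.card_nsmul_le_sum _ _ _ fun w hw => ?_
        obtain ⟨g, hg, rfl⟩ := Finset.mem_image.1 hw
        rwa [C.toGr.al_conj]
      have c4 : (S \ W).card * C.k ≤ ∑ w ∈ S \ W, C.al w := by
        rw [← smul_eq_mul]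
        refine Finset.card_nsmul_le_sum _ _ _ fun w hw => ?_
        obtain ⟨w1, w2⟩ := (mS w).1 (Finset.mem_sdiff.1 hw).1
        rcases hal w w2 w1 with h | h <;> omega
      have c5 := Finset.sum_sdiff (f := C.al) c2
      have c6 := Finset.card_sdiff_add_card_eq_card c2
      rw [c1] at c3 c6
      rw [cS] at c6
      rw [sS] at q5
      exact nt_eq hh ue hkm hle e3 r2 r3 (nt_sum k0 c3 c4 c5 c6 q5)
    obtain ⟨t, ht, htx, -⟩ := ex_inv2 hu
    have t1 := C.o3_al hk hy hu ht htx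
    rw [sS, Finset.sum_congr rfl hall, Finset.sum_const, cS, smul_eq_mul, mul_comm _ C.k] at t1
    have t2 := Nat.eq_of_mul_eq_mul_left k0 t1
    have t3 := tr t
    rw [t2, (hT t ht).1, hkm] at t3
    have t4 : (2 * r + C.mu) ∣ 1 + r * (1 + m) := by
      rw [← Int.natCast_dvd_natCast]
      have a1 : ((2 * r + C.mu : ℕ) : ℤ) = (r : ℤ) + ((r + C.mu : ℕ) : ℤ) := by push_cast; ring
      rw [a1]
      have a2 := (dvd_mul_right ((r : ℤ) + ((r + C.mu : ℕ) : ℤ)) ((m : ℤ) + 1)).sub t3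
      exact a2.trans (dvd_of_eq (by push_cast; ring))
    rcases nt_fin mu2 m2 e3 hd t4 with ⟨rfl, b1, rfl⟩ | ⟨rfl, b1, rfl⟩
    · rw [b1] at hkm hum
      have := Nat.le_of_dvd (by norm_num) hum
      obtain ⟨j, hj⟩ := ue
      omega
    · exfalso
      rw [b1] at hkm hum
      obtain ⟨g, g1, g2⟩ := C.o3_ghost hy hlam ⟨6 * u, by omega⟩ (by
        rw [hU]
        exact fun h => absurd (h.trans hum) (by norm_num))
      have := tr g
      rw [g1, g2, hkm, b1] at this
      norm_num at this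
  rcases hcase with ⟨a1, a2, a3⟩ | ⟨a1, ⟨a2, a3⟩ | ⟨a2, a3⟩⟩
  · exact main a2 (by rw [a1, a3, hh]) (by rw [a3, ← hh]; omega) (a3 ▸ dvd_rfl)
  · exact (nt_lam (r := r) (σ := s) hh m2 ue u0 (by omega) (by omega)).elim
  · exact main a2 (by rw [a1, a3, hh]; ring) (by rw [a3, hh]; exact le_of_eq (by ring))
      (a3 ▸ dvd_mul_left _ _)

end Cf

end CfsgLib.R3f
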