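import Cfsg.Agent.Lib.R3f.E1
import Cfsg.Agent.Lib.R3f.E2c
import Cfsg.Agent.Lib.R3f.O1b
import Cfsg.Agent.Lib.R3f.O2
import Cfsg.Agent.Lib.R3f.O3
import Cfsg.Agent.Lib.R3f.Fin
import Cfsg.Agent.Lib.Char.Burnside

set_option autoImplicit false

namespace CfsgLib.R3f

open MulAction

variable {G X : Type*} [Group G] [Fintype G] [Fintype X] [DecidableEq X] [MulAction G X]

namespace Cf

variable (C : Cf G X)

theorem odd_k : Odd C.k := by
  by_contra h
  have hk : Even C.k := Nat.not_odd_iff_even.1 h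
  obtain ⟨x⟩ := C.ne
  refine C.e1 hk x fun a ha ha1 y hy => ?_
  rcases C.toGr.tri x y with h | h | h
  · exact h
  · exact absurd (C.K_semi (C.V_le x ha) h hy) ha1
  · exact (C.e2c hk h ha ha1 hy).elim

theorem card_G' : Nat.card G = (1 + C.k + C.l) * (C.k * C.h) := by
  obtain ⟨x⟩ := C.ne
  rw [C.toGr.card_G x, C.card_St x]

include C in
theorem main :
    (Nonempty (G ≃* ↥(alternatingGroup (Fin 5))) ∧ Fintype.card X = 10) ∨
      (Group.IsSolvable G ∧
        ∃ N : Subgroup G, N.Normal ∧ Nat.card N = 16 ∧ ∀ x y : X, ∃! n : ↥N, (n : G) • x = y) := by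
  have hk := C.odd_k
  obtain ⟨x⟩ := C.ne
  obtain ⟨y, hy⟩ := C.toGr.ex2 x
  have hG := C.card_G'
  have hn := C.toGr.card_n
  by_cases h1 : C.K x ⊓ C.K y = ⊥
  · rcases Nat.even_or_odd (Nat.card (S2 G x y)) with hu | hu
    · obtain ⟨e1, e2, e3⟩ := C.o3 hk hy h1 hu
      rw [e1, e2, e3] at hG
      rw [e1, e3] at hn
      have hs : Group.IsSolvable G :=
        CfsgLib.Char.isSolvable_of_card_eq_pow_mul_pow (p := 2) (q := 5) (a := 6) (b := 1)
          Nat.prime_two Nat.prime_five (by rw [hG]; norm_num)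
      exact Or.inr ⟨hs, C.toGr.fin16 hn hs⟩
    · obtain ⟨e1, e2, e3⟩ := C.o2 hk hy h1 hu
      rw [e1, e2, e3] at hG
      rw [e1, e3] at hn
      exact Or.inl ⟨C.toGr.fin60 hn hG, hn⟩
  · obtain ⟨e1, e2, e3⟩ := C.o1b hk hy h1
    rw [e1, e2, e3] at hG
    rw [e1, e3] at hn
    have hs : Group.IsSolvable G :=
      CfsgLib.Char.isSolvable_of_card_eq_pow_mul_pow (p := 2) (q := 3) (a := 6) (b := 2)
        Nat.prime_two Nat.prime_three (by rw [hG]; norm_num)
    exact Or.inr ⟨hs, C.toGr.fin16 hn hs⟩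

end Cf

end CfsgLib.R3f
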