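import Cfsg.Agent.Lib.R3f.Oa
import Cfsg.Agent.Lib.R3f.Lin

set_option autoImplicit false
set_option linter.unusedSectionVars false

namespace CfsgLib.R3f

open MulAction

variable {G X : Type*} [Group G] [Fintype G] [Fintype X] [DecidableEq X] [MulAction G X]

namespace Cf

variable (C : Cf G X)

/-! Odd kernel, `K x ⊓ K y ≠ ⊥`: the fixed points of `K x ⊓ K y` form an affine plane. -/

theorem sq_root (hk : Odd C.k) {x : X} {a : G} (ha : a ∈ C.K x) : ∃ n : ℕ, a ^ n * a ^ n = a := by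
  obtain ⟨j, hj⟩ := hk
  refine ⟨j + 1, ?_⟩
  have := (C.mem_K_iff (C.K_fix ha)).1 ha
  rw [hj] at this
  rw [← pow_add, show j + 1 + (j + 1) = 2 * j + 1 + 1 by ring, pow_succ, this, one_mul]

theorem inv_conj' (hk : Odd C.k) {x : X} {t t' : G} (ht : t ∈ T G X) (ht' : t' ∈ T G X)
    (hx : t • x = x) (hx' : t' • x = x) :
    ∃ b ∈ C.K x, (∀ p : X, t • p = p → t' • p = p → b • p = p) ∧ t' = b * t * b⁻¹ := by
  have hw := C.inv_mul_mem hk ht' ht hx' hx
  obtain ⟨n, hn⟩ := C.sq_root hk hw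
  have hb := (C.K x).pow_mem hw n
  refine ⟨_, hb, fun p h1 h2 => ?_, ?_⟩
  · have : t' * t ∈ stabilizer G p := by
      show (t' * t) • p = p
      rw [mul_smul, h1, h2]
    exact (stabilizer G p).pow_mem this n
  · have e := C.inverts hk ht hx ((C.K x).inv_mem hb)
    rw [inv_inv] at e
    have t2 := (mem_T.1 ht).1
    calc t' = t' * t * t := by rw [mul_assoc, t2, mul_one]
      _ = (t' * t) ^ n * (t * ((t' * t) ^ n)⁻¹ * t⁻¹) * t := by rw [e, hn]
      _ = _ := by group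

theorem cent_one (hk : Odd C.k) {x : X} {t c : G} (ht : t ∈ T G X) (hx : t • x = x)
    (hc : c ∈ C.K x) (h : Commute t c) : c = 1 := by
  by_contra h1
  exact C.inv_out hk ht (C.K_cent hx hc h1 h)

theorem even_U {x y : X} {t : G} (ht : t ∈ T G X) (hx : t • x = x) (hy : t • y = y) :
    Even (Nat.card (S2 G x y)) := by
  obtain ⟨t2, t1, -⟩ := mem_T.1 ht
  have h := (S2 G x y).orderOf_dvd_natCard (x := t) ⟨hx, hy⟩
  rw [orderOf_eq_prime (p := 2) (by rw [pow_two, t2]) t1] at h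
  exact even_iff_two_dvd.2 h

theorem K_L1 (hk : Odd C.k) {x y p : X} (hp : C.F1 x y p) {v : G} (hv : v ∈ C.K p) : C.L1 x y v :=
  fun _ ha => C.K_comm hk hv (C.K1_le hp ha)

theorem T_F1 (hk : Odd C.k) {x y p q : X} {t : G} (ht : t ∈ T G X) (hp : C.F1 x y p)
    (htp : t • p = p) (hq : C.F1 x y q) : C.F1 x y (t • q) := by
  refine C.F1_smul' hq fun a ha => ?_
  have e := C.inverts hk ht htp (C.K1_le hp ((C.K x ⊓ C.K y).inv_mem ha))
  rw [inv_inv] at e
  have : t⁻¹ * a * t = a⁻¹ := by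
    conv_lhs => rw [← e]
    group
  rw [this]
  exact (C.K x ⊓ C.K y).inv_mem ha

theorem T_L1 (hk : Odd C.k) {x y p : X} {t w : G} (ht : t ∈ T G X) (hp : C.F1 x y p)
    (htp : t • p = p) (hw : C.L1 x y w) : C.L1 x y (t * w * t⁻¹) := fun a ha => by
  have e := C.inverts hk ht htp (C.K1_le hp ((C.K x ⊓ C.K y).inv_mem ha))
  rw [inv_inv] at e
  have h := (hw _ ((C.K x ⊓ C.K y).inv_mem ha)).eq
  show t * w * t⁻¹ * a = a * (t * w * t⁻¹)
  calc t * w * t⁻¹ * a = t * w * t⁻¹ * (t * a⁻¹ * t⁻¹) := by rw [e]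
    _ = t * (w * a⁻¹) * t⁻¹ := by group
    _ = (t * a⁻¹ * t⁻¹) * (t * w * t⁻¹) := by rw [h]; group
    _ = _ := by rw [e]

theorem TT_L1 (hk : Odd C.k) {x y p q : X} {t u : G} (ht : t ∈ T G X) (hu : u ∈ T G X)
    (hp : C.F1 x y p) (htp : t • p = p) (hq : C.F1 x y q) (huq : u • q = q) :
    C.L1 x y (u * t) := fun a ha => by
  have e1 := C.inverts hk ht htp (C.K1_le hp ha)
  have e2 := C.inverts hk hu huq (C.K1_le hq ((C.K x ⊓ C.K y).inv_mem ha))
  rw [inv_inv] at e2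
  show u * t * a = a * (u * t)
  calc u * t * a = u * (t * a * t⁻¹) * u⁻¹ * (u * t) := by group
    _ = _ := by rw [e1, e2]

theorem ex_move {x y : X} (hy : y ∈ C.N2 x) : ∃ v ∈ C.K x, v • y ≠ y := by
  refine C.not_fix (fun h => ?_) le_rfl (fun g hg a ha => C.K_norm hg ha) hy
  have e := C.card_K x
  rw [h, Subgroup.card_bot] at e
  have := C.h_lt
  have := C.two_le_h
  omega

theorem o1_tr (hk : Odd C.k) {x y p q : X} (hy : y ∈ C.N2 x) (h1 : C.K x ⊓ C.K y ≠ ⊥)
    (hp : C.F1 x y p) (hq : C.F1 x y q) : ∃ w : G, C.L1 x y w ∧ w • p = q := by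
  obtain ⟨v, hv, hvy⟩ := C.ex_move hy
  exact C.lin_tr hy h1 (C.K_L1 hk (C.F1_left x y) hv) (C.F1_right x y) hvy hp hq

theorem o1_even (hk : Odd C.k) {x y : X} (hy : y ∈ C.N2 x) (h1 : C.K x ⊓ C.K y ≠ ⊥) :
    Even (Nat.card (S2 G x y)) := by
  by_contra hu
  obtain ⟨b, hb⟩ := C.toGr.ex1 x
  obtain ⟨t, ht, htx, -⟩ := C.ex_inv hk hb
  have t2 := (mem_T.1 ht).1
  have ti : t⁻¹ = t := inv_eq_of_mul_eq_one_right t2
  have hx := C.F1_left x y
  let f : {g // C.L1 x y g} → {g // C.L1 x y g} := fun g =>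
    ⟨g.1⁻¹ * (t * g.1 * t⁻¹), C.L1_mul (C.L1_inv g.2) (C.T_L1 hk ht hx htx g.2)⟩
  have hf : Function.Injective f := fun g g' e => by
    have e' : g.1⁻¹ * (t * g.1 * t⁻¹) = g'.1⁻¹ * (t * g'.1 * t⁻¹) := congrArg Subtype.val e
    have hc : Commute t (g'.1 * g.1⁻¹) := by
      show t * (g'.1 * g.1⁻¹) = g'.1 * g.1⁻¹ * t
      calc t * (g'.1 * g.1⁻¹) = g'.1 * (g'.1⁻¹ * (t * g'.1 * t⁻¹)) * t * g.1⁻¹ := by group
        _ = g'.1 * (g.1⁻¹ * (t * g.1 * t⁻¹)) * t * g.1⁻¹ := by rw [e']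
        _ = _ := by group
    have hL := C.L1_mul g'.2 (C.L1_inv g.2)
    have hfix : (g'.1 * g.1⁻¹) • x = x := by
      by_contra hne
      have a1 := (C.K1_eq hy h1 hne hx (C.F1_smul hx hL)).1
      have a2 := even_U ht htx (y := (g'.1 * g.1⁻¹) • x) (by rw [← mul_smul, hc.eq, mul_smul, htx])
      rw [C.card_U a1 hy] at a2
      exact hu a2
    have := C.cent_one hk ht htx (C.lin_stab h1 hx hL hfix) hc
    exact Subtype.ext (mul_inv_eq_one.1 this).symm
  have hinv : ∀ w, C.L1 x y w → t * w * t⁻¹ = w⁻¹ := fun w hw => by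
    obtain ⟨g, hg⟩ := Finite.surjective_of_injective hf ⟨w, hw⟩
    have e : g.1⁻¹ * (t * g.1 * t⁻¹) = w := congrArg Subtype.val hg
    rw [← e, ti]
    calc t * (g.1⁻¹ * (t * g.1 * t)) * t = t * g.1⁻¹ * t * g.1 * (t * t) := by group
      _ = t⁻¹ * g.1⁻¹ * t⁻¹ * g.1 := by rw [t2, mul_one, ti]
      _ = _ := by group
  obtain ⟨v, hv, hvy⟩ := C.ex_move hy
  obtain ⟨w, hw, hwx⟩ := C.o1_tr hk hy h1 hx (C.F1_right x y)
  have hvL := C.K_L1 hk hx hv
  have e : (v * w)⁻¹ = (w * v)⁻¹ := by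
    rw [← hinv _ (C.L1_mul hvL hw), mul_inv_rev, ← hinv _ hvL, ← hinv _ hw]
    group
  apply hvy
  rw [← hwx, ← mul_smul, inv_injective e, mul_smul, C.K_fix hv]

open Classical in
theorem o1_f1 (hk : Odd C.k) {x y : X} (hy : y ∈ C.N2 x) (h1 : C.K x ⊓ C.K y ≠ ⊥) {t : G}
    (ht : t ∈ T G X) (htx : t • x = x) :
    (Finset.univ.filter fun p => C.F1 x y p).card ≤
      (Finset.univ.filter fun p => C.F1 x y p ∧ t • p = p).card *
        (Finset.univ.filter fun p => C.F1 x y p ∧ t • p = p).card := by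
  set Φ := Finset.univ.filter fun p => C.F1 x y p ∧ t • p = p with hΦ
  have t2 := (mem_T.1 ht).1
  have ti : t⁻¹ = t := inv_eq_of_mul_eq_one_right t2
  have hx := C.F1_left x y
  let U : Finset G := Finset.univ.filter fun g => C.L1 x y g ∧ Commute t g
  have hU : U.card ≤ Φ.card := by
    refine Finset.card_le_card_of_injOn (fun g => g • x) (fun g hg => ?_) fun g hg g' hg' e => ?_
    · simp only [U, Finset.coe_filter, Finset.mem_univ, true_and, Set.mem_setOf_eq] at hg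
      simp only [hΦ, Finset.coe_filter, Finset.mem_univ, true_and, Set.mem_setOf_eq]
      exact ⟨C.F1_smul hx hg.1, by rw [← mul_smul, hg.2.eq, mul_smul, htx]⟩
    · simp only [U, Finset.coe_filter, Finset.mem_univ, true_and, Set.mem_setOf_eq] at hg hg'
      have e' : g • x = g' • x := e
      have := C.cent_one hk ht htx (C.lin_stab h1 hx (C.L1_mul (C.L1_inv hg'.1) hg.1)
        (by rw [mul_smul, e', inv_smul_smul])) (hg'.2.inv_right.mul_right hg.2)
      exact (inv_mul_eq_one.1 this).symm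
  -- every point of `F1` is fixed by `h t` for some `h ∈ U` with `h t ∈ T`
  have hex : ∀ q, C.F1 x y q → ∃ h ∈ U, h * t ∈ T G X ∧ (h * t) • q = q := fun q hq => by
    by_cases htq : t • q = q
    · refine ⟨1, ?_, by rwa [one_mul], by rwa [one_mul]⟩
      simp only [U, Finset.mem_filter, Finset.mem_univ, true_and]
      exact ⟨fun a _ => Commute.one_left a, Commute.one_right t⟩
    have hq' := C.T_F1 hk ht hx htx hq
    obtain ⟨a1, a2⟩ := C.K1_eq hy h1 htq hq hq'
    obtain ⟨u, hu, huq, huq'⟩ := ex_inv2 (G := G) (x := q) (y := t • q) (by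
      rw [C.card_U a1 hy]; exact C.o1_even hk hy h1)
    have b1 : (t * u * t⁻¹) • q = q := by
      rw [ti, mul_smul, mul_smul, huq', ← mul_smul, t2, one_smul]
    have b2 : (t * u * t⁻¹) • (t • q) = t • q := by
      rw [mul_smul, mul_smul, inv_smul_smul, huq]
    have hw : u * (t * u * t⁻¹) ∈ C.K x ⊓ C.K y :=
      C.lin_two hy h1 hq hq' htq (C.inv_mul_mem hk hu (T_conj t hu) huq b1)
        (by rw [mul_smul, b2, huq'])
    obtain ⟨n, hn⟩ := C.sq_root hk hw.1
    have hb := (C.K x ⊓ C.K y).pow_mem hw n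
    set b := (u * (t * u * t⁻¹)) ^ n with hbdef
    have hub := C.inv_mul_T hk hu huq (C.K1_le hq hb)
    have hubq : (u * b) • q = q := by rw [mul_smul, hq b hb, huq]
    have e1 := C.inverts hk ht htx hb.1
    have u2 := (mem_T.1 hu).1
    have hc : t * (u * b) * t⁻¹ = u * b := by
      calc t * (u * b) * t⁻¹ = (u * u) * (t * u * t⁻¹) * (t * b * t⁻¹) := by rw [u2]; group
        _ = u * (u * (t * u * t⁻¹)) * b⁻¹ := by rw [e1]; group
        _ = u * b := by rw [← hn]; group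
    have e3 : u * b * t * t = u * b := by rw [mul_assoc, t2, mul_one]
    refine ⟨u * b * t, ?_, by rwa [e3], by rwa [e3]⟩
    simp only [U, Finset.mem_filter, Finset.mem_univ, true_and]
    refine ⟨C.TT_L1 hk ht hub hx htx hq hubq, ?_⟩
    show t * (u * b * t) = u * b * t * t
    calc t * (u * b * t) = t * (u * b) * t⁻¹ * t * t := by group
      _ = _ := by rw [hc]
  have hfib : ∀ h ∈ U, (Finset.univ.filter fun q =>
      C.F1 x y q ∧ h * t ∈ T G X ∧ (h * t) • q = q).card ≤ Φ.card := fun h _ => by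
    rcases (Finset.univ.filter fun q =>
      C.F1 x y q ∧ h * t ∈ T G X ∧ (h * t) • q = q).eq_empty_or_nonempty with e | ⟨q, hq⟩
    · rw [e]; simp
    simp only [Finset.mem_filter, Finset.mem_univ, true_and] at hq
    obtain ⟨w, hw, hwx⟩ := C.o1_tr hk hy h1 hx hq.1
    obtain ⟨b, hb, e⟩ := C.inv_conj hk (T_conj w ht) hq.2.1 (x := q)
      (by rw [← hwx, mul_smul, mul_smul, inv_smul_smul, htx]) hq.2.2
    have hL := C.L1_inv (C.L1_mul (C.K_L1 hk hq.1 hb) hw)
    refine Finset.card_le_card_of_injOn (fun p => (b * w)⁻¹ • p) (fun p hp => ?_)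
      fun p _ p' _ e => MulAction.injective _ e
    simp only [Finset.coe_filter, Finset.mem_univ, true_and, Set.mem_setOf_eq] at hp
    simp only [hΦ, Finset.coe_filter, Finset.mem_univ, true_and, Set.mem_setOf_eq]
    refine ⟨C.F1_smul hp.1 hL, ?_⟩
    have e2 := hp.2.2
    rw [e] at e2
    conv_rhs => rw [← e2]
    rw [← mul_smul, ← mul_smul]
    congr 1
    group
  calc (Finset.univ.filter fun p => C.F1 x y p).card
      ≤ (U.biUnion fun h => Finset.univ.filter fun q =>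
        C.F1 x y q ∧ h * t ∈ T G X ∧ (h * t) • q = q).card := by
        refine Finset.card_le_card fun q hq => ?_
        simp only [Finset.mem_filter, Finset.mem_univ, true_and] at hq
        obtain ⟨h, a1, a2, a3⟩ := hex q hq
        simp only [Finset.mem_biUnion, Finset.mem_filter, Finset.mem_univ, true_and]
        exact ⟨h, a1, hq, a2, a3⟩
    _ ≤ U.card * Φ.card := Finset.card_biUnion_le_card_mul _ _ _ hfib
    _ ≤ _ := Nat.mul_le_mul_right _ hU

end Cf

end CfsgLib.R3f
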