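import Cfsg.Agent.Lib.R3f.Ot

set_option autoImplicit false

namespace CfsgLib.R3f

open MulAction

variable {G X : Type*} [Group G] [Fintype G] [Fintype X] [DecidableEq X] [MulAction G X]

namespace Cf

variable (C : Cf G X)

/-! Package O3A: `K x` semiregular, two point stabilisers of even order. -/

/-- `card_K1`, `pair2`/`tri`, `K_semi`. -/
theorem o3_semi {x y : X} (hy : y ∈ C.N2 x) (h1 : C.K x ⊓ C.K y = ⊥) {p z : X} {a : G}
    (ha : a ∈ C.K p) (ha1 : a ≠ 1) (hz : a • z = z) : z = p := by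
  rcases C.toGr.tri p z with h | h | h
  · exact h
  · exact absurd (C.K_semi ha h hz) ha1
  · have h2 := C.card_K1 h hy
    rw [h1, Subgroup.card_bot, Subgroup.card_eq_one] at h2
    exact absurd (Subgroup.mem_bot.1 (h2 ▸ C.mem_K1.2 ⟨ha, hz⟩)) ha1

open Classical in
theorem o3_cardK (x : X) : (Finset.univ.filter fun g : G => g ∈ C.K x).card = C.k := by
  rw [← C.card_K x]
  exact (Nat.subtype_card _ fun g => by simp).symm

theorem o3_ex (hk : Odd C.k) {x y : X} (hy : y ∈ C.N2 x) (hu : Even (Nat.card (S2 G x y))) (q : X) :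
    ∃ t ∈ T G X, t • x = x ∧ t • q = q := by
  rcases C.toGr.tri x q with h | h | h
  · obtain ⟨t, ht, h2, -⟩ := ex_inv2 hu
    exact ⟨t, ht, h2, h ▸ h2⟩
  · exact C.ex_inv hk h
  · exact ex_inv2 (C.card_U hy h ▸ hu)

theorem sm_fx {x y : X} (hy : y ∈ C.N2 x) (h1 : C.K x ⊓ C.K y = ⊥) :
    sm (C.K x) (fun a => fx X a) = 1 + C.k + C.l + (C.k - 1) := by
  classical
  have h2 : ∀ a ∈ (Finset.univ.filter fun g : G => g ∈ C.K x).erase 1, fx X a = 1 := by
    intro a ha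
    obtain ⟨a1, ha⟩ := Finset.mem_erase.1 ha
    have hK := (Finset.mem_filter.1 ha).2
    refine Finset.card_eq_one.2 ⟨x, Finset.eq_singleton_iff_unique_mem.2
      ⟨Finset.mem_filter.2 ⟨Finset.mem_univ _, C.K_fix hK⟩, fun z hz => ?_⟩⟩
    exact C.o3_semi hy h1 hK a1 (Finset.mem_filter.1 hz).2
  have h3 : (1 : G) ∈ Finset.univ.filter fun g : G => g ∈ C.K x :=
    Finset.mem_filter.2 ⟨Finset.mem_univ _, one_mem _⟩
  rw [sm, ← Finset.add_sum_erase _ _ h3, Finset.sum_congr rfl h2, C.toGr.fx_one, Finset.sum_const,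
    Finset.card_erase_of_mem h3, C.o3_cardK x, smul_eq_mul, mul_one]

/-- We may assume `t • x = x` (`T_class`, `fx_conj`).  `(a, p) ↦ a • p` is a bijection from
`K x × {p ≠ x fixed by t}` onto the points `≠ x`.  Onto: `q ≠ x` is fixed by an involution `t'` fixing
`x` (`ex_inv`, `ex_inv2`, `card_U`), `t' = a t a⁻¹` (`inv_conj`), `t` fixes `a⁻¹ • q`.  Injective: if `t`
fixes `p` and `b • p` then `b⁻¹ • p = b • p` (`inverts`), `b * b = 1` (`o3_semi`), `b = 1`.  (Or: count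
the pairs `(s, q)`, `s ∈ T` fixing `x` and `q ≠ x`: exactly one `s` for each `q`, `tc_self`.) -/
theorem o3_fx (hk : Odd C.k) {x y : X} (hy : y ∈ C.N2 x) (h1 : C.K x ⊓ C.K y = ⊥)
    (hu : Even (Nat.card (S2 G x y))) {t : G} (ht : t ∈ T G X) :
    C.k * fx X t = 2 * C.k + C.l := by
  have h2 : ∑ s ∈ (T G X).filter (fun s : G => s • x = x), fx X s = C.k * fx X t := by
    rw [← C.tc_self hk x, tc, ← smul_eq_mul, ← Finset.sum_const]
    refine Finset.sum_congr rfl fun s hs => ?_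
    obtain ⟨g, rfl⟩ := C.T_class hk ht (Finset.mem_filter.1 hs).1
    exact Gr.fx_conj g t
  have h3 : ∀ q, q ≠ x → (((T G X).filter fun s : G => s • x = x).filter fun s => s • q = q).card = 1 := by
    intro q hq
    obtain ⟨s, hs, sx, sq⟩ := C.o3_ex hk hy hu q
    refine Finset.card_eq_one.2 ⟨s, Finset.eq_singleton_iff_unique_mem.2
      ⟨Finset.mem_filter.2 ⟨Finset.mem_filter.2 ⟨hs, sx⟩, sq⟩, fun s' hs' => ?_⟩⟩
    obtain ⟨h4, h5⟩ := Finset.mem_filter.1 hs'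
    obtain ⟨h6, h7⟩ := Finset.mem_filter.1 h4
    by_contra hne
    refine hq (C.o3_semi hy h1 (C.inv_mul_mem hk hs h6 sx h7) (fun e => hne ?_) (by rw [mul_smul, h5, sq]))
    exact mul_left_cancel (e.trans (mem_T.1 hs).1.symm)
  rw [← h2]
  refine (ot_comm _ fun s (p : X) => s • p = p).trans ?_
  rw [C.ot_split x, Finset.sum_congr rfl fun q hq => h3 q (C.toGr.ne1 hq),
    Finset.sum_congr rfl fun q hq => h3 q (C.mem2.1 hq).1, Finset.filter_filter]
  simp only [and_self, Finset.sum_const, smul_eq_mul, mul_one, C.card1, C.card2]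
  rw [← tc, C.tc_self hk x, two_mul]

/-- `t` fixing `x`, `y` (`ex_inv2`) fixes a neighbour of `x` (`K_out`) and a second point of `N2 x`
(`not_one_fix`). -/
theorem o3_four (hk : Odd C.k) {x y : X} (hy : y ∈ C.N2 x) (hu : Even (Nat.card (S2 G x y)))
    {t : G} (ht : t ∈ T G X) : 4 ≤ fx X t := by
  obtain ⟨s, hs, sx, sy⟩ := ex_inv2 hu
  obtain ⟨p, hp, sp⟩ := C.K_out sx (C.inv_out hk hs)
  obtain ⟨z, hz, zy, sz⟩ := C.not_one_fix sx (C.inv_out hk hs) hy sy
  obtain ⟨g, rfl⟩ := C.T_class hk hs ht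
  rw [Gr.fx_conj]
  have a1 := (C.toGr.ne1 hp).symm
  have a2 := (C.mem2.1 hy).1.symm
  have a3 := (C.mem2.1 hz).1.symm
  have a4 : p ≠ y := fun e => (C.mem2.1 hy).2 (e ▸ hp)
  have a5 : p ≠ z := fun e => (C.mem2.1 hz).2 (e ▸ hp)
  have h4 : ({x, p, y, z} : Finset X).card = 4 := by
    rw [Finset.card_insert_of_notMem (by simp [a1, a2, a3]), Finset.card_insert_of_notMem (by simp [a4, a5]),
      Finset.card_pair zy.symm]
  rw [← h4]
  refine Finset.card_le_card fun q hq => Finset.mem_filter.2 ⟨Finset.mem_univ _, ?_⟩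
  simp only [Finset.mem_insert, Finset.mem_singleton] at hq
  rcases hq with rfl | rfl | rfl | rfl <;> assumption

/-- `al (t a) = al t` for `a ∈ K x` (`inv_mul_T`, `T_class`, `al_conj`), so the left side is
`∑ a, al (t a) = ∑ p, #{a | t a • p ∈ N1 p}`.  For `p ≠ x` take an involution `t'` fixing `x`, `p`,
`b = t' t ∈ K x`; `t a • p = t' (b a) • p = (b a)⁻¹ • p` (`inverts`) and `a ↦ (b a)⁻¹` permutes `K x`.
For `p = x` both counts vanish. -/
theorem o3_al (hk : Odd C.k) {x y : X} (hy : y ∈ C.N2 x) (hu : Even (Nat.card (S2 G x y)))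
    {t : G} (ht : t ∈ T G X) (htx : t • x = x) : C.k * C.al t = sm (C.K x) C.al := by
  classical
  have h2 : ∑ a ∈ Finset.univ.filter (fun g : G => g ∈ C.K x), C.al (t * a) = C.k * C.al t := by
    rw [← C.o3_cardK x, ← smul_eq_mul, ← Finset.sum_const]
    refine Finset.sum_congr rfl fun a ha => ?_
    obtain ⟨g, e⟩ := C.T_class hk ht (C.inv_mul_T hk ht htx (Finset.mem_filter.1 ha).2)
    rw [e]
    exact C.toGr.al_conj g t
  rw [← h2, sm]
  refine (ot_comm _ fun a (p : X) => (t * a) • p ∈ C.N1 p).trans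
    ((Finset.sum_congr rfl fun p _ => ?_).trans (ot_comm _ fun a (p : X) => a • p ∈ C.N1 p).symm)
  obtain ⟨s, hs, sx, sp⟩ := C.o3_ex hk hy hu p
  have hb := C.inv_mul_mem hk hs ht sx htx
  have key : ∀ a ∈ C.K x, (t * a) • p = (s * t * a)⁻¹ • p := fun a ha => by
    rw [← C.inverts hk hs sx (mul_mem hb ha), ← mul_assoc, ← mul_assoc, (mem_T.1 hs).1, one_mul, mul_smul _ s⁻¹,
      inv_smul_eq_iff.2 sp.symm]
  refine Finset.card_bij' (fun a _ => (s * t * a)⁻¹) (fun c _ => (s * t)⁻¹ * c⁻¹) (fun a ha => ?_)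
    (fun c hc => ?_) (fun a _ => by group) fun c _ => by group
  · simp only [Finset.mem_filter, Finset.mem_univ, true_and] at ha ⊢
    exact ⟨inv_mem (mul_mem hb ha.1), key a ha.1 ▸ ha.2⟩
  · simp only [Finset.mem_filter, Finset.mem_univ, true_and] at hc ⊢
    have h3 := mul_mem (inv_mem hb) (inv_mem hc.1)
    exact ⟨h3, by rw [key _ h3, mul_inv_cancel_left, inv_inv]; exact hc.2⟩

/-- Package O3N.  `u ∣ h` (`U_dec`), `l u = k h`; `o3_fx`, `o3_four`; `T_fx`, `T_card`, `T_al` with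
`β = tc G x y₀` (`y₀ ∈ N1 x`), `γ = tc G x y`.  With `k = 1 + h t₀`:
`(m + 2)(β + m γ) = h t₀ (m + 1)`, `β + m γ ≤ 2 h` (`tc_le`), so `t₀ ≤ 2`; `edge` gives
`m mu + lam = h t₀` with `h ∣ lam`, `mu > 0`. -/
theorem o3_cnt (hk : Odd C.k) {x y : X} (hy : y ∈ C.N2 x) (h1 : C.K x ⊓ C.K y = ⊥)
    (hu : Even (Nat.card (S2 G x y))) :
    ∃ m u β γ : ℕ, C.h = m * u ∧ Even u ∧ 0 < u ∧ C.l = C.k * m ∧ 2 ≤ m ∧
      1 + C.k + C.k * m = (m + 2) * (1 + β + m * γ) ∧
      (∀ t ∈ T G X, fx X t = m + 2 ∧ C.al t = (m + 2) * β) ∧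
      Nat.card (S2 G x y) = u ∧
      ((C.k = C.h + 1 ∧ C.lam = 0 ∧ C.mu = u) ∨
        (C.k = 2 * C.h + 1 ∧ ((C.lam = C.h ∧ C.mu = u) ∨ (C.lam = 0 ∧ C.mu = 2 * u)))) := by
  obtain ⟨u, ⟨m, hm⟩, hU⟩ := C.U_dec hy
  rw [h1, Subgroup.card_bot, one_mul] at hU
  rw [mul_comm] at hm
  have u0 : 0 < u := hU ▸ Nat.card_pos
  have k0 : 0 < C.k := hk.pos
  have hl : C.l = C.k * m := by
    have := C.toGr.card_S2 hy
    rw [C.card_St, hU, hm, ← mul_assoc] at this
    exact Nat.eq_of_mul_eq_mul_right u0 this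
  have hfx : ∀ t ∈ T G X, fx X t = m + 2 := fun t ht => Nat.eq_of_mul_eq_mul_left k0 (by
    rw [C.o3_fx hk hy h1 hu ht, hl]; ring)
  obtain ⟨t, ht, -⟩ := ex_inv2 hu
  have m2 : 2 ≤ m := by have := C.o3_four hk hy hu ht; rw [hfx t ht] at this; omega
  obtain ⟨y₀, hy₀⟩ := C.toGr.ex1 x
  have hT := C.T_card hk hy₀ hy
  have hβ := tc_le (G := G) x y₀
  have hγ := tc_le (G := G) x y
  have hal := fun t (ht : t ∈ T G X) => C.T_al hk ht hy₀
  rw [C.card_H hy₀] at hβ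
  rw [hU] at hγ hu
  generalize tc G x y₀ = β at *
  generalize tc G x y = γ at *
  have hn : 1 + C.k + C.k * m = (m + 2) * (1 + β + m * γ) := Nat.eq_of_mul_eq_mul_left k0 (by
    have := C.T_fx hk ht
    rw [hT, hfx t ht, hl] at this
    linarith)
  refine ⟨m, u, β, γ, hm, hu, u0, hl, m2, hn, fun s hs => ⟨hfx s hs, ?_⟩, hU, ?_⟩
  · have := hal s hs
    rw [hT, hl, hn] at this
    exact Nat.eq_of_mul_eq_mul_left (show 0 < C.k * (1 + β + m * γ) by positivity) (by linarith)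
  · obtain ⟨t₀, h₀⟩ := C.h_dvd
    obtain ⟨j, hj⟩ := C.h_dvd_lam
    have hk1 : C.k = C.h * t₀ + 1 := by omega
    have hlt := C.h_lt
    have h2 := C.two_le_h
    have mu0 := C.mu_pos
    have he : m * C.mu + C.lam + 1 = C.k := Nat.eq_of_mul_eq_mul_left k0 (by
      have := C.toGr.edge
      rw [hl] at this
      linarith)
    have mγ : m * γ ≤ C.h := hm ▸ Nat.mul_le_mul_left m hγ
    have t2 : t₀ ≤ 2 := by
      by_contra h3
      have h4 : C.h * 3 ≤ C.h * t₀ := Nat.mul_le_mul_left _ (by omega)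
      have h5 : (m + 2) * (1 + β + m * γ) ≤ (m + 2) * (1 + 2 * C.h) := Nat.mul_le_mul_left _ (by omega)
      have h6 : (C.h * 3 + 1) * (m + 1) ≤ C.k * (m + 1) := Nat.mul_le_mul_right _ (by omega)
      have h7 : C.h * 2 ≤ C.h * m := Nat.mul_le_mul_left _ m2
      nlinarith
    have mm : 0 < m * C.mu := by positivity
    have cancel : ∀ c, m * C.mu = m * c → C.mu = c := fun c => Nat.eq_of_mul_eq_mul_left (by omega)
    have j2 : j ≤ 1 := by
      by_contra h3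
      have h4 : C.h * 2 ≤ C.h * j := Nat.mul_le_mul_left _ (by omega)
      have h5 : C.h * t₀ ≤ C.h * 2 := Nat.mul_le_mul_left _ t2
      omega
    interval_cases t₀ <;> interval_cases j
    · omega
    · omega
    · exact Or.inl ⟨by omega, by omega, cancel _ (by omega)⟩
    · omega
    · exact Or.inr ⟨by omega, Or.inr ⟨by omega, cancel _ (by rw [mul_left_comm]; omega)⟩⟩
    · exact Or.inr ⟨by omega, Or.inl ⟨by omega, cancel _ (by omega)⟩⟩

end Cf

end CfsgLib.R3f
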