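import Cfsg.Agent.Lib.R3f.Api3

set_option autoImplicit false
set_option Elab.async false

namespace CfsgLib.R3f

open MulAction

variable {G X : Type*} [Group G] [Fintype G] [Fintype X] [DecidableEq X] [MulAction G X]

theorem oa_inv {H : Subgroup G} (he : Even (Nat.card H)) : ∃ t ∈ H, t * t = 1 ∧ t ≠ 1 := by
  haveI : Fact (Nat.Prime 2) := ⟨Nat.prime_two⟩
  obtain ⟨z, hz⟩ := exists_prime_orderOf_dvd_card' 2 he.two_dvd
  refine ⟨z, z.2, ?_, fun h => ?_⟩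
  · have := pow_orderOf_eq_one z
    rw [hz, pow_two] at this
    exact congrArg Subtype.val this
  · rw [show z = 1 from Subtype.ext h, orderOf_one] at hz
    exact absurd hz (by norm_num)

namespace Cf

variable (C : Cf G X)

/-! Package OA: kernel of odd order, involutions. -/

/-- If `h` is odd then `l ∣ k h` is odd (`card_S2`), `1 + k + l` is odd and `|G|` is odd. -/
theorem h_even (hk : Odd C.k) : Even C.h := by
  by_contra h
  rw [Nat.not_even_iff_odd] at h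
  obtain ⟨x⟩ := C.ne
  obtain ⟨y, hy⟩ := C.ex2 x
  have h1 := C.card_S2 hy
  rw [C.card_St] at h1
  have h2 : Odd C.l := (hk.mul h).of_dvd_nat (Dvd.intro _ h1)
  have h3 := C.even
  rw [C.card_G x, C.card_St, ← Nat.not_odd_iff_even] at h3
  exact h3 (((odd_one.add_odd hk).add_odd h2).mul (hk.mul h))

theorem ex_inv (hk : Odd C.k) {x y : X} (hy : y ∈ C.N1 x) :
    ∃ t ∈ T G X, t • x = x ∧ t • y = y := by
  obtain ⟨t, ht, h1, h2⟩ := oa_inv (H := S2 G x y) (by rw [C.card_H hy]; exact C.h_even hk)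
  exact ⟨t, mem_T.2 ⟨h1, h2, x, ht.1⟩, ht.1, ht.2⟩

theorem inv_out (hk : Odd C.k) {x : X} {t : G} (ht : t ∈ T G X) : t ∉ C.K x := by
  intro h
  obtain ⟨h1, h2, -⟩ := mem_T.1 ht
  have h3 := (C.mem_K_iff (C.K_fix h)).1 h
  obtain ⟨j, hj⟩ := hk
  rw [hj, pow_succ, pow_mul, pow_two, h1, one_pow, one_mul] at h3
  exact h2 h3

/-- `a ↦ a⁻¹ (t a t⁻¹)` is injective on `K x` (`K_cent`), so onto, and `t` inverts its values. -/
theorem inverts (hk : Odd C.k) {x : X} {t a : G} (ht : t ∈ T G X) (hx : t • x = x)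
    (ha : a ∈ C.K x) : t * a * t⁻¹ = a⁻¹ := by
  obtain ⟨h1, -, -⟩ := mem_T.1 ht
  let f : C.K x → C.K x := fun c => ⟨c.1⁻¹ * (t * c.1 * t⁻¹), (C.K x).mul_mem ((C.K x).inv_mem c.2) (C.K_norm hx c.2)⟩
  have hf : Function.Injective f := by
    intro b c e
    have e1 : b.1⁻¹ * (t * b.1 * t⁻¹) = c.1⁻¹ * (t * c.1 * t⁻¹) := congrArg Subtype.val e
    by_contra hne
    refine C.inv_out hk ht (C.K_cent hx (c * b⁻¹).2 (fun h => hne (Subtype.ext (mul_inv_eq_one.1 h).symm)) ?_)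
    show t * (c.1 * b.1⁻¹) = c.1 * b.1⁻¹ * t
    calc t * (c.1 * b.1⁻¹) = c.1 * (c.1⁻¹ * (t * c.1 * t⁻¹)) * t * b.1⁻¹ := by group
      _ = _ := by rw [← e1]; group
  obtain ⟨c, hc⟩ := Finite.surjective_of_injective hf ⟨a, ha⟩
  have e : c.1⁻¹ * (t * c.1 * t⁻¹) = a := congrArg Subtype.val hc
  rw [← e]
  calc t * (c.1⁻¹ * (t * c.1 * t⁻¹)) * t⁻¹ = t * c.1⁻¹ * t⁻¹ * (t * t) * c.1 * (t * t)⁻¹ := by group
    _ = _ := by rw [h1]; group

theorem K_comm (hk : Odd C.k) {x : X} {a b : G} (ha : a ∈ C.K x) (hb : b ∈ C.K x) :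
    Commute a b := by
  obtain ⟨y, hy⟩ := C.ex1 x
  obtain ⟨t, ht, hx, -⟩ := C.ex_inv hk hy
  have h1 := C.inverts hk ht hx ((C.K x).mul_mem ha hb)
  rw [show t * (a * b) * t⁻¹ = t * a * t⁻¹ * (t * b * t⁻¹) by group, C.inverts hk ht hx ha, C.inverts hk ht hx hb,
    ← mul_inv_rev, inv_inj] at h1
  exact h1.symm

/-- `t t'` centralises `K x ≠ ⊥` (`K_cent`). -/
theorem inv_mul_mem (hk : Odd C.k) {x : X} {t t' : G} (ht : t ∈ T G X) (ht' : t' ∈ T G X)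
    (hx : t • x = x) (hx' : t' • x = x) : t * t' ∈ C.K x := by
  have h1 : C.K x ≠ ⊥ := by
    rw [← Subgroup.one_lt_card_iff_ne_bot, C.card_K]
    have := C.mu_lt
    have := C.mu_pos
    omega
  obtain ⟨a, ha, ha1⟩ := (Subgroup.bot_or_exists_ne_one _).resolve_left h1
  refine C.K_cent (by rw [mul_smul, hx', hx]) ha ha1 (mul_inv_eq_iff_eq_mul.1 ?_)
  rw [show t * t' * a * (t * t')⁻¹ = t * (t' * a * t'⁻¹) * t⁻¹ by group, C.inverts hk ht' hx' ha,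
    C.inverts hk ht hx ((C.K x).inv_mem ha), inv_inv]

theorem inv_mul_T (hk : Odd C.k) {x : X} {t a : G} (ht : t ∈ T G X) (hx : t • x = x)
    (ha : a ∈ C.K x) : t * a ∈ T G X := by
  obtain ⟨h1, -, -⟩ := mem_T.1 ht
  refine mem_T.2 ⟨?_, fun h => C.inv_out hk ht (x := x) ?_, x, by rw [mul_smul, C.K_fix ha, hx]⟩
  · rw [show t * a * (t * a) = t * a * t⁻¹ * (t * t) * a by group, C.inverts hk ht hx ha, h1, mul_one,
      inv_mul_cancel]
  · rw [eq_inv_of_mul_eq_one_left h]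
    exact (C.K x).inv_mem ha

/-- `t' = t b`, `b = a⁻¹ ^ 2` with `a ∈ K x` (odd order), `a t a⁻¹ = t a⁻¹ a⁻¹`. -/
theorem inv_conj (hk : Odd C.k) {x : X} {t t' : G} (ht : t ∈ T G X) (ht' : t' ∈ T G X)
    (hx : t • x = x) (hx' : t' • x = x) : ∃ a ∈ C.K x, t' = a * t * a⁻¹ := by
  obtain ⟨h1, -, -⟩ := mem_T.1 ht
  have hb := C.inv_mul_mem hk ht ht' hx hx'
  have h2 := (C.mem_K_iff (C.K_fix hb)).1 hb
  obtain ⟨j, hj⟩ := id hk
  have hc := (C.K x).pow_mem hb (j + 1)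
  refine ⟨((t * t') ^ (j + 1))⁻¹, (C.K x).inv_mem hc, ?_⟩
  rw [← C.inverts hk ht hx hc]
  have h3 : (t * t') ^ (j + 1) * (t * t') ^ (j + 1) = t * t' := by
    rw [← pow_add, show j + 1 + (j + 1) = C.k + 1 by omega, pow_succ, h2, one_mul]
  have h4 := C.inverts hk ht hx hc
  rw [h4, inv_inv, ← h4]
  generalize (t * t') ^ (j + 1) = c at h3
  calc t' = (t * t)⁻¹ * t * (t * t') := by group
    _ = _ := by rw [h1, ← h3]; group

theorem T_conj (g : G) {s : G} (hs : s ∈ T G X) : g * s * g⁻¹ ∈ T G X := by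
  obtain ⟨h1, h2, x, h3⟩ := mem_T.1 hs
  refine mem_T.2 ⟨?_, fun h => h2 (by simpa using h), g • x, by rw [mul_smul, mul_smul, inv_smul_smul, h3]⟩
  rw [show g * s * g⁻¹ * (g * s * g⁻¹) = g * (s * s) * g⁻¹ by group, h1, mul_one, mul_inv_cancel]

theorem T_class (hk : Odd C.k) {s s' : G} (hs : s ∈ T G X) (hs' : s' ∈ T G X) :
    ∃ g : G, s' = g * s * g⁻¹ := by
  obtain ⟨-, -, x, h3⟩ := mem_T.1 hs
  obtain ⟨-, -, y, h4⟩ := mem_T.1 hs'
  obtain ⟨g, hg⟩ := C.tr0 x y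
  obtain ⟨a, -, e⟩ := C.inv_conj hk (T_conj g hs) hs' (by rw [← hg, mul_smul, mul_smul, inv_smul_smul, h3]) h4
  exact ⟨a * g, by rw [e]; group⟩

/-- `a ↦ t a` is a bijection from `K x`. -/
theorem tc_self (hk : Odd C.k) (x : X) : tc G x x = C.k := by
  obtain ⟨y, hy⟩ := C.ex1 x
  obtain ⟨t, ht, hx, -⟩ := C.ex_inv hk hy
  obtain ⟨h1, -, -⟩ := mem_T.1 ht
  rw [tc, ← C.card_K x, ← Nat.card_eq_finsetCard]
  refine Nat.card_congr
    { toFun := fun s => ⟨t * s.1, C.inv_mul_mem hk ht (Finset.mem_filter.1 s.2).1 hx (Finset.mem_filter.1 s.2).2⟩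
      invFun := fun a => ⟨t * a.1, Finset.mem_filter.2 ⟨C.inv_mul_T hk ht hx a.2, by
        rw [mul_smul, C.K_fix a.2, hx]⟩⟩
      left_inv := fun s => Subtype.ext (by show t * (t * s.1) = s.1; rw [← mul_assoc, h1, one_mul])
      right_inv := fun a => Subtype.ext (by show t * (t * a.1) = a.1; rw [← mul_assoc, h1, one_mul]) }

/-- An element of even order group: an involution of `S2 G x y`. -/
theorem ex_inv2 {x y : X} (he : Even (Nat.card (S2 G x y))) :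
    ∃ t ∈ T G X, t • x = x ∧ t • y = y := by
  obtain ⟨t, ht, h1, h2⟩ := oa_inv he
  exact ⟨t, mem_T.2 ⟨h1, h2, x, ht.1⟩, ht.1, ht.2⟩

end Cf

end CfsgLib.R3f
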