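import Cfsg.Agent.Lib.R3f.Oa

set_option autoImplicit false

namespace CfsgLib.R3f

open MulAction

variable {G X : Type*} [Group G] [Fintype G] [Fintype X] [DecidableEq X] [MulAction G X]

namespace Cf

variable (C : Cf G X)

/-! Package OT: counting the involutions with a fixed point. -/

theorem ot_comm (S : Finset G) (R : G → X → Prop) [∀ g x, Decidable (R g x)] :
    ∑ s ∈ S, (Finset.univ.filter fun p => R s p).card = ∑ p, (S.filter fun s => R s p).card := by
  simp only [Finset.card_filter]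
  exact Finset.sum_comm

theorem ot_split (x : X) (φ : X → ℕ) :
    ∑ p, φ p = φ x + ∑ p ∈ C.N1 x, φ p + ∑ p ∈ C.N2 x, φ p := by
  have h1 : Disjoint (C.N1 x) (C.N2 x) := Finset.disjoint_left.2 fun p hp hq => (C.mem2.1 hq).2 hp
  have h2 : x ∉ C.N1 x ∪ C.N2 x := fun h =>
    (Finset.mem_union.1 h).elim (C.irr x) fun h => (C.mem2.1 h).1 rfl
  rw [add_assoc, ← Finset.sum_union h1, ← Finset.sum_insert h2]
  refine Finset.sum_congr (Finset.ext fun p => ?_) fun _ _ => rfl
  simpa using C.toGr.tri x p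

theorem tc_smul (g : G) (x y : X) : tc G (g • x) (g • y) = tc G x y := by
  refine Finset.card_bij' (fun s _ => g⁻¹ * s * g⁻¹⁻¹) (fun s _ => g * s * g⁻¹) (fun s hs => ?_)
    (fun s hs => ?_) (fun s _ => by group) (fun s _ => by group)
  · rw [Finset.mem_filter] at hs ⊢
    exact ⟨T_conj _ hs.1, by rw [inv_inv, mul_smul, mul_smul, hs.2, inv_smul_smul]⟩
  · rw [Finset.mem_filter] at hs ⊢
    exact ⟨T_conj _ hs.1, by rw [mul_smul, mul_smul, inv_smul_smul, hs.2]⟩

/-- The members of `T` mapping `x` to `y` swap `x`, `y`; `s ↦ s₀ * s` injects them into `S2 G x y`. -/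
theorem tc_le (x y : X) : tc G x y ≤ Nat.card (S2 G x y) := by
  rcases ((T G X).filter fun s : G => s • x = y).eq_empty_or_nonempty with e | ⟨s₀, h₀⟩
  · rw [tc, e]; exact Nat.zero_le _
  have key : ∀ s ∈ (T G X).filter fun s : G => s • x = y, s • x = y ∧ s • y = x := fun s hs => by
    obtain ⟨h1, h2⟩ := Finset.mem_filter.1 hs
    exact ⟨h2, by rw [← h2, ← mul_smul, (mem_T.1 h1).1, one_smul]⟩
  rw [tc, ← Nat.card_eq_finsetCard]
  refine Nat.card_le_card_of_injective (fun s => (⟨s₀ * s.1, ?_, ?_⟩ : S2 G x y)) fun s s' e => ?_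
  · show (s₀ * s.1) • x = x
    rw [mul_smul, (key _ s.2).1, (key _ h₀).2]
  · show (s₀ * s.1) • y = y
    rw [mul_smul, (key _ s.2).2, (key _ h₀).1]
  · exact Subtype.ext (mul_left_cancel (congrArg Subtype.val e))

/-- Count the pairs `(s, p)` with `s • p = p` (`T_class`, `fx_conj`, `tc_self`). -/
theorem T_fx (hk : Odd C.k) {t : G} (ht : t ∈ T G X) :
    (T G X).card * fx X t = (1 + C.k + C.l) * C.k := by
  have h1 : ∑ s ∈ T G X, fx X s = (T G X).card * fx X t := by
    rw [← smul_eq_mul, ← Finset.sum_const]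
    refine Finset.sum_congr rfl fun s hs => ?_
    obtain ⟨g, rfl⟩ := C.T_class hk ht hs
    exact Gr.fx_conj g t
  rw [← h1, ← C.toGr.card_n, ← Finset.card_univ, ← smul_eq_mul, ← Finset.sum_const]
  exact (ot_comm (T G X) fun s (p : X) => s • p = p).trans
    (Finset.sum_congr rfl fun p _ => C.tc_self hk p)

/-- Sort the members of `T` by the image of `x` (`tri`, `tc_smul`, `tr1`, `tr2`). -/
theorem T_card (hk : Odd C.k) {x y z : X} (hy : y ∈ C.N1 x) (hz : z ∈ C.N2 x) :
    (T G X).card = C.k + C.k * tc G x y + C.l * tc G x z := by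
  rw [Finset.card_eq_sum_card_fiberwise (f := fun s : G => s • x) (t := Finset.univ)
    fun _ _ => Finset.mem_coe.2 (Finset.mem_univ _)]
  have h1 : ∑ p ∈ C.N1 x, tc G x p = C.k * tc G x y := by
    rw [← C.card1 x, ← smul_eq_mul, ← Finset.sum_const]
    refine Finset.sum_congr rfl fun p hp => ?_
    obtain ⟨g, h2, h3⟩ := C.tr1 hy hp
    rw [← tc_smul g x y, h2, h3]
  have h2 : ∑ p ∈ C.N2 x, tc G x p = C.l * tc G x z := by
    rw [← C.card2 x, ← smul_eq_mul, ← Finset.sum_const]
    refine Finset.sum_congr rfl fun p hp => ?_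
    obtain ⟨g, h2, h3⟩ := C.tr2 hz hp
    rw [← tc_smul g x z, h2, h3]
  rw [← h1, ← h2, ← C.tc_self hk x]
  exact C.ot_split x (tc G x)

/-- Count the pairs `(s, p)` with `s • p ∈ N1 p` (`T_class`, `al_conj`, `pair1`, `tc_smul`). -/
theorem T_al (hk : Odd C.k) {t : G} (ht : t ∈ T G X) {x y : X} (hy : y ∈ C.N1 x) :
    (T G X).card * C.al t = (1 + C.k + C.l) * (C.k * tc G x y) := by
  have h1 : ∑ s ∈ T G X, C.al s = (T G X).card * C.al t := by
    rw [← smul_eq_mul, ← Finset.sum_const]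
    refine Finset.sum_congr rfl fun s hs => ?_
    obtain ⟨g, rfl⟩ := C.T_class hk ht hs
    exact C.toGr.al_conj g t
  rw [← h1, ← C.toGr.card_n, ← Finset.card_univ, ← smul_eq_mul, ← Finset.sum_const]
  refine (ot_comm (T G X) fun s (p : X) => s • p ∈ C.N1 p).trans (Finset.sum_congr rfl fun p _ => ?_)
  rw [← Finset.sum_card_fiberwise_eq_card_filter, ← C.card1 p, ← smul_eq_mul, ← Finset.sum_const]
  refine Finset.sum_congr rfl fun q hq => ?_
  obtain ⟨g, h2, h3⟩ := C.toGr.pair1 hy hq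
  rw [← tc_smul g x y, h2, h3, tc]

theorem ot_sm (φ : G → ℕ) (hφ : ∀ g s : G, φ (g * s * g⁻¹) = φ s) (g : G) (x y : X) :
    sm (S2 G (g • x) (g • y)) φ = sm (S2 G x y) φ := by
  symm
  refine Finset.sum_bij' (fun s _ => g * s * g⁻¹) (fun s _ => g⁻¹ * s * g) (fun s hs => ?_)
    (fun s hs => ?_) (fun s _ => by group) (fun s _ => by group) fun s _ => (hφ g s).symm
  · simp only [Finset.mem_filter, Finset.mem_univ, true_and, Subgroup.mem_inf, mem_stabilizer_iff] at hs ⊢
    simp only [mul_smul, inv_smul_smul, hs.1, hs.2, and_self]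
  · simp only [Finset.mem_filter, Finset.mem_univ, true_and, Subgroup.mem_inf, mem_stabilizer_iff] at hs ⊢
    simp only [mul_smul, inv_smul_smul, hs.1, hs.2, and_self]

/-- The Frobenius identity: the elements of the stabiliser outside `K x` are the non-trivial
elements of the `k` complements `S2 G x y'`, `y' ∈ N1 x`, each in exactly one (`K_out`, `frob`,
`K_semi`), and these complements are conjugate (`tr1`). -/
theorem frob_id (φ : G → ℕ) (hφ : ∀ g s : G, φ (g * s * g⁻¹) = φ s) {x y : X} (hy : y ∈ C.N1 x) :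
    sm (stabilizer G x) φ + C.k * φ 1 = sm (C.K x) φ + C.k * sm (S2 G x y) φ := by
  classical
  have h1 : ∑ p ∈ C.N1 x, sm (S2 G x p) φ = C.k * sm (S2 G x y) φ := by
    rw [← C.card1 x, ← smul_eq_mul, ← Finset.sum_const]
    refine Finset.sum_congr rfl fun p hp => ?_
    obtain ⟨g, h2, h3⟩ := C.tr1 hy hp
    rw [← ot_sm φ hφ g x y, h2, h3]
  have h2 : C.k * φ 1 = ∑ g : G, if g = 1 then C.k * φ g else 0 := by simp
  rw [← h1, h2]
  simp only [sm, Finset.sum_filter]
  rw [Finset.sum_comm, ← Finset.sum_add_distrib, ← Finset.sum_add_distrib]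
  refine Finset.sum_congr rfl fun g _ => ?_
  simp only [Subgroup.mem_inf, mem_stabilizer_iff]
  by_cases g1 : g = 1
  · subst g1
    simp [C.card1 x, one_mem]
  rw [if_neg g1, add_zero]
  by_cases gx : g • x = x
  · by_cases gK : g ∈ C.K x
    · rw [if_pos gx, if_pos gK, Finset.sum_eq_zero fun p hp => if_neg fun h => g1 (C.K_semi gK hp h.2), add_zero]
    · obtain ⟨p, hp, hgp⟩ := C.K_out gx gK
      rw [if_pos gx, if_neg gK, zero_add, Finset.sum_eq_single_of_mem p hp fun q hq hne =>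
        if_neg fun h => g1 (C.frob gx hq hp hne h.2 hgp), if_pos ⟨gx, hgp⟩]
  · rw [if_neg gx, if_neg fun h => gx (C.K_fix h), Finset.sum_eq_zero fun p _ => if_neg fun h => gx h.1,
      add_zero]

end Cf

end CfsgLib.R3f
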